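import Cfsg.Agent.H17.FV0

/-! S5720, chunk `US`: simple modules in the defining characteristic are uniserial for `U`. -/

set_option autoImplicit false
set_option linter.unusedSectionVars false
set_option linter.unusedVariables false

open Module Polynomial H17.FV

namespace H21.FV

universe v w

variable {K A M : Type*} [Field K] [Ring A] [Algebra K A] [AddCommGroup M] [Module K M] [Module A M]
  [IsScalarTower K A M]

theorem split (e : A) (q : K[X]) (k : ℕ) (v : M) : aeval e (X ^ k * q) • v =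
    q.coeff 0 • e ^ k • v + aeval e q.divX • e ^ (k + 1) • v := by
  conv_lhs => rw [← X_mul_divX_add q, mul_add, ← mul_assoc, ← pow_succ, mul_comm (X ^ (k + 1)), mul_comm (X ^ k)]
  rw [map_add, map_mul, map_mul, map_pow, map_pow, aeval_X, aeval_C, add_smul, mul_smul, mul_smul,
    algebraMap_smul, add_comm]

theorem dvd_of {e : A} {v : M} {s : ℕ} (h0 : e ^ (s + 1) • v = 0) (h1 : e ^ s • v ≠ 0) {q : K[X]}
    (h : aeval e q • v = 0) : ∀ k ≤ s + 1, X ^ k ∣ q := fun k => by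
  induction k with
  | zero => simp
  | succ k ih =>
    intro hk
    obtain ⟨r, rfl⟩ := ih (by omega)
    obtain ⟨t, rfl⟩ : ∃ t, s = t + k := ⟨s - k, by omega⟩
    have h2 : aeval e (X ^ (t + k) * r) • v = 0 := by
      rw [pow_add, mul_assoc, map_mul, mul_smul, h, smul_zero]
    rw [split, h0, smul_zero, add_zero] at h2
    rw [pow_succ]
    exact mul_dvd_mul_left _ (X_dvd_iff.2 ((smul_eq_zero.1 h2).resolve_right h1))

theorem cyc {e : A} {v : M} {s : ℕ} (h0 : e ^ (s + 1) • v = 0) (h1 : e ^ s • v ≠ 0)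
    (h : ∀ m : M, ∃ q : K[X], aeval e q • v = m) :
    ∃ b : Basis (Fin (s + 1)) K M, ∀ i, b i = e ^ (i : ℕ) • v := by
  refine ⟨Basis.mk (v := fun i : Fin (s + 1) => e ^ (i : ℕ) • v) ?_ fun m _ => ?_, fun i => Basis.mk_apply _ _ _⟩
  · rw [Fintype.linearIndependent_iff]
    intro g hg i
    have := X_pow_dvd_iff.1 (dvd_of h0 h1 (q := ∑ i : Fin (s + 1), monomial (i : ℕ) (g i))
      (by simpa [Finset.sum_smul, aeval_monomial, mul_smul] using hg) _ le_rfl) i i.2
    rw [finsetSum_coeff, Finset.sum_eq_single i (fun j _ hj => by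
      rw [coeff_monomial, if_neg fun k => hj (Fin.ext k)]) (by simp)] at this
    simpa using this
  · obtain ⟨q, rfl⟩ := h m
    rw [aeval_eq_sum_range, Finset.sum_smul]
    refine Submodule.sum_mem _ fun i _ => ?_
    rw [smul_assoc]
    refine Submodule.smul_mem _ _ ?_
    by_cases hi : i < s + 1
    · exact Submodule.subset_span ⟨⟨i, hi⟩, rfl⟩
    · obtain ⟨t, rfl⟩ : ∃ t, i = t + (s + 1) := ⟨i - (s + 1), by omega⟩
      rw [pow_add, mul_smul, h0, smul_zero]; exact zero_mem _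

variable {p : ℕ} [hp : Fact p.Prime] [CharP K p] (D : Dat K A p)

theorem wt_of {m : M} {j : ℕ} (h : ∀ l : (ZMod p)ˣ, D.H l • m = D.φ ((l : ZMod p) ^ j) • m) : D.π j • m = m := by
  rw [Dat.π, neg_smul, Finset.sum_smul, Finset.sum_congr rfl (g := fun _ => m) fun l _ => by
    rw [smul_assoc, h, smul_smul, ← map_mul, ← mul_pow, Units.inv_mul, one_pow, map_one, one_smul]]
  rw [Finset.sum_const, Finset.card_univ, ZMod.card_units, ← Nat.cast_smul_eq_nsmul K,
    Nat.cast_sub hp.out.one_le, CharP.cast_eq_zero, ← neg_smul]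
  simp

theorem top_of (hs : IsSimpleModule A M) (S : Submodule K M) (hU : ∀ c, ∀ m ∈ S, D.U c • m ∈ S)
    (hH : ∀ l, ∀ m ∈ S, D.H l • m ∈ S) (hw : ∀ m ∈ S, D.w • m ∈ S) {v : M} (v0 : v ≠ 0) (hv : v ∈ S) (m : M) :
    m ∈ S := by
  have k : ∀ y : A, ∀ m ∈ S, y • m ∈ S := fun y => by
    have h : y ∈ Algebra.adjoin K (Set.range D.U ∪ Set.range D.H ∪ {D.w}) := D.gen ▸ Algebra.mem_top
    induction h using Algebra.adjoin_induction with
    | mem x hx =>
      rcases hx with (⟨c, rfl⟩ | ⟨l, rfl⟩) | rfl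
      exacts [hU c, hH l, hw]
    | algebraMap r => exact fun m hm => by rw [algebraMap_smul]; exact S.smul_mem r hm
    | add x y _ _ a b => exact fun m hm => by rw [add_smul]; exact S.add_mem (a m hm) (b m hm)
    | mul x y _ _ a b => exact fun m hm => by rw [mul_smul]; exact a _ (b m hm)
  let T : Submodule A M := ⟨S.toAddSubmonoid, fun y m hm => k y m hm⟩
  rcases eq_bot_or_eq_top T with h | h
  · exact absurd ((Submodule.mem_bot A).1 (h ▸ (show v ∈ T from hv))) v0
  · exact (show m ∈ T from h ▸ Submodule.mem_top)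

theorem us : US.{v, w} := by
  intro K A M _ _ _ _ _ _ _ _ p hp _ D ν hp11 hν ef hs
  classical
  have nt : Nontrivial M := IsSimpleModule.nontrivial A M
  have ex : ∃ n, ∀ m : M, D.e ^ n • m = 0 := ⟨p, fun m => by rw [ef.ep, zero_smul]⟩
  obtain ⟨n, hn⟩ : ∃ n, Nat.find ex = n + 1 := Nat.exists_eq_add_one.2 (Nat.pos_of_ne_zero fun k => by
    obtain ⟨m, hm⟩ := exists_ne (0 : M)
    have := Nat.find_spec ex m
    rw [k, pow_zero, one_smul] at this
    exact hm this)
  have n1 : ∀ m : M, D.e ^ (n + 1) • m = 0 := hn ▸ Nat.find_spec ex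
  obtain ⟨m, hm⟩ := not_forall.1 (Nat.find_min ex (m := n) (by omega))
  obtain ⟨j, hj⟩ : ∃ j, D.e ^ n • D.π j • m ≠ 0 := by
    by_contra! k
    refine hm ?_
    rw [← one_smul A m, ← ef.sum, Finset.sum_smul, Finset.smul_sum]
    exact Finset.sum_eq_zero fun j _ => k j
  have eπ : ∀ i, D.e ^ i * D.π j = D.π (j + 2 * i) * D.e ^ i := fun i => by
    induction i with
    | zero => simp
    | succ i ih => rw [pow_succ', mul_assoc, ih, ← mul_assoc, ef.eπ, mul_assoc]; rfl
  obtain ⟨u, hu⟩ : ∃ u, u = D.e ^ n • D.π j • m := ⟨_, rfl⟩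
  rw [← hu] at hj
  have eu : D.e • u = 0 := by rw [hu, ← mul_smul, ← pow_succ', n1]
  have Hu : ∀ l : (ZMod p)ˣ, D.H l • u = D.φ ((l : ZMod p) ^ (j + 2 * n)) • u := fun l => by
    rw [hu, ← mul_smul (D.e ^ n), eπ, ← mul_smul, ← mul_assoc, ef.Hπ, smul_mul_assoc, smul_assoc]
  have Uq : ∀ c, ∃ q : K[X], D.U c = 1 - D.φ c • D.e + D.e * D.e * aeval D.e q := fun c => by
    obtain ⟨y, hy, e⟩ := ef.Ue c
    rw [Algebra.adjoin_singleton_eq_range_aeval] at hy
    obtain ⟨q, rfl⟩ := hy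
    exact ⟨q, e⟩
  have Ux : ∀ c, ∀ x : M, D.e • x = 0 → D.U c • x = x := fun c x hx => by
    obtain ⟨q, e⟩ := Uq c
    have : D.e * D.e * aeval D.e q = aeval D.e (q * X) * D.e := by
      simpa using congrArg (aeval D.e) (show X * X * q = q * X * X by ring)
    rw [e, this, add_smul, sub_smul, one_smul, smul_assoc, mul_smul, hx, smul_zero, smul_zero]; simp
  have Hw : ∀ l : (ZMod p)ˣ, D.H l • D.w • u = D.φ (((l⁻¹ : (ZMod p)ˣ) : ZMod p) ^ (j + 2 * n)) • D.w • u :=
    fun l => by rw [← mul_smul, ← inv_inv l, ← D.wH, mul_smul, Hu, smul_comm, inv_inv]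
  have w0 : ∀ x : M, D.w • x = 0 → x = 0 := fun x hx => by
    rw [← one_smul A x, ← D.zz, ← D.ww, mul_smul, mul_smul D.w D.w x, hx, smul_zero, smul_zero]
  let S := Submodule.span K (insert u (Set.range fun c => D.U c • D.w • u))
  have uS : u ∈ S := Submodule.subset_span (Set.mem_insert _ _)
  have cS : ∀ c, D.U c • D.w • u ∈ S := fun c => Submodule.subset_span (Set.mem_insert_of_mem _ ⟨c, rfl⟩)
  have st : ∀ y : A, y • u ∈ S → (∀ c, y • D.U c • D.w • u ∈ S) → ∀ x ∈ S, y • x ∈ S := fun y a b x hx => by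
    refine Submodule.span_le (p := S.comap (act K M y)) |>.2 ?_ hx
    rintro _ (rfl | ⟨c, rfl⟩)
    exacts [a, b c]
  have hH : ∀ l, ∀ x ∈ S, D.H l • x ∈ S := fun l => st _ (by rw [Hu]; exact S.smul_mem _ uS) fun c => by
    rw [← mul_smul, D.HU, mul_smul, Hw, smul_comm]; exact S.smul_mem _ (cS _)
  have all := top_of D hs S (fun b => st _ (by rw [Ux b u eu]; exact uS) fun c => by
    rw [← mul_smul, ← D.Uadd]; exact cS _) hH (st _ (by simpa [D.U0] using cS 0) fun c => by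
      by_cases c0 : c = 0
      · rw [c0, D.U0, one_smul, ← mul_smul, D.ww]; exact hH _ _ uS
      · obtain ⟨l, rfl⟩ : ∃ l : (ZMod p)ˣ, c = -(l : ZMod p) := ⟨Units.mk0 (-c) (neg_ne_zero.2 c0), by simp⟩
        rw [← mul_smul, ← mul_smul, D.wUw, mul_smul, Ux _ u eu, mul_smul, Hu, smul_comm, mul_smul, mul_smul]
        exact S.smul_mem _ (hH _ _ (cS _))) hj uS
  let f : K[X] →ₗ[K] M := (LinearMap.toSpanSingleton A M (D.w • u)).restrictScalars K ∘ₗ (aeval D.e).toLinearMap
  have fe : ∀ q, f q = aeval D.e q • D.w • u := fun q => rfl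
  have cP : ∀ c, D.U c • D.w • u ∈ LinearMap.range f := fun c => by
    obtain ⟨q, e⟩ := Uq c
    exact ⟨1 - D.φ c • X + X * X * q, by rw [fe, e]; simp⟩
  have eP : ∀ x, D.e • x ∈ LinearMap.range f := fun x => by
    refine Submodule.span_le (p := (LinearMap.range f).comap (act K M D.e)) |>.2 ?_ (all x)
    rintro _ (rfl | ⟨c, rfl⟩)
    · exact ⟨0, by rw [map_zero]; exact eu.symm⟩
    · obtain ⟨q, hq⟩ := cP c
      exact ⟨X * q, by rw [fe, map_mul, aeval_X, mul_smul, ← fe, hq]; rfl⟩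
  have uP : u ∈ LinearMap.range f := by
    rcases n with _ | n
    · have k := congrArg (· • u) (D.wUw 1)
      have e0 : ∀ x : M, D.e • x = 0 := by simpa using n1
      simp only [mul_smul, Ux _ _ (e0 _), D.H1, one_smul] at k
      rw [← mul_smul, D.ww] at k
      refine ⟨1, ?_⟩
      rw [fe, map_one, one_smul, ← one_smul A (D.w • u), ← D.zz, mul_smul, ← k, ← mul_smul, D.zz, one_smul]
    · rw [hu, pow_succ', mul_smul]; exact eP _
  have P : ∀ x : M, ∃ q : K[X], aeval D.e q • D.w • u = x := fun x => by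
    refine Submodule.span_le (p := LinearMap.range f) |>.2 ?_ (all x)
    rintro _ (rfl | ⟨c, rfl⟩)
    exacts [uP, cP c]
  have ex2 : ∃ s, D.e ^ s • D.w • u = 0 := ⟨_, n1 _⟩
  obtain ⟨s, hs⟩ : ∃ s, Nat.find ex2 = s + 1 := Nat.exists_eq_add_one.2 (Nat.pos_of_ne_zero fun k => by
    have := Nat.find_spec ex2
    rw [k, pow_zero, one_smul] at this
    exact hj (w0 _ this))
  have s1 : D.e ^ (s + 1) • D.w • u = 0 := hs ▸ Nat.find_spec ex2
  have s0 : D.e ^ s • D.w • u ≠ 0 := Nat.find_min ex2 (m := s) (by omega)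
  obtain ⟨q, hq⟩ := P u
  obtain ⟨r, rfl⟩ : X ^ s ∣ q := (mul_dvd_mul_iff_left X_ne_zero).1 (by
    rw [← pow_succ']
    exact dvd_of s1 s0 (by rw [map_mul, aeval_X, mul_smul, hq, eu]) _ le_rfl)
  rw [split, s1, smul_zero, add_zero] at hq
  have r0 : r.coeff 0 ≠ 0 := fun k => hj (by rw [← hq, k, zero_smul])
  refine ⟨s + 1, (p - 2) * (j + 2 * n), D.w • u, (r.coeff 0)⁻¹, s.succ_pos, cyc s1 s0 P, s1,
    wt_of D fun l => ?_, inv_ne_zero r0, ?_⟩
  · rw [Hw, pow_mul]
    congr 3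
    have := ZMod.units_pow_card_sub_one_eq_one p l
    rw [show p - 1 = p - 2 + 1 by omega, pow_succ] at this
    rw [← Units.val_pow_eq_pow_val, eq_inv_of_mul_eq_one_left this]
  · rw [Nat.add_sub_cancel, eq_inv_smul_iff₀ r0, smul_comm, hq]

end H21.FV
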