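import Mathlib.GroupTheory.Perm.Basic
import Mathlib.Data.Nat.Bitwise
import Mathlib.Data.Fintype.EquivFin
import Mathlib.Algebra.BigOperators.Group.List.Basic
import Mathlib.Tactic

/-! Permutations of `Fin n` coded by natural numbers (four bits a point), for kernel checks. -/

set_option autoImplicit false

namespace H21.MC

open Equiv

def frc {β : Type} (x : ℕ) (f : ℕ → β) : β := Nat.casesOn x (f 0) (fun y => f (Nat.succ y))

theorem frc_eq {β : Type} (x : ℕ) (f : ℕ → β) : frc x f = f x := by cases x <;> rfl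

def dg (w c i : ℕ) : ℕ := Nat.mod (Nat.shiftRight c (Nat.mul w i)) (Nat.pow 2 w)

theorem dg_eq (w c i : ℕ) : dg w c i = c / 2 ^ (w * i) % 2 ^ w := by
  show (c >>> (w * i)) % 2 ^ w = _
  rw [Nat.shiftRight_eq_div_pow]

theorem dg_lt (w c i : ℕ) : dg w c i < 2 ^ w := by
  rw [dg_eq]; exact Nat.mod_lt _ (by positivity)

theorem dg_zero (w i : ℕ) : dg w 0 i = 0 := by simp [dg_eq]

noncomputable def pk (w : ℕ) (f : ℕ → ℕ) (k : ℕ) : ℕ :=
  Nat.rec 0 (fun i acc => Nat.add acc (Nat.shiftLeft (Nat.mod (f i) (Nat.pow 2 w)) (Nat.mul w i))) k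

theorem pk_succ (w : ℕ) (f : ℕ → ℕ) (k : ℕ) :
    pk w f (k + 1) = pk w f k + 2 ^ (w * k) * (f k % 2 ^ w) := by
  show pk w f k + (f k % 2 ^ w) <<< (w * k) = _
  rw [Nat.shiftLeft_eq, mul_comm]

theorem pk_lt (w : ℕ) (f : ℕ → ℕ) (k : ℕ) : pk w f k < 2 ^ (w * k) := by
  induction k with
  | zero => simp [pk]
  | succ k ih =>
    rw [pk_succ, mul_add, mul_one, pow_add]
    have : f k % 2 ^ w + 1 ≤ 2 ^ w := Nat.mod_lt _ (by positivity)
    have := Nat.mul_le_mul_left (2 ^ (w * k)) this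
    nlinarith

theorem dg_pk (w : ℕ) (f : ℕ → ℕ) {k i : ℕ} (h : i < k) : dg w (pk w f k) i = f i % 2 ^ w := by
  induction k with
  | zero => omega
  | succ k ih =>
    rw [dg_eq, pk_succ]
    rcases Nat.lt_succ_iff_lt_or_eq.1 h with h | rfl
    · obtain ⟨j, rfl⟩ := Nat.exists_eq_add_of_lt h
      rw [← ih h, dg_eq, show 2 ^ (w * (i + j + 1)) = 2 ^ (w * i) * (2 ^ w * 2 ^ (w * j)) by ring,
        mul_assoc, Nat.add_mul_div_left _ _ (by positivity), mul_assoc, Nat.add_mul_mod_self_left]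
    · rw [Nat.add_mul_div_left _ _ (by positivity), Nat.div_eq_of_lt (pk_lt w f i), zero_add,
        Nat.mod_mod]

noncomputable def allB (f : ℕ → Bool) (k : ℕ) : Bool :=
  Nat.rec true (fun i acc => Bool.and (f i) acc) k

theorem allB_spec {f : ℕ → Bool} {k : ℕ} (h : allB f k = true) : ∀ i < k, f i = true := by
  induction k with
  | zero => intro i hi; omega
  | succ k ih =>
    have h : (f k && allB f k) = true := h
    rw [Bool.and_eq_true] at h
    intro i hi
    rcases Nat.lt_succ_iff_lt_or_eq.1 hi with hi | rfl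
    · exact ih h.2 i hi
    · exact h.1

theorem allB_of {f : ℕ → Bool} {k : ℕ} (h : ∀ i < k, f i = true) : allB f k = true := by
  induction k with
  | zero => rfl
  | succ k ih =>
    show (f k && allB f k) = true
    rw [h k (by omega), ih fun i hi => h i (by omega)]; rfl

def all2 {β : Type} (f : ℕ → β → Bool) : List ℕ → List β → Bool
  | [], _ => true
  | _ :: _, [] => false
  | r :: rs, w :: ws => f r w && all2 f rs ws

theorem all2_spec {β : Type} {f : ℕ → β → Bool} :
    ∀ {l : List ℕ} {m : List β}, all2 f l m = true → ∀ r ∈ l, ∃ w, f r w = true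
  | [], _, _ => by simp
  | _ :: _, [], h => by simp [all2] at h
  | r :: rs, w :: ws, h => by
    simp only [all2, Bool.and_eq_true] at h
    intro s hs
    rcases List.mem_cons.1 hs with rfl | hs
    · exact ⟨w, h.1⟩
    · exact all2_spec h.2 s hs

noncomputable def mul (n a b : ℕ) : ℕ := pk 4 (fun i => dg 4 a (dg 4 b i)) n

noncomputable def msk (c k : ℕ) : ℕ := Nat.rec 0 (fun i acc => Nat.lor acc (Nat.pow 2 (dg 4 c i))) k

theorem msk_bit (c k j : ℕ) : (msk c k).testBit j = true ↔ ∃ i < k, dg 4 c i = j := by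
  induction k with
  | zero => simp [msk]
  | succ k ih =>
    have : msk c (k + 1) = msk c k ||| 2 ^ dg 4 c k := rfl
    rw [this, Nat.testBit_or, Bool.or_eq_true, ih, Nat.testBit_two_pow, decide_eq_true_eq]
    constructor
    · rintro (⟨i, hi, e⟩ | e)
      · exact ⟨i, by omega, e⟩
      · exact ⟨k, by omega, e⟩
    · rintro ⟨i, hi, e⟩
      rcases Nat.lt_succ_iff_lt_or_eq.1 hi with hi | rfl
      · exact Or.inl ⟨i, hi, e⟩
      · exact Or.inr e

noncomputable def val (n c : ℕ) : Bool := Nat.beq (Nat.succ (msk c n)) (Nat.pow 2 n)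

def IsP (n c : ℕ) (σ : Perm (Fin n)) : Prop := ∀ i : Fin n, (σ i : ℕ) = dg 4 c i

def Vd (n c : ℕ) : Prop := ∃ σ, IsP n c σ

open Classical in
noncomputable def P (n c : ℕ) : Perm (Fin n) := if h : Vd n c then h.choose else 1

variable {n : ℕ}

theorem Vd.isP {c : ℕ} (h : Vd n c) : IsP n c (P n c) := by
  rw [P, dif_pos h]; exact h.choose_spec

theorem IsP.eq {c : ℕ} {σ : Perm (Fin n)} (h : IsP n c σ) : P n c = σ := by
  ext i; rw [Vd.isP ⟨σ, h⟩ i, h i]

theorem vd_of_val {c : ℕ} (h : val n c = true) : Vd n c := by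
  have h : msk c n + 1 = 2 ^ n := Nat.eq_of_beq_eq_true h
  have h2 : ∀ j, (∃ i < n, dg 4 c i = j) ↔ j < n := fun j => by
    rw [← msk_bit, show msk c n = 2 ^ n - 1 by omega, Nat.testBit_two_pow_sub_one,
      decide_eq_true_eq]
  let f : Fin n → Fin n := fun i => ⟨dg 4 c i, (h2 _).1 ⟨i, i.2, rfl⟩⟩
  have hs : Function.Surjective f := fun j => by
    obtain ⟨i, hi, e⟩ := (h2 j).2 j.2
    exact ⟨⟨i, hi⟩, Fin.ext e⟩
  exact ⟨Equiv.ofBijective f (Finite.surjective_iff_bijective.1 hs), fun i => rfl⟩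

theorem IsP.mul {a b : ℕ} {σ τ : Perm (Fin n)} (ha : IsP n a σ) (hb : IsP n b τ) :
    IsP n (mul n a b) (σ * τ) := fun i => by
  rw [MC.mul, dg_pk _ _ i.2, Nat.mod_eq_of_lt (dg_lt _ _ _), Perm.mul_apply, ha, hb]

theorem Vd.mul {a b : ℕ} (ha : Vd n a) (hb : Vd n b) : Vd n (mul n a b) :=
  ⟨_, ha.isP.mul hb.isP⟩

theorem P_mul {a b : ℕ} (ha : Vd n a) (hb : Vd n b) : P n (mul n a b) = P n a * P n b :=
  (ha.isP.mul hb.isP).eq

/-- word times `c` -/
noncomputable def lw (n : ℕ) (ts : List ℕ) : List ℕ → ℕ → ℕ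
  | [], c => c
  | i :: w, c => match ts[i]? with
    | some g => frc (lw n ts w c) (mul n g)
    | none => lw n ts w c

/-- `c` times word -/
noncomputable def rw' (n : ℕ) (ts : List ℕ) : List ℕ → ℕ → ℕ
  | [], c => c
  | i :: w, c => match ts[i]? with
    | some g => frc (mul n c g) (rw' n ts w)
    | none => rw' n ts w c

noncomputable def wp (n : ℕ) (ts : List ℕ) : List ℕ → Perm (Fin n)
  | [] => 1
  | i :: w => match ts[i]? with
    | some g => P n g * wp n ts w
    | none => wp n ts w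

theorem lw_spec {ts : List ℕ} (ht : ∀ g ∈ ts, Vd n g) {c : ℕ} (hc : Vd n c) (w : List ℕ) :
    Vd n (lw n ts w c) ∧ P n (lw n ts w c) = wp n ts w * P n c := by
  induction w with
  | nil => exact ⟨hc, by simp [lw, wp]⟩
  | cons i w ih =>
    cases e : ts[i]? with
    | none => simpa only [lw, wp, e] using ih
    | some g =>
      have hg := ht g (List.mem_of_getElem? e)
      simp only [lw, wp, e, frc_eq]
      exact ⟨hg.mul ih.1, by rw [P_mul hg ih.1, ih.2, mul_assoc]⟩

theorem rw_spec {ts : List ℕ} (ht : ∀ g ∈ ts, Vd n g) (w : List ℕ) :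
    ∀ {c : ℕ}, Vd n c → P n (rw' n ts w c) = P n c * wp n ts w := by
  induction w with
  | nil => intro c _; simp [rw', wp]
  | cons i w ih =>
    intro c hc
    cases e : ts[i]? with
    | none => simpa only [rw', wp, e] using ih hc
    | some g =>
      have hg := ht g (List.mem_of_getElem? e)
      simp only [rw', wp, e, frc_eq]
      rw [ih (hc.mul hg), P_mul hc hg, mul_assoc]

theorem wp_rep (g k : ℕ) : wp n [g] (List.replicate k 0) = P n g ^ k := by
  induction k with
  | zero => simp [wp]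
  | succ k ih => rw [List.replicate_succ, pow_succ', ← ih]; rfl

theorem vd_all {l : List ℕ} (h : l.all (val n) = true) : ∀ g ∈ l, Vd n g := fun g hg =>
  vd_of_val (List.all_eq_true.1 h g hg)

/-- `g ^ k = 1` -/
noncomputable def powChk (n g k : ℕ) : Bool := Nat.beq (lw n [g] (List.replicate k 0) g) g

theorem pow_of_chk {g k : ℕ} (hg : Vd n g) (h : powChk n g k = true) : P n g ^ k = 1 := by
  have h := Nat.eq_of_beq_eq_true h
  have := (lw_spec (ts := [g]) (by simpa using hg) hg (List.replicate k 0)).2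
  rw [h, wp_rep] at this
  simpa using this

noncomputable def neChk (n g : ℕ) : Bool := !allB (fun i => Nat.beq (dg 4 g i) i) n

theorem ne_of_chk {g : ℕ} (hg : Vd n g) (h : neChk n g = true) : P n g ≠ 1 := fun e => by
  rw [neChk, allB_of] at h
  · simp at h
  · intro i hi
    have := hg.isP ⟨i, hi⟩
    rw [e] at this
    exact Nat.beq_eq ▸ this.symm

end H21.MC
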