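import Cfsg.Agent.H21.MC1
import Mathlib.LinearAlgebra.FiniteDimensional.Lemmas
import Mathlib.LinearAlgebra.Dimension.Constructions
import Mathlib.Algebra.Field.ZMod
import Mathlib.Algebra.Polynomial.AlgebraMap
import Mathlib.Algebra.CharP.Lemmas
import Mathlib.Algebra.Polynomial.Basic

/-! Inequalities between dimensions of fixed spaces, from checked data. -/

set_option autoImplicit false
set_option linter.unusedSectionVars false

namespace H21.MC

open Equiv Module

variable {n p : ℕ} [Fact p.Prime] {V : Type*} [AddCommGroup V] [Module (ZMod p) V]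
  [FiniteDimensional (ZMod p) V] (ρ : Perm (Fin n) →* Module.End (ZMod p) V)

def C (l : List ℕ) : Submodule (ZMod p) V where
  carrier := {v | ∀ g ∈ l, ρ (P n g) v = v}
  add_mem' ha hb g hg := by rw [map_add, ha g hg, hb g hg]
  zero_mem' g _ := map_zero _
  smul_mem' c v hv g hg := by rw [map_smul, hv g hg]

noncomputable def d (l : List ℕ) : ℕ := finrank (ZMod p) (C ρ l)

variable {ρ}

theorem mem_C {l : List ℕ} {v : V} : v ∈ C ρ l ↔ ∀ g ∈ l, ρ (P n g) v = v := Iff.rfl

theorem C_append (l m : List ℕ) : C ρ (l ++ m) = C ρ l ⊓ C ρ m := by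
  ext v; simp only [mem_C, Submodule.mem_inf, List.mem_append, or_imp, forall_and]

theorem ap_mul (g h : Perm (Fin n)) (v : V) : ρ (g * h) v = ρ g (ρ h v) := by
  rw [map_mul]; rfl

theorem ap_one (v : V) : ρ 1 v = v := by rw [map_one]; rfl

theorem ap_inj (g : Perm (Fin n)) : Function.Injective (ρ g) := fun v w h => by
  have := congrArg (ρ g⁻¹) h
  rwa [← ap_mul, ← ap_mul, inv_mul_cancel, ap_one, ap_one] at this

theorem wp_fix {l : List ℕ} {v : V} (hv : v ∈ C ρ l) (w : List ℕ) : ρ (wp n l w) v = v := by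
  induction w with
  | nil => exact ap_one v
  | cons i w ih =>
    cases e : l[i]? with
    | none => simpa only [wp, e] using ih
    | some g =>
      simp only [wp, e]
      rw [ap_mul, ih, hv g (List.mem_of_getElem? e)]

noncomputable def monChk (n : ℕ) (src tgt : List ℕ) (c : ℕ) (ws : List (List ℕ)) : Bool :=
  val n c && src.all (val n) &&
    all2 (fun r w => val n r && Nat.beq (mul n c r) (lw n src w c)) tgt ws

theorem conj_of_chk {ts : List ℕ} (ht : ∀ g ∈ ts, Vd n g) {c r : ℕ} (hc : Vd n c) {w : List ℕ}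
    (h : (val n r && Nat.beq (mul n c r) (lw n ts w c)) = true) :
    P n r * (P n c)⁻¹ = (P n c)⁻¹ * wp n ts w := by
  rw [Bool.and_eq_true] at h
  have e := congrArg (P n) (Nat.eq_of_beq_eq_true h.2)
  rw [P_mul hc (vd_of_val h.1), (lw_spec ht hc w).2] at e
  rw [eq_inv_mul_iff_mul_eq, ← mul_assoc, e, mul_inv_cancel_right]

theorem mon_core {src tgt : List ℕ} {c : ℕ} {ws : List (List ℕ)}
    (h : monChk n src tgt c ws = true) : (C ρ src).map (ρ (P n c)⁻¹) ≤ C ρ tgt := by
  simp only [monChk, Bool.and_eq_true] at h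
  rintro _ ⟨v, hv, rfl⟩ r hr
  obtain ⟨w, hw⟩ := all2_spec h.2 r hr
  rw [← ap_mul, conj_of_chk (vd_all h.1.2) (vd_of_val h.1.1) hw, ap_mul, wp_fix hv]

theorem finrank_map_ap (U : Submodule (ZMod p) V) (g : Perm (Fin n)) :
    finrank (ZMod p) (U.map (ρ g)) = finrank (ZMod p) U :=
  (LinearEquiv.finrank_eq (Submodule.equivMapOfInjective _ (ap_inj g) U)).symm

variable (ρ) in
theorem mon {src tgt : List ℕ} {c : ℕ} {ws : List (List ℕ)}
    (h : monChk n src tgt c ws = true) : d ρ src ≤ d ρ tgt := by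
  rw [d, ← finrank_map_ap (ρ := ρ) _ (P n c)⁻¹]
  exact Submodule.finrank_mono (mon_core h)

variable (ρ) in
theorem sub {a b k j a' b' : List ℕ} {c1 c2 c3 : ℕ} {w1 w2 w3 : List (List ℕ)}
    (h : (monChk n a (a' ++ k) c1 w1 && monChk n b (b' ++ k) c2 w2 &&
      monChk n (a' ++ b') j c3 w3) = true) : d ρ a + d ρ b ≤ d ρ k + d ρ j := by
  simp only [Bool.and_eq_true] at h
  have h1 := mon_core (ρ := ρ) h.1.1
  have h2 := mon_core (ρ := ρ) h.1.2
  have h3 := mon ρ h.2
  rw [C_append, le_inf_iff] at h1 h2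
  rw [d, C_append] at h3
  rw [d, d, ← finrank_map_ap (ρ := ρ) _ (P n c1)⁻¹, ← finrank_map_ap (ρ := ρ) (C ρ b) (P n c2)⁻¹,
    ← Submodule.finrank_sup_add_finrank_inf_eq]
  exact add_le_add (Submodule.finrank_mono (sup_le h1.2 h2.2))
    ((Submodule.finrank_mono (inf_le_inf h1.1 h2.1)).trans h3)

theorem finrank_step (U W : Submodule (ZMod p) V) (f : Module.End (ZMod p) V)
    (h : U.map f ≤ W) :
    finrank (ZMod p) U ≤ finrank (ZMod p) W + finrank (ZMod p) ↥(U ⊓ LinearMap.ker f) := by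
  have h1 := LinearMap.finrank_range_add_finrank_ker (f.domRestrict U)
  rw [LinearMap.range_domRestrict, LinearMap.ker_domRestrict] at h1
  have h2 := Submodule.finrank_mono h
  have h3 : finrank (ZMod p) ↥(Submodule.comap U.subtype (LinearMap.ker f)) =
      finrank (ZMod p) ↥(U ⊓ LinearMap.ker f) := by
    rw [← Submodule.finrank_map_subtype_eq, Submodule.map_comap_subtype]
  omega

theorem finrank_nil (U : Submodule (ZMod p) V) (T : Module.End (ZMod p) V) (h : U.map T ≤ U)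
    (k : ℕ) : finrank (ZMod p) ↥(U ⊓ LinearMap.ker (T ^ k)) ≤
      k * finrank (ZMod p) ↥(U ⊓ LinearMap.ker T) := by
  have hU : ∀ k, ∀ v ∈ U, (T ^ k) v ∈ U := fun k => by
    induction k with
    | zero => simp
    | succ k ih => intro v hv; rw [pow_succ']; exact h ⟨_, ih v hv, rfl⟩
  induction k with
  | zero =>
    rw [pow_zero, show LinearMap.ker (1 : Module.End (ZMod p) V) = ⊥ from LinearMap.ker_id]
    simp
  | succ k ih =>
    have := finrank_step (U ⊓ LinearMap.ker (T ^ (k + 1))) (U ⊓ LinearMap.ker T) (T ^ k) (by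
      rintro _ ⟨v, ⟨h1, h2⟩, rfl⟩
      refine ⟨hU k v h1, ?_⟩
      rw [pow_succ'] at h2; exact h2)
    have h2 : finrank (ZMod p) ↥(U ⊓ LinearMap.ker (T ^ (k + 1)) ⊓ LinearMap.ker (T ^ k)) ≤
        finrank (ZMod p) ↥(U ⊓ LinearMap.ker (T ^ k)) :=
      Submodule.finrank_mono (inf_le_inf_right _ inf_le_left)
    rw [add_mul]; omega

theorem sub_one_pow (s : Module.End (ZMod p) V) : (s - 1) ^ p = s ^ p - 1 := by
  have := congrArg (Polynomial.aeval s)
    (sub_pow_char (R := Polynomial (ZMod p)) (p := p) Polynomial.X 1)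
  simpa using this

variable (ρ) in
theorem idx {a b : List ℕ} {t c : ℕ} {w : List ℕ} {w1 w2 : List (List ℕ)}
    (h : (monChk n a a t w1 && Nat.beq (lw n [t] (List.replicate p 0) t) (lw n a w t) &&
      monChk n (t :: a) b c w2) = true) : d ρ a ≤ p * d ρ b := by
  simp only [Bool.and_eq_true] at h
  have h1 := mon_core (ρ := ρ) h.1.1
  have h3 := mon ρ h.2
  have h0 := h.1.1
  simp only [monChk, Bool.and_eq_true] at h0
  have ht := vd_of_val h0.1.1
  have e := congrArg (P n) (Nat.eq_of_beq_eq_true h.1.2)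
  rw [(lw_spec (ts := [t]) (by simpa using ht) ht _).2, (lw_spec (vd_all h0.1.2) ht _).2, wp_rep,
    mul_left_inj] at e
  have h4 := finrank_nil (C ρ a) (ρ (P n t)⁻¹ - 1) (by
    rintro _ ⟨v, hv, rfl⟩
    exact Submodule.sub_mem _ (h1 ⟨v, hv, rfl⟩) hv) p
  have h5 : C ρ a ⊓ LinearMap.ker ((ρ (P n t)⁻¹ - 1) ^ p) = C ρ a := by
    refine inf_eq_left.2 fun v hv => ?_
    rw [LinearMap.mem_ker, sub_one_pow, ← map_pow, inv_pow, e, LinearMap.sub_apply, sub_eq_zero]
    apply ap_inj (ρ := ρ) (wp n a w)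
    rw [← ap_mul, mul_inv_cancel, ap_one]
    exact (wp_fix hv w).symm
  have h6 : C ρ a ⊓ LinearMap.ker (ρ (P n t)⁻¹ - 1) ≤ C ρ (t :: a) := by
    rintro v ⟨hv, h2⟩ g hg
    rcases List.mem_cons.1 hg with rfl | hg
    · have h2 : ρ (P n g)⁻¹ v = v := sub_eq_zero.1 h2
      conv_lhs => rw [← h2]
      rw [← ap_mul, mul_inv_cancel, ap_one]
    · exact hv g hg
  rw [h5] at h4
  exact h4.trans (Nat.mul_le_mul_left _ ((Submodule.finrank_mono h6).trans h3))

variable (ρ) in
/-- no nonzero vector is fixed by a `(2,3,5)`- or `(2,3,7)`-pair -/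
def NoFix : Prop := ∀ a b : Perm (Fin n), a ≠ 1 → a ^ 2 = 1 → b ^ 3 = 1 →
  ((a * b) ^ 5 = 1 ∨ (a * b) ^ 7 = 1) → ∀ v, ρ a v = v → ρ b v = v → v = 0

noncomputable def zChk (n a b : ℕ) : Bool :=
  val n a && val n b && neChk n a && powChk n a 2 && powChk n b 3 &&
    (powChk n (mul n a b) 5 || powChk n (mul n a b) 7)

theorem zero (hz : NoFix ρ) {a b : ℕ} (h : zChk n a b = true) : d ρ [a, b] = 0 := by
  simp only [zChk, Bool.and_eq_true, Bool.or_eq_true] at h
  obtain ⟨⟨⟨⟨⟨ha, hb⟩, h1⟩, h2⟩, h3⟩, h4⟩ := h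
  have ha := vd_of_val ha
  have hb := vd_of_val hb
  rw [d, Submodule.finrank_eq_zero, eq_bot_iff]
  intro v hv
  refine hz _ _ (ne_of_chk ha h1) (pow_of_chk ha h2) (pow_of_chk hb h3) ?_ v (hv a (by simp))
    (hv b (by simp))
  rw [← P_mul ha hb]
  exact h4.imp (pow_of_chk (ha.mul hb)) (pow_of_chk (ha.mul hb))

theorem subsingleton_of_d (h : d ρ [] = 0) : Subsingleton V := by
  rw [d, Submodule.finrank_eq_zero, eq_bot_iff] at h
  exact subsingleton_of_forall_eq 0 fun v => h (show v ∈ C ρ [] from fun g hg => by simp at hg)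

end H21.MC
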