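import Cfsg.Agent.H21.MC2
import Mathlib.Algebra.Module.ZMod

/-! A checked surjection of permutation modules gives an inequality of fixed-space dimensions. -/

set_option autoImplicit false
set_option linter.unusedSectionVars false

namespace H21.MC

open Equiv Module Finset

structure Gen where
  t : ℕ
  π : ℕ
  σ : ℕ
  ws : List (List ℕ)

structure Tgt where
  rep : List ℕ
  c : ℕ
  a : ℕ
  ws : List (List ℕ)

noncomputable def genChk (n : ℕ) (src : List (List ℕ)) (m CI : ℕ) (G : List ℕ) (g : Gen) : Bool :=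
  val n g.t && allB (fun y => frc (dg 8 g.σ y) fun x =>
    Nat.blt x m && Nat.beq (dg 8 g.π x) y && Nat.blt (dg 8 g.π y) m &&
      Nat.beq (dg 8 g.σ (dg 8 g.π y)) y && Nat.beq (dg 8 CI x) (dg 8 CI y) &&
      Nat.beq (mul n g.t (G.getD x 0))
        (rw' n (src.getD (dg 8 CI y) []) (g.ws.getD y []) (G.getD y 0))) m

noncomputable def act (m σ a : ℕ) : ℕ := pk 8 (fun y => dg 8 a (dg 8 σ y)) m

noncomputable def actW (m : ℕ) (gs : List Gen) : List ℕ → ℕ → ℕ
  | [], a => a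
  | i :: w, a => match gs[i]? with
    | some g => frc (actW m gs w a) (act m g.σ)
    | none => actW m gs w a

noncomputable def tgtChk (n m : ℕ) (gs : List Gen) (T : Tgt) : Bool :=
  val n T.c && all2 (fun r w => (val n r &&
    Nat.beq (mul n T.c r) (lw n (gs.map Gen.t) w T.c)) && Nat.beq (actW m gs w T.a) T.a) T.rep T.ws

noncomputable def run (m : ℕ) (gs : List Gen) (k : List ℕ → Bool) :
    List (ℕ × ℕ) → List ℕ → Bool
  | [], Z => k Z
  | (i, j) :: r, Z => frc (actW m gs [i] (Z.getD j 0)) fun z => run m gs k r (z :: Z)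

def dot (y : ℕ) : List ℕ → List ℕ → ℕ
  | c :: cs, z :: zs => Nat.add (Nat.mul c (dg 8 z y)) (dot y cs zs)
  | _, _ => 0

noncomputable def rowChk (p m CI : ℕ) (Z : List ℕ) (i : ℕ) (r : ℕ × List ℕ) : Bool :=
  Nat.blt r.1 m && Nat.beq (dg 8 CI r.1) i &&
    allB (fun y => Nat.beq (Nat.mod (dot y r.2 Z) p) (cond (Nat.beq y r.1) 1 0)) m

noncomputable def pmChk (n p : ℕ) (src : List (List ℕ)) (m CI : ℕ) (G : List ℕ) (gs : List Gen)
    (tgt : List Tgt) (ins : List (ℕ × ℕ)) (rows : List (ℕ × List ℕ)) : Bool :=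
  src.all (fun l => l.all (val n)) && allB (fun x => val n (G.getD x 0)) m &&
    gs.all (genChk n src m CI G) && tgt.all (tgtChk n m gs) &&
    run m gs (fun Z => allB (fun i => rowChk p m CI Z i (rows.getD i (0, []))) src.length) ins
      (tgt.map Tgt.a)

variable {n p : ℕ} [Fact p.Prime] {V : Type*} [AddCommGroup V] [Module (ZMod p) V]
  [FiniteDimensional (ZMod p) V] (ρ : Perm (Fin n) →* Module.End (ZMod p) V)

noncomputable def pt (CI : ℕ) (G : List ℕ) (x : ℕ) : (ℕ → V) →ₗ[ZMod p] V :=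
  ρ (P n (G.getD x 0)) ∘ₗ LinearMap.proj (dg 8 CI x)

noncomputable def ev (m CI : ℕ) (G : List ℕ) (a : ℕ) : (ℕ → V) →ₗ[ZMod p] V :=
  ∑ x ∈ range m, dg 8 a x • pt ρ CI G x

variable {ρ} {src : List (List ℕ)} {m CI : ℕ} {G : List ℕ} {gs : List Gen} {u : ℕ → V}

theorem ev_apply (a : ℕ) : ev ρ m CI G a u = ∑ x ∈ range m, dg 8 a x • pt ρ CI G x u := by
  simp [ev, LinearMap.sum_apply]

theorem ev_gen (hs : ∀ i, ∀ g ∈ src.getD i [], Vd n g) (hG : ∀ x < m, Vd n (G.getD x 0))
    (hu : ∀ i, u i ∈ C ρ (src.getD i [])) {g : Gen} (h : genChk n src m CI G g = true) (a : ℕ) :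
    ρ (P n g.t) (ev ρ m CI G a u) = ev ρ m CI G (act m g.σ a) u := by
  simp only [genChk, Bool.and_eq_true, frc_eq] at h
  have ht := vd_of_val h.1
  have h2 := fun y hy => allB_spec h.2 y hy
  simp only [Bool.and_eq_true, Nat.blt_eq, Nat.beq_eq] at h2
  rw [ev_apply, ev_apply, map_sum]
  symm
  refine sum_nbij' (dg 8 g.σ) (dg 8 g.π) (fun y hy => mem_range.2 (h2 y (mem_range.1 hy)).1.1.1.1.1)
    (fun y hy => mem_range.2 (h2 y (mem_range.1 hy)).1.1.1.2)
    (fun y hy => (h2 y (mem_range.1 hy)).1.1.1.1.2) (fun y hy => (h2 y (mem_range.1 hy)).1.1.2)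
    fun y hy => ?_
  have hy := mem_range.1 hy
  obtain ⟨⟨⟨⟨⟨hx, -⟩, -⟩, -⟩, e1⟩, e2⟩ := h2 y hy
  have e2 := congrArg (P n) e2
  rw [P_mul ht (hG _ hx), rw_spec (hs _) _ (hG _ hy)] at e2
  rw [act, dg_pk _ _ hy, Nat.mod_eq_of_lt (dg_lt _ _ _), map_nsmul]
  congr 1
  show ρ _ (u _) = ρ _ (ρ _ (u _))
  rw [← ap_mul, e2, ap_mul, e1, wp_fix (hu _)]

theorem ev_word (hs : ∀ i, ∀ g ∈ src.getD i [], Vd n g) (hG : ∀ x < m, Vd n (G.getD x 0))
    (hu : ∀ i, u i ∈ C ρ (src.getD i [])) (h : gs.all (genChk n src m CI G) = true) (a : ℕ)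
    (w : List ℕ) :
    ρ (wp n (gs.map Gen.t) w) (ev ρ m CI G a u) = ev ρ m CI G (actW m gs w a) u := by
  induction w with
  | nil => exact ap_one _
  | cons i w ih =>
    cases e : gs[i]? with
    | none => simpa only [wp, actW, List.getElem?_map, e, Option.map_none] using ih
    | some g =>
      simp only [wp, actW, List.getElem?_map, e, Option.map_some, frc_eq]
      rw [ap_mul, ih, ev_gen hs hG hu (List.all_eq_true.1 h g (List.mem_of_getElem? e))]

theorem run_spec {Q : ℕ → Prop} (h0 : Q 0) (hQ : ∀ i a, Q a → Q (actW m gs [i] a))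
    {k : List ℕ → Bool} : ∀ {ins : List (ℕ × ℕ)} {Z : List ℕ}, (∀ z ∈ Z, Q z) →
      run m gs k ins Z = true → ∃ Z', (∀ z ∈ Z', Q z) ∧ k Z' = true
  | [], Z, hZ, h => ⟨Z, hZ, h⟩
  | (i, j) :: r, Z, hZ, h => by
    simp only [run, frc_eq] at h
    refine run_spec h0 hQ (fun z hz => ?_) h
    rcases List.mem_cons.1 hz with rfl | hz
    · apply hQ
      rw [List.getD_eq_getElem?_getD]
      cases e : Z[j]? with
      | none => exact h0
      | some x => exact hZ x (List.mem_of_getElem? e)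
    · exact hZ z hz

theorem dot_zero : ∀ (cs Z : List ℕ), (∀ z ∈ Z, ev ρ m CI G z u = 0) →
    ∑ y ∈ range m, dot y cs Z • pt ρ CI G y u = 0
  | [], _, _ => by simp [dot]
  | _ :: _, [], _ => by simp [dot]
  | c :: cs, z :: zs, h => by
    have h1 := dot_zero cs zs fun z hz => h z (List.mem_cons_of_mem _ hz)
    have h2 := h z (by simp)
    rw [ev_apply] at h2
    have : ∀ y, dot y (c :: cs) (z :: zs) = c * dg 8 z y + dot y cs zs := fun _ => rfl
    simp only [this, add_nsmul, mul_nsmul', sum_add_distrib, ← smul_sum, h1, h2]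
    simp

theorem row_zero {Z : List ℕ} (hZ : ∀ z ∈ Z, ev ρ m CI G z u = 0) {i : ℕ} {r : ℕ × List ℕ}
    (h : rowChk p m CI Z i r = true) : u i = 0 := by
  simp only [rowChk, Bool.and_eq_true, Nat.blt_eq, Nat.beq_eq] at h
  have h1 := dot_zero (ρ := ρ) (m := m) (CI := CI) (G := G) (u := u) r.2 Z hZ
  have h2 : ∀ y ∈ range m, dot y r.2 Z • pt ρ CI G y u =
      if y = r.1 then pt ρ CI G y u else 0 := fun y hy => by
    have e := Nat.eq_of_beq_eq_true (allB_spec h.2 y (mem_range.1 hy))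
    have e : dot y r.2 Z % p = cond (Nat.beq y r.1) 1 0 := e
    rw [← Nat.mod_add_div (dot y r.2 Z) p, add_nsmul, mul_nsmul,
      ZModModule.char_nsmul_eq_zero p, nsmul_zero, add_zero, e]
    split_ifs with h3
    · rw [Nat.beq_eq.mpr h3]; simp
    · rw [Bool.eq_false_iff.2 (mt Nat.eq_of_beq_eq_true h3)]; simp
  rw [sum_congr rfl h2, sum_ite_eq', if_pos (mem_range.2 h.1.1)] at h1
  apply ap_inj (ρ := ρ) (P n (G.getD r.1 0))
  rw [map_zero, ← h.1.2]
  exact h1

variable (ρ) in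
theorem pm {tgt : List Tgt} {ins : List (ℕ × ℕ)} {rows : List (ℕ × List ℕ)}
    (h : pmChk n p src m CI G gs tgt ins rows = true) :
    (src.map (d ρ)).sum ≤ (tgt.map fun T => d ρ T.rep).sum := by
  simp only [pmChk, Bool.and_eq_true] at h
  obtain ⟨⟨⟨⟨h1, h2⟩, h3⟩, h4⟩, h5⟩ := h
  have hs : ∀ i, ∀ g ∈ src.getD i [], Vd n g := fun i => by
    rw [List.getD_eq_getElem?_getD]
    cases e : src[i]? with
    | none => simp
    | some l => exact vd_all (List.all_eq_true.1 h1 l (List.mem_of_getElem? e))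
  have hG : ∀ x < m, Vd n (G.getD x 0) := fun x hx => vd_of_val (allB_spec h2 x hx)
  have hts : ∀ g ∈ gs.map Gen.t, Vd n g := fun g hg => by
    obtain ⟨g, hg', rfl⟩ := List.mem_map.1 hg
    have := List.all_eq_true.1 h3 g hg'
    simp only [genChk, Bool.and_eq_true] at this
    exact vd_of_val this.1
  let S := ∀ i : Fin src.length, C ρ src[i]
  let ι : S →ₗ[ZMod p] (ℕ → V) := LinearMap.pi fun i =>
    if h : i < src.length then (C ρ _).subtype ∘ₗ LinearMap.proj (⟨i, h⟩ : Fin src.length) else 0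
  have hι : ∀ s : S, ∀ i, ι s i ∈ C ρ (src.getD i []) := fun s i => by
    simp only [ι, LinearMap.pi_apply]
    split_ifs with h
    · rw [List.getD_eq_getElem _ _ h]; exact (s ⟨i, h⟩).2
    · exact Submodule.zero_mem _
  let Φ : S →ₗ[ZMod p] ∀ j : Fin tgt.length, C ρ tgt[j].rep := LinearMap.pi fun j =>
    LinearMap.codRestrict _ (ρ (P n tgt[j].c)⁻¹ ∘ₗ ev ρ m CI G tgt[j].a ∘ₗ ι) fun s r hr => by
      have := List.all_eq_true.1 h4 tgt[j] (List.getElem_mem j.2)
      simp only [tgtChk, Bool.and_eq_true] at this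
      obtain ⟨w, hw⟩ := all2_spec this.2 r hr
      rw [Bool.and_eq_true] at hw
      show ρ _ (ρ _ (ev ρ m CI G _ (ι s))) = ρ _ (ev ρ m CI G _ (ι s))
      rw [← ap_mul, conj_of_chk hts (vd_of_val this.1) hw.1, ap_mul, ev_word hs hG (hι s) h3,
        Nat.eq_of_beq_eq_true hw.2]
  have hΦ : Function.Injective Φ := by
    rw [injective_iff_map_eq_zero]
    intro s e
    obtain ⟨Z, hZ, hk⟩ := run_spec (Q := fun a => ev ρ m CI G a (ι s) = 0)
      (by simp [ev_apply, dg_zero]) (fun i a ha => by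
        rw [← ev_word hs hG (hι s) h3, ha, map_zero]) (fun z hz => by
        obtain ⟨T, hT, rfl⟩ := List.mem_map.1 hz
        obtain ⟨j, hj, rfl⟩ := List.getElem_of_mem hT
        apply ap_inj (ρ := ρ) (P n tgt[j].c)⁻¹
        rw [map_zero]
        exact congrArg Subtype.val (congrFun e ⟨j, hj⟩)) h5
    funext i
    have := row_zero hZ (allB_spec hk i i.2)
    simp only [ι, LinearMap.pi_apply, dif_pos i.2] at this
    exact Subtype.ext this
  have := LinearMap.finrank_le_finrank_of_injective hΦ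
  rw [Module.finrank_pi_fintype, Module.finrank_pi_fintype] at this
  rw [← Fin.sum_univ_fun_getElem, ← Fin.sum_univ_fun_getElem]
  exact this

end H21.MC
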