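import Cfsg.Agent.H21.MC3

/-! Subgroups of `S_9` used modulo 2. -/

set_option autoImplicit false
set_option maxRecDepth 100000

namespace H21.MC.A

open Equiv

def r0 : List ℕ := []
def r2 : List ℕ := [32302707216]
def r5 : List ℕ := [10861495056]
def r6 : List ℕ := [32302645536]
def r8 : List ℕ := [28040245776, 32317452816]
def r10 : List ℕ := [28039258896]
def r13 : List ℕ := [28040245776, 36342939681]
def r14 : List ℕ := [32302707216, 27253813776]
def r15 : List ℕ := [32302707216, 32318374416]
def r20 : List ℕ := [19451425296, 23211553296]
def r22 : List ℕ := [28038218256, 32317452816]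
def r26 : List ℕ := [10861495056, 31466078736]
def r27 : List ℕ := [10861495056, 14049313281]
def r28 : List ℕ := [32302645536, 27253675056]
def r32 : List ℕ := [562521411]
def r33 : List ℕ := [28039258896, 32317452816]
def r34 : List ℕ := [32317444896, 36092318496]
def r36 : List ℕ := [28040245776, 36342940176, 32317452816]
def r38 : List ℕ := [28040245776, 36342940176, 36344967201]
def r39 : List ℕ := [28039258896, 28038026256]
def r41 : List ℕ := [28039258896, 28039262721]
def r44 : List ℕ := [28036121376, 28037039376]
def r46 : List ℕ := [28039262496, 28040184321]
def r48 : List ℕ := [28040245776, 35825922576]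
def r49 : List ℕ := [23227220496, 27253813776]
def r50 : List ℕ := [28040119056, 23494542096]
def r53 : List ℕ := [18127147536, 14084887056]
def r58 : List ℕ := [32302707216, 36344906016, 27253675056]
def r68 : List ℕ := [8614602051, 310801731]
def r69 : List ℕ := [10861495056, 26697290241]
def r76 : List ℕ := [562521411, 14049313056]
def r77 : List ℕ := [28039258896, 28038026256, 32315233296]
def r85 : List ℕ := [32317452321, 36092325921, 32318373921]
def r86 : List ℕ := [14303060256, 18077933856, 14303060481]
def r88 : List ℕ := [28039258896, 28038026256, 36342940176]
def r89 : List ℕ := [28037043201, 28038026256]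
def r91 : List ℕ := [28039258896, 28039262721, 36340519986]
def r94 : List ℕ := [23746265616, 31547671056]
def r95 : List ℕ := [28040184096, 35825860896]
def r99 : List ℕ := [32302707216, 27253813776, 36344906016, 36344828976]
def r102 : List ℕ := [23227220496, 32267194896]
def r114 : List ℕ := [8614602051, 310801731, 14301032736]
def r118 : List ℕ := [27955516176, 17556669216]
def r128 : List ℕ := [562521411, 4337395011, 22355140896]
def r129 : List ℕ := [28039258896, 28038026256, 32315360016, 32317264656]
def r130 : List ℕ := [28037169921, 28039074561]
def r131 : List ℕ := [28037043201, 28039250226]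
def r133 : List ℕ := [28040184096, 35825860896, 23746265616]
def r138 : List ℕ := [28040119056, 23494542096, 31815111456]
def r139 : List ℕ := [13978072656, 8929179216, 4886918736]
def r141 : List ℕ := [14100615456, 18111418656, 23227220496]
def r146 : List ℕ := [27955516176, 17556669216, 14084825376]
def r148 : List ℕ := [28037043201, 28039250226, 32313005106]
def r149 : List ℕ := [28039250721, 28039258161, 32317444896]
def r153 : List ℕ := [32302580496, 27253687056, 28040184096]
def r157 : List ℕ := [9715484496, 5169907536]
def r163 : List ℕ := [32302580496, 27253687056, 28040184096, 9715611216]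
def r165 : List ℕ := [14100615456, 18111418656, 32231543856, 23227220496]
def z0 : List ℕ := [35534615061, 36344705601]
def z1 : List ℕ := [34463830551, 34635789906]
def z2 : List ℕ := [35265999381, 34635789906]
def z3 : List ℕ := [13259539056, 9501676656]
def z4 : List ℕ := [6023234181, 34478568006]
def z5 : List ℕ := [26709488661, 847724901]

instance fp : Fact (Nat.Prime 2) := ⟨by decide⟩

end H21.MC.A
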