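import Cfsg.Agent.H21.MCA1
import Cfsg.Agent.H21.MCA2
import Cfsg.Agent.H21.MCA3

/-! A nonzero module of `S_9` in characteristic 2 has a vector fixed by a nonsolvable subgroup. -/

set_option autoImplicit false
set_option maxRecDepth 100000

namespace H21.MC.A

open Equiv

variable {V : Type*} [AddCommGroup V] [Module (ZMod 2) V] [FiniteDimensional (ZMod 2) V]
  (ρ : Perm (Fin 9) →* Module.End (ZMod 2) V)

theorem main (hz : NoFix ρ) : Subsingleton V := by
  apply subsingleton_of_d (ρ := ρ)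
  show d ρ r0 = 0
  have hz0 : d ρ z0 = 0 := zero hz (by decide +kernel)
  have hz1 : d ρ z1 = 0 := zero hz (by decide +kernel)
  have hz2 : d ρ z2 = 0 := zero hz (by decide +kernel)
  have hz3 : d ρ z3 = 0 := zero hz (by decide +kernel)
  have hz4 : d ρ z4 = 0 := zero hz (by decide +kernel)
  have hz5 : d ρ z5 = 0 := zero hz (by decide +kernel)
  have H := Nat.mul_le_mul_left 16 (c0 ρ)
  replace H := Nat.add_le_add H (Nat.mul_le_mul_left 96 (c1 ρ))
  replace H := Nat.add_le_add H (Nat.mul_le_mul_left 32 (c2 ρ))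
  replace H := Nat.add_le_add H (Nat.mul_le_mul_left 80 (c3 ρ))
  replace H := Nat.add_le_add H (Nat.mul_le_mul_left 32 (c4 ρ))
  replace H := Nat.add_le_add H (Nat.mul_le_mul_left 32 (c5 ρ))
  replace H := Nat.add_le_add H (Nat.mul_le_mul_left 64 (c6 ρ))
  replace H := Nat.add_le_add H (Nat.mul_le_mul_left 16 (c7 ρ))
  replace H := Nat.add_le_add H (Nat.mul_le_mul_left 2 (c8 ρ))
  replace H := Nat.add_le_add H (Nat.mul_le_mul_left 32 (c9 ρ))
  replace H := Nat.add_le_add H (Nat.mul_le_mul_left 16 (c10 ρ))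
  replace H := Nat.add_le_add H (Nat.mul_le_mul_left 32 (c11 ρ))
  replace H := Nat.add_le_add H (Nat.mul_le_mul_left 96 (c12 ρ))
  replace H := Nat.add_le_add H (Nat.mul_le_mul_left 32 (c13 ρ))
  replace H := Nat.add_le_add H (Nat.mul_le_mul_left 128 (c14 ρ))
  replace H := Nat.add_le_add H (Nat.mul_le_mul_left 16 (c15 ρ))
  replace H := Nat.add_le_add H (Nat.mul_le_mul_left 32 (c16 ρ))
  replace H := Nat.add_le_add H (Nat.mul_le_mul_left 4 (c17 ρ))
  replace H := Nat.add_le_add H (Nat.mul_le_mul_left 16 (c18 ρ))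
  replace H := Nat.add_le_add H (Nat.mul_le_mul_left 192 (c19 ρ))
  replace H := Nat.add_le_add H (Nat.mul_le_mul_left 40 (c20 ρ))
  replace H := Nat.add_le_add H (Nat.mul_le_mul_left 32 (c21 ρ))
  replace H := Nat.add_le_add H (Nat.mul_le_mul_left 224 (c22 ρ))
  replace H := Nat.add_le_add H (Nat.mul_le_mul_left 32 (c23 ρ))
  replace H := Nat.add_le_add H (Nat.mul_le_mul_left 128 (c24 ρ))
  replace H := Nat.add_le_add H (Nat.mul_le_mul_left 32 (c25 ρ))
  replace H := Nat.add_le_add H (Nat.mul_le_mul_left 16 (c26 ρ))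
  replace H := Nat.add_le_add H (Nat.mul_le_mul_left 16 (c27 ρ))
  replace H := Nat.add_le_add H (Nat.mul_le_mul_left 32 (c28 ρ))
  replace H := Nat.add_le_add H (Nat.mul_le_mul_left 40 (c29 ρ))
  replace H := Nat.add_le_add H (Nat.mul_le_mul_left 48 (c30 ρ))
  replace H := Nat.add_le_add H (Nat.mul_le_mul_left 16 (c31 ρ))
  replace H := Nat.add_le_add H (Nat.mul_le_mul_left 16 (c32 ρ))
  replace H := Nat.add_le_add H (Nat.mul_le_mul_left 64 (c33 ρ))
  replace H := Nat.add_le_add H (Nat.mul_le_mul_left 192 (c34 ρ))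
  replace H := Nat.add_le_add H (Nat.mul_le_mul_left 32 (c35 ρ))
  replace H := Nat.add_le_add H (Nat.mul_le_mul_left 64 (c36 ρ))
  replace H := Nat.add_le_add H (Nat.mul_le_mul_left 32 (c37 ρ))
  replace H := Nat.add_le_add H (Nat.mul_le_mul_left 8 (c38 ρ))
  replace H := Nat.add_le_add H (Nat.mul_le_mul_left 48 (c39 ρ))
  replace H := Nat.add_le_add H (Nat.mul_le_mul_left 24 (c40 ρ))
  replace H := Nat.add_le_add H (Nat.mul_le_mul_left 32 (c41 ρ))
  replace H := Nat.add_le_add H (Nat.mul_le_mul_left 416 (c42 ρ))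
  replace H := Nat.add_le_add H (Nat.mul_le_mul_left 16 (c43 ρ))
  replace H := Nat.add_le_add H (Nat.mul_le_mul_left 64 (c44 ρ))
  replace H := Nat.add_le_add H (Nat.mul_le_mul_left 31 (c45 ρ))
  replace H := Nat.add_le_add H (Nat.mul_le_mul_left 1 (c46 ρ))
  omega

end H21.MC.A
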