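import Cfsg.Agent.H21.MC2
import Cfsg.Agent.H2.Coprime

/-! Groups whose non-central `p`-elements have solvable centralizers: reductions. -/

set_option autoImplicit false

namespace H21.MC

open Subgroup

universe u

def PP (p : ℕ) (G : Type*) [Group G] : Prop :=
  ∀ x : G, x ∉ center G → (∃ k : ℕ, orderOf x = p ^ k) →
    Group.IsSolvable (centralizer ({x} : Set G))

theorem tri {X : Type*} [Group X] [h : Group.IsSolvable X] {a b : X} (h2 : a ^ 2 = 1)
    (h3 : b ^ 3 = 1) (h5 : (a * b) ^ 5 = 1 ∨ (a * b) ^ 7 = 1) : a = 1 := by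
  have key : ∀ n, a ∈ derivedSeries X n ∧ b ∈ derivedSeries X n := by
    intro n
    induction n with
    | zero => simp
    | succ n ih =>
      set D := derivedSeries X n
      let x := Abelianization.of (⟨a, ih.1⟩ : D)
      let y := Abelianization.of (⟨b, ih.2⟩ : D)
      have hx : x ^ 2 = 1 := by rw [← map_pow, ← map_one Abelianization.of]; congr 1; exact Subtype.ext h2
      have hy : y ^ 3 = 1 := by rw [← map_pow, ← map_one Abelianization.of]; congr 1; exact Subtype.ext h3
      have hk : ∀ k, (a * b) ^ k = 1 → x ^ k * y ^ k = 1 := fun k e => by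
        rw [← mul_pow, ← map_mul, ← map_pow, ← map_one Abelianization.of]; congr 1
        exact Subtype.ext e
      have h1 : x = 1 ∧ y = 1 := by
        have e1 : ∀ k, x ^ k * y ^ k = 1 → x ^ (3 * k) = 1 ∧ y ^ (2 * k) = 1 := fun k e => by
          constructor
          · have := congrArg (· ^ 3) e
            simp only [mul_pow, ← pow_mul, one_pow] at this
            rwa [mul_comm k, pow_mul y, hy, one_pow, mul_one] at this
          · have := congrArg (· ^ 2) e
            simp only [mul_pow, ← pow_mul, one_pow] at this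
            rwa [mul_comm k, pow_mul x, hx, one_pow, one_mul] at this
        rcases h5 with h5 | h5
        · obtain ⟨e2, e3⟩ := e1 _ (hk _ h5)
          exact ⟨by simpa using pow_gcd_eq_one.2 ⟨hx, e2⟩, by simpa using pow_gcd_eq_one.2 ⟨hy, e3⟩⟩
        · obtain ⟨e2, e3⟩ := e1 _ (hk _ h5)
          exact ⟨by simpa using pow_gcd_eq_one.2 ⟨hx, e2⟩, by simpa using pow_gcd_eq_one.2 ⟨hy, e3⟩⟩
      have hm : ∀ z : D, Abelianization.of z = 1 → (z : X) ∈ derivedSeries X (n + 1) := fun z hz => by
        rw [derivedSeries_succ, ← map_subtype_commutator]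
        exact ⟨z, by rwa [← MonoidHom.mem_ker, Abelianization.ker_of] at hz, rfl⟩
      exact ⟨hm _ h1.1, hm _ h1.2⟩
  obtain ⟨n, hn⟩ := h.solvable
  have := (key n).1
  rwa [hn, mem_bot] at this

variable {G A : Type*} [Group G] [Group A] {p : ℕ}

theorem solv_map (φ : G →* A) (D : Subgroup G) (hD : Group.IsSolvable D) {E : Subgroup A}
    (h : E ≤ D.map φ) : Group.IsSolvable E :=
  haveI := Group.isSolvable_of_surjective (φ.subgroupMap_surjective D)
  Group.isSolvable_of_isSolvable_injective (inclusion_injective h)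

theorem tri' (φ : G →* A) {D : Subgroup G} (hD : Group.IsSolvable D) {x y : G} (hx : x ∈ D)
    (hy : y ∈ D) (h2 : φ x ^ 2 = 1) (h3 : φ y ^ 3 = 1)
    (h5 : (φ x * φ y) ^ 5 = 1 ∨ (φ x * φ y) ^ 7 = 1) : φ x = 1 := by
  have := solv_map φ D hD le_rfl
  have := tri (X := D.map φ) (a := ⟨φ x, mem_map_of_mem φ hx⟩) (b := ⟨φ y, mem_map_of_mem φ hy⟩)
    (Subtype.ext h2) (Subtype.ext h3) (h5.imp (fun e => Subtype.ext e) fun e => Subtype.ext e)
  exact congrArg Subtype.val this

theorem PP.sub (h : PP p G) (H : Subgroup G) : PP p H := by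
  intro x hx hk
  have := h x (fun e => hx (mem_center_iff.2 fun g => Subtype.ext (mem_center_iff.1 e g)))
    (by simpa using hk)
  let f : centralizer ({x} : Set H) →* centralizer ({(x : G)} : Set G) :=
    (H.subtype.comp (centralizer ({x} : Set H)).subtype).codRestrict _ fun g =>
      mem_centralizer_singleton_iff.2 (congrArg Subtype.val (mem_centralizer_singleton_iff.1 g.2))
  exact Group.isSolvable_of_isSolvable_injective (f := f) fun a b e =>
    Subtype.ext (Subtype.ext (by simpa [f] using congrArg Subtype.val e))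

theorem lift_pelt [Finite G] [hp : Fact p.Prime] {f : G →* A} (hf : Function.Surjective f) {y : A}
    (hy : ∃ k, orderOf y = p ^ k) : ∃ x, f x = y ∧ ∃ k, orderOf x = p ^ k := by
  obtain ⟨x, rfl⟩ := hf y
  obtain ⟨k, hk⟩ := hy
  obtain ⟨a, m, hm, e⟩ := Nat.exists_eq_pow_mul_and_not_dvd (orderOf_pos x).ne' p hp.out.ne_one
  obtain ⟨j, hj⟩ := exists_pow_eq_self_of_coprime (x := f x) (n := m)
    (hk ▸ ((Nat.Prime.coprime_iff_not_dvd hp.out).2 hm).symm.pow_right k)
  refine ⟨(x ^ m) ^ j, by rw [map_pow, map_pow, hj], ?_⟩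
  have : orderOf ((x ^ m) ^ j) ∣ p ^ a := orderOf_dvd_of_pow_eq_one (by
    rw [← pow_mul, ← pow_mul, show m * (j * p ^ a) = p ^ a * m * j by ring, pow_mul, ← e,
      pow_orderOf_eq_one, one_pow])
  obtain ⟨i, -, hi⟩ := (Nat.dvd_prime_pow hp.out).1 this
  exact ⟨i, hi⟩

theorem PP.quot [Finite G] [hp : Fact p.Prime] (h : PP p G) {f : G →* A}
    (hf : Function.Surjective f) (hk : (Nat.card f.ker).Coprime p ∨ f.ker ≤ center G) :
    PP p A := by
  intro y hy hy2
  obtain ⟨x, rfl, k, hx⟩ := lift_pelt hf hy2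
  have hs := h x (fun e => hy (mem_center_iff.2 fun g => by
    obtain ⟨g, rfl⟩ := hf g
    rw [← map_mul, mem_center_iff.1 e g, map_mul])) ⟨k, hx⟩
  rcases hk with hk | hk
  · refine solv_map f _ hs fun g hg => ?_
    obtain ⟨g, rfl⟩ := hf g
    obtain ⟨n, hn, h1⟩ := H2.exists_mul_mem_centralizer (A := zpowers x) (N := f.ker) (k := g)
      (by rw [normalizer_eq_top]; exact le_top)
      (by rw [Nat.card_zpowers, hx]; exact hk.symm.pow_left k) (Or.inl (H2.isSolvable_zpowers x))
      (by
        rintro _ ⟨i, rfl⟩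
        have : Commute (f g) (f x) := mem_centralizer_singleton_iff.1 hg
        simp only [MonoidHom.mem_ker, map_mul, map_inv, map_zpow]
        rw [← (this.zpow_right i).eq]; group)
    refine ⟨n * g, mem_centralizer_singleton_iff.2 (h1 x (mem_zpowers x)).symm, ?_⟩
    rw [map_mul, MonoidHom.mem_ker.1 hn, one_mul]
  · set D := (centralizer ({f x} : Set A)).comap f
    have hc : ∀ g : D, (g : G) * x * (g : G)⁻¹ * x⁻¹ ∈ center G := fun g => hk (by
      have : f g * f x = f x * f g := mem_centralizer_singleton_iff.1 g.2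
      simp only [MonoidHom.mem_ker, map_mul, map_inv]
      rw [this]; group)
    let δ : D →* center G := MonoidHom.mk' (fun g => ⟨_, hc g⟩) fun a b => Subtype.ext (by
      have := mem_center_iff.1 (hc b) (x * (a : G)⁻¹ * x⁻¹)
      simp only [coe_mul]
      calc _ = a * ((b * x * (b : G)⁻¹ * x⁻¹) * (x * (a : G)⁻¹ * x⁻¹)) := by group
        _ = _ := by rw [← this]; group)
    have : Group.IsSolvable ((centralizer ({x} : Set G)).subgroupOf D) :=
      Group.isSolvable_of_isSolvable_injective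
        (f := (D.subtype.comp (Subgroup.subtype _)).codRestrict (centralizer ({x} : Set G)) fun g => g.2)
        fun a b e => Subtype.ext (Subtype.ext (Subtype.ext_iff.1 e :))
    have := H2.isSolvable_of_isMulCommutative (center G)
    have : Group.IsSolvable D :=
      Group.isSolvable_of_ker_le_range ((centralizer ({x} : Set G)).subgroupOf D).subtype δ
        fun g hg => by
          rw [range_subtype, mem_subgroupOf, mem_centralizer_singleton_iff]
          have : (g : G) * x * (g : G)⁻¹ * x⁻¹ = 1 := congrArg Subtype.val hg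
          rw [mul_inv_eq_one, mul_inv_eq_iff_eq_mul] at this
          exact this
    exact solv_map f D this (map_comap_eq_self_of_surjective hf _).ge

theorem red [hp : Fact p.Prime]
    (hA : ∀ (G : Type u) [Group G] [Finite G] (φ : G →* A), Function.Surjective φ → PP p G →
      IsPGroup p φ.ker → φ.ker ⊓ center G = ⊥ → False)
    (G : Type u) [Group G] [Finite G] (φ : G →* A) (hφ : Function.Surjective φ) (h : PP p G) :
    False := by
  induction hn : Nat.card G using Nat.strong_induction_on generalizing G with | _ n ih =>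
  have hq : ∀ (K : Subgroup G) [K.Normal], K ≠ ⊥ → K ≤ φ.ker →
      ((Nat.card K).Coprime p ∨ K ≤ center G) → False := by
    intro K _ h1 h2 h3
    refine ih _ ?_ (G ⧸ K) (QuotientGroup.lift K φ h2) (fun a => ?_)
      (h.quot (QuotientGroup.mk'_surjective K) (by rwa [QuotientGroup.ker_mk'])) rfl
    · rw [← hn, card_eq_card_quotient_mul_card_subgroup K]
      exact lt_mul_of_one_lt_right Nat.card_pos ((one_lt_card_iff_ne_bot K).2 h1)
    · obtain ⟨g, rfl⟩ := hφ a
      exact ⟨g, rfl⟩
  by_cases h1 : φ.ker ⊓ center G = ⊥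
  swap
  · exact hq _ h1 inf_le_left (Or.inr inf_le_right)
  refine hA G φ hφ h (IsPGroup.iff_card.2 ⟨_, Nat.eq_prime_pow_of_unique_prime_dvd
    Nat.card_pos.ne' fun {q} hq1 hq2 => ?_⟩) h1
  by_contra hqp
  have := Fact.mk hq1
  obtain ⟨Q⟩ := (inferInstance : Nonempty (Sylow q φ.ker))
  have hF := Q.normalizer_sup_eq_top
  set R := (Q : Subgroup φ.ker).map φ.ker.subtype
  by_cases hH : normalizer (R : Set G) = ⊤
  · have : R.Normal := normalizer_eq_top_iff.1 hH
    obtain ⟨k, hk⟩ := IsPGroup.iff_card.1 (Q.isPGroup'.map φ.ker.subtype)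
    refine hq R (fun e => Q.ne_bot_of_dvd_card hq2 ?_) (map_subtype_le _)
      (Or.inl (hk ▸ ((Nat.coprime_primes hq1 hp.out).2 hqp).pow_left k))
    exact (map_eq_bot_iff_of_injective _ φ.ker.subtype_injective).1 e
  · refine ih _ ?_ (normalizer (R : Set G)) (φ.comp (Subgroup.subtype _)) (fun a => ?_) (h.sub _) rfl
    · rw [← hn]
      exact lt_of_le_of_ne (card_le_card_group _) fun e => hH (eq_top_of_card_eq _ e)
    · obtain ⟨g, rfl⟩ := hφ a
      have : g ∈ normalizer (R : Set G) ⊔ φ.ker := hF ▸ mem_top g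
      obtain ⟨a, ha, b, hb, rfl⟩ := mem_sup_of_normal_right.1 this
      exact ⟨⟨a, ha⟩, by simp [MonoidHom.mem_ker.1 hb]⟩

theorem endC [Finite G] [hp : Fact p.Prime] (h : PP p G) {φ : G →* A} (hφ : Function.Surjective φ)
    (hN : IsPGroup p φ.ker) {c a b : A} {B : Subgroup A} (hc : c ^ p = 1) (hc1 : c ∉ center A)
    (hB : (Nat.card B).Coprime (Nat.card φ.ker)) (hcB : ∀ x ∈ B, x * c = c * x) (ha : a ∈ B)
    (hb : b ∈ B) (h1 : a ≠ 1) (h2 : a ^ 2 = 1) (h3 : b ^ 3 = 1) (h5 : (a * b) ^ 5 = 1) :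
    False := by
  set R := B.comap φ
  have hle : φ.ker ≤ R := ker_le_comap φ B
  have e1 : Nat.card (φ.ker.subgroupOf R) = Nat.card φ.ker :=
    Nat.card_congr (subgroupOfEquivOfLe hle).toEquiv
  have e2 : (φ.ker.subgroupOf R).index = Nat.card B := by
    rw [← relIndex, relIndex_ker, map_comap_eq_self_of_surjective hφ]
  obtain ⟨S, hS⟩ := exists_right_complement'_of_coprime (N := φ.ker.subgroupOf R)
    (by rw [e1, e2]; exact hB.symm)
  have hl : ∀ x ∈ B, ∃ s ∈ S.map R.subtype, φ s = x := fun x hx => by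
    obtain ⟨g, rfl⟩ := hφ x
    obtain ⟨⟨⟨n, hn⟩, ⟨s, hs⟩⟩, e, -⟩ := hS.existsUnique (⟨g, hx⟩ : R)
    refine ⟨s, mem_map_of_mem _ hs, ?_⟩
    have e : (n : G) * s = g := congrArg Subtype.val e
    rw [← e, map_mul, MonoidHom.mem_ker.1 (mem_subgroupOf.1 hn), one_mul]
  obtain ⟨g, rfl⟩ := hφ c
  obtain ⟨n, hn, hg⟩ := H2.exists_mul_mem_centralizer (A := S.map R.subtype) (N := φ.ker) (k := g)
    (by rw [normalizer_eq_top]; exact le_top)
    (by rw [card_map_of_injective R.subtype_injective, ← hS.symm.index_eq_card, e2]; exact hB)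
    (Or.inr (H2.isSolvable_of_isPGroup hN))
    (by
      rintro _ ⟨s, -, rfl⟩
      simp only [MonoidHom.mem_ker, map_mul, map_inv]
      rw [coe_subtype, hcB _ s.2]; group)
  have e : φ (n * g) = φ g := by rw [map_mul, MonoidHom.mem_ker.1 hn, one_mul]
  have hs := h (n * g) (fun e' => hc1 (mem_center_iff.2 fun y => by
    obtain ⟨y, rfl⟩ := hφ y
    rw [← e, ← map_mul, mem_center_iff.1 e' y, map_mul])) (by
      obtain ⟨k, hk⟩ := hN ⟨(n * g) ^ p, by rw [MonoidHom.mem_ker, map_pow, e, hc]⟩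
      have : (n * g) ^ p ^ (k + 1) = 1 := by
        rw [pow_succ', pow_mul]; exact congrArg Subtype.val hk
      obtain ⟨i, -, hi⟩ := (Nat.dvd_prime_pow hp.out).1 (orderOf_dvd_of_pow_eq_one this)
      exact ⟨i, hi⟩)
  obtain ⟨x, hx, rfl⟩ := hl a ha
  obtain ⟨y, hy, rfl⟩ := hl b hb
  exact h1 (tri' φ hs (mem_centralizer_singleton_iff.2 (hg x hx))
    (mem_centralizer_singleton_iff.2 (hg y hy)) h2 h3 (Or.inl h5))

end H21.MC
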