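import Cfsg.Agent.H21.MCR1
import Cfsg.Agent.H21.MCA4
import Cfsg.Agent.H21.MCB5

/-! Groups whose non-central `p`-elements have solvable centralizers: alternating quotients. -/

set_option autoImplicit false

namespace H21.MC

open Subgroup Equiv

universe u

theorem cover {p n : ℕ} [Fact p.Prime] {G : Type*} [Group G] {V : Type u} [AddCommGroup V]
    [Module (ZMod p) V] [Finite V] [Nontrivial V] (τ : G →* Module.End (ZMod p) V)
    (ι : G →* Perm (Fin n)) (hk : ∀ g, ι g = 1 → τ g = 1)
    (hs : ∀ s : Perm (Fin n), Perm.sign s = 1 → ∃ g, ι g = s)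
    (hmain : ∀ (W : Type u) [AddCommGroup W] [Module (ZMod p) W] [FiniteDimensional (ZMod p) W]
      (ρ : Perm (Fin n) →* Module.End (ZMod p) W), NoFix ρ → Subsingleton W) :
    ∃ v : V, v ≠ 0 ∧ ∃ x y : G, τ x v = v ∧ τ y v = v ∧ ι x ≠ 1 ∧ ι x ^ 2 = 1 ∧ ι y ^ 3 = 1 ∧
      ((ι x * ι y) ^ 5 = 1 ∨ (ι x * ι y) ^ 7 = 1) := by
  classical
  by_contra hno
  have hτ : ∀ g g', ι g = ι g' → τ g = τ g' := fun g g' e => by
    rw [← mul_inv_cancel_left g' g, map_mul, hk (g'⁻¹ * g) (by rw [map_mul, map_inv, e, inv_mul_cancel]),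
      mul_one]
  have := hmain (Representation.coindV ι τ) (Representation.coind ι τ) (by
    intro a b h1 h2 h3 h5 w ha hb
    ext s
    by_contra hw
    have sb : Perm.sign b = 1 := by
      have := congrArg Perm.sign h3
      rw [map_pow, map_one] at this
      rcases Int.units_eq_one_or (Perm.sign b) with e | e
      · exact e
      · rw [e] at this; exact absurd this (by decide)
    have sa : Perm.sign a = 1 := by
      rcases Int.units_eq_one_or (Perm.sign a) with e | e
      · exact e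
      · rcases h5 with h5 | h5 <;>
        · have := congrArg Perm.sign h5
          rw [map_pow, map_one, map_mul, e, sb] at this
          exact absurd this (by decide)
    have hl : ∀ c : Perm (Fin n), Perm.sign c = 1 → Representation.coind ι τ c w = w →
        ∃ g, ι g = s * c * s⁻¹ ∧ τ g (w.1 s) = w.1 s := fun c hc e => by
      obtain ⟨g, hg⟩ := hs (s * c * s⁻¹) (by simp [hc])
      refine ⟨g, hg, ?_⟩
      rw [← w.2 g s, hg, inv_mul_cancel_right]
      exact congrFun (congrArg Subtype.val e) s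
    obtain ⟨x, hx, ex⟩ := hl a sa ha
    obtain ⟨y, hy, ey⟩ := hl b sb hb
    refine hno ⟨w.1 s, hw, x, y, ex, ey, by simpa [hx] using h1, by rw [hx, conj_pow, h2]; simp,
      by rw [hy, conj_pow, h3]; simp, ?_⟩
    rw [hx, hy, conj_mul, conj_pow, conj_pow]
    exact h5.imp (fun e => by rw [e]; simp) fun e => by rw [e]; simp)
  obtain ⟨v, hv⟩ := exists_ne (0 : V)
  let f : Representation.coindV ι τ :=
    ⟨fun s => if h : ∃ g, ι g = s then τ h.choose v else 0, fun g s => by
      by_cases h : ∃ g, ι g = s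
      · have h' : ∃ g', ι g' = ι g * s := ⟨g * h.choose, by rw [map_mul, h.choose_spec]⟩
        simp only [dif_pos h, dif_pos h']
        rw [hτ _ (g * h.choose) (by rw [h'.choose_spec, map_mul, h.choose_spec]), map_mul]
        rfl
      · have h' : ¬ ∃ g', ι g' = ι g * s := fun ⟨g', e⟩ =>
          h ⟨g⁻¹ * g', by rw [map_mul, map_inv, e, inv_mul_cancel_left]⟩
        simp only [dif_neg h, dif_neg h', map_zero]⟩
  have e := congrFun (congrArg Subtype.val (Subsingleton.elim f 0)) 1
  have h : ∃ g, ι g = 1 := ⟨1, map_one _⟩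
  simp only [f, dif_pos h, hk _ h.choose_spec] at e
  exact hv e

theorem cover' {p n : ℕ} [Fact p.Prime] {G : Type*} [Group G] {V : Type u} [Group V] [Finite V]
    [Nontrivial V] (hc : ∀ a b : V, a * b = b * a) (hV : ∀ v : V, v ^ p = 1) (α : G →* MulAut V)
    (ι : G →* Perm (Fin n)) (hk : ∀ g, ι g = 1 → ∀ v, α g v = v)
    (hs : ∀ s : Perm (Fin n), Perm.sign s = 1 → ∃ g, ι g = s)
    (hmain : ∀ (W : Type u) [AddCommGroup W] [Module (ZMod p) W] [FiniteDimensional (ZMod p) W]
      (ρ : Perm (Fin n) →* Module.End (ZMod p) W), NoFix ρ → Subsingleton W) :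
    ∃ v : V, v ≠ 1 ∧ ∃ x y : G, α x v = v ∧ α y v = v ∧ ι x ≠ 1 ∧ ι x ^ 2 = 1 ∧ ι y ^ 3 = 1 ∧
      ((ι x * ι y) ^ 5 = 1 ∨ (ι x * ι y) ^ 7 = 1) := by
  let _ : CommGroup V := { (inferInstance : Group V) with mul_comm := hc }
  let _ : Module (ZMod p) (Additive V) := AddCommGroup.zmodModule (n := p) (fun v => by
    rw [← ofMul_toMul v, ← ofMul_pow, hV, ofMul_one])
  exact cover (V := Additive V)
    { toFun := fun g => (MonoidHom.toAdditive (α g).toMonoidHom).toZModLinearMap p
      map_one' := LinearMap.ext fun v => by rw [map_one]; rfl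
      map_mul' := fun g g' => LinearMap.ext fun v => by rw [map_mul]; rfl } ι
    (fun g hg => LinearMap.ext fun v => hk g hg v) hs hmain

theorem endM {p n : ℕ} [hp : Fact p.Prime] {G : Type u} [Group G] [Finite G] (h : PP p G)
    {φ : G →* alternatingGroup (Fin n)} (hφ : Function.Surjective φ) (hN : IsPGroup p φ.ker)
    (hZ : φ.ker ⊓ center G = ⊥)
    (hmain : ∀ (W : Type u) [AddCommGroup W] [Module (ZMod p) W] [FiniteDimensional (ZMod p) W]
      (ρ : Perm (Fin n) →* Module.End (ZMod p) W), NoFix ρ → Subsingleton W) : φ.ker = ⊥ := by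
  by_contra hne
  set N := φ.ker
  let M : Subgroup G :=
    { carrier := {x | x ∈ N ∧ (∀ y ∈ N, Commute y x) ∧ x ^ p = 1}
      one_mem' := ⟨one_mem _, fun _ _ => Commute.one_right _, one_pow _⟩
      mul_mem' := fun ha hb => ⟨mul_mem ha.1 hb.1, fun y hy => (ha.2.1 y hy).mul_right (hb.2.1 y hy),
        by rw [(hb.2.1 _ ha.1).mul_pow, ha.2.2, hb.2.2, one_mul]⟩
      inv_mem' := fun ha => ⟨inv_mem ha.1, fun y hy => (ha.2.1 y hy).inv_right,
        by rw [inv_pow, ha.2.2, inv_one]⟩ }
  have : M.Normal := ⟨fun x hx g => ⟨Normal.conj_mem inferInstance x hx.1 g, fun y hy => by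
    have := (hx.2.1 _ (Normal.conj_mem' inferInstance y hy g)).eq
    calc y * (g * x * g⁻¹) = g * (g⁻¹ * y * g * x) * g⁻¹ := by group
      _ = _ := by rw [this]; group, by rw [conj_pow, hx.2.2]; simp⟩⟩
  have : Nontrivial M := by
    have : Nontrivial N := (nontrivial_iff_ne_bot N).2 hne
    have := hN.center_nontrivial
    obtain ⟨k, hk0, hk⟩ := (hN.to_subgroup (center N)).nontrivial_iff_card.1 this
    obtain ⟨z, hz⟩ := exists_prime_orderOf_dvd_card' (G := center N) p
      (hk ▸ dvd_pow_self p hk0.ne')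
    refine ⟨⟨⟨z.1.1, z.1.2, fun y hy => congrArg Subtype.val (mem_center_iff.1 z.2 ⟨y, hy⟩), ?_⟩, 1,
      fun e => ?_⟩⟩
    · have := pow_orderOf_eq_one z
      rw [hz] at this
      exact congrArg (fun t : center N => t.1.1) this
    · have : z = 1 := Subtype.ext (Subtype.ext (Subtype.ext_iff.1 e :))
      rw [this, orderOf_one] at hz
      exact hp.out.ne_one hz.symm
  obtain ⟨v, hv, x, y, hx, hy, h1, h2, h3, h5⟩ := cover' (V := M)
    (fun a b => Subtype.ext (b.2.2.1 _ a.2.1)) (fun v => Subtype.ext v.2.2.2) MulAut.conjNormal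
    ((alternatingGroup _).subtype.comp φ)
    (fun g hg v => Subtype.ext (by
      rw [MulAut.conjNormal_apply, (v.2.2.1 g (Subtype.ext hg)).eq]; simp))
    (fun s hs => by
      obtain ⟨g, hg⟩ := hφ ⟨s, Perm.mem_alternatingGroup.2 hs⟩
      exact ⟨g, congrArg Subtype.val hg⟩) hmain
  have hv1 : (v : G) ≠ 1 := fun e => hv (Subtype.ext e)
  have hs := h v (fun e => hv1 (mem_bot.1 (hZ ▸ mem_inf.2 ⟨v.2.1, e⟩)))
    ⟨1, by rw [pow_one]; exact orderOf_eq_prime v.2.2.2 hv1⟩
  have hc : ∀ g : G, MulAut.conjNormal g v = v → g ∈ centralizer ({(v : G)} : Set G) := fun g e => by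
    have := congrArg Subtype.val e
    rw [MulAut.conjNormal_apply, mul_inv_eq_iff_eq_mul] at this
    exact mem_centralizer_singleton_iff.2 this
  exact h1 (tri' _ hs (hc x hx) (hc y hy) h2 h3 h5)

noncomputable def altHom {α β : Type*} [Fintype α] [DecidableEq α] [Fintype β] [DecidableEq β]
    (e : α ↪ β) : alternatingGroup α →* alternatingGroup β :=
  ((Perm.viaEmbeddingHom e).comp (alternatingGroup α).subtype).codRestrict _ fun g => by
    rw [Perm.mem_alternatingGroup, ← Perm.mem_alternatingGroup.1 g.2]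
    exact @Perm.sign_extendDomain _ _ _ _ _ _ _ _ (fun _ => Classical.propDecidable _) _

theorem altHom_inj {α β : Type*} [Fintype α] [DecidableEq α] [Fintype β] [DecidableEq β]
    (e : α ↪ β) : Function.Injective (altHom e) := fun _ _ h =>
  Subtype.ext (Perm.viaEmbeddingHom_injective e (congrArg Subtype.val h))

theorem endA {p m d : ℕ} [hp : Fact p.Prime] {G : Type*} [Group G] [Finite G] (h : PP p G)
    {φ : G →* alternatingGroup (Fin d)} (hφ : Function.Surjective φ) (hN : IsPGroup p φ.ker)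
    (hc : (Nat.card φ.ker).Coprime 120) (hd : m + 5 ≤ d) (c : Perm (Fin m)) (h1 : c ≠ 1)
    (h2 : Perm.sign c = 1) (h3 : c ^ p = 1) : False := by
  obtain ⟨e⟩ : Nonempty (Fin m ⊕ Fin 5 ↪ Fin d) :=
    Function.Embedding.nonempty_of_card_le (by simpa using hd)
  let c' : alternatingGroup (Fin m ⊕ Fin 5) :=
    ⟨Perm.sumCongr c 1, by rw [Perm.mem_alternatingGroup, Perm.sign_sumCongr, h2]; simp⟩
  let ψ : alternatingGroup (Fin 5) →* alternatingGroup (Fin m ⊕ Fin 5) :=
    (((Perm.sumCongrHom _ _).comp (MonoidHom.inr _ _)).comp (alternatingGroup _).subtype).codRestrict _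
      fun g => by
        have := Perm.mem_alternatingGroup.1 g.2
        simp [Perm.mem_alternatingGroup, Perm.sign_sumCongr, this]
  let a : alternatingGroup (Fin 5) :=
    ⟨swap 0 1 * swap 2 3, Perm.mem_alternatingGroup.2 (by decide +kernel)⟩
  let b : alternatingGroup (Fin 5) :=
    ⟨swap 0 2 * swap 0 4, Perm.mem_alternatingGroup.2 (by decide +kernel)⟩
  let θ := (altHom e).comp ψ
  have hψ : Function.Injective ψ := fun x y e => Subtype.ext
    (congrArg Prod.snd (Perm.sumCongrHom_injective (congrArg Subtype.val e)))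
  refine endC h hφ hN (c := altHom e c') (a := θ a) (b := θ b) (B := θ.range) ?_ ?_ ?_ ?_ ⟨a, rfl⟩
    ⟨b, rfl⟩ ?_ ?_ ?_ ?_
  · rw [← map_pow, ← map_one (altHom e)]
    congr 1
    apply Subtype.ext
    show (Perm.sumCongrHom _ _ (c, 1)) ^ p = 1
    rw [← map_pow, Prod.pow_mk, h3, one_pow]; exact map_one _
  · rw [alternatingGroup.center_eq_bot (by simp; omega), mem_bot,
      map_eq_one_iff _ (altHom_inj e)]
    intro e
    exact h1 (congrArg Prod.fst (Perm.sumCongrHom_injective (a₁ := (c, 1)) (a₂ := 1)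
      ((congrArg Subtype.val e).trans (map_one _).symm)))
  · refine Nat.Coprime.coprime_dvd_left ((card_range_dvd θ).trans ?_) hc.symm
    have := card_subgroup_dvd_card (alternatingGroup (Fin 5))
    rwa [Nat.card_perm, Nat.card_eq_fintype_card (α := Fin 5), Fintype.card_fin] at this
  · rintro _ ⟨x, rfl⟩
    show altHom e _ * _ = _ * altHom e _
    rw [← map_mul, ← map_mul]
    congr 1
    apply Subtype.ext
    show Perm.sumCongr 1 x.1 * Perm.sumCongr c 1 = Perm.sumCongr c 1 * Perm.sumCongr 1 x.1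
    simp [Perm.sumCongr_mul]
  · rw [Ne, map_eq_one_iff θ ((altHom_inj e).comp hψ :)]
    decide +kernel
  · rw [← map_pow, show a ^ 2 = 1 by decide +kernel, map_one]
  · rw [← map_pow, show b ^ 3 = 1 by decide +kernel, map_one]
  · rw [← map_mul, ← map_pow, show (a * b) ^ 5 = 1 by decide +kernel, map_one]

theorem down {p n d : ℕ} {G : Type u} [Group G] (h : PP p G) {φ : G →* alternatingGroup (Fin d)}
    (hφ : Function.Surjective φ) (hd : n ≤ d) : ∃ (H : Subgroup G)
      (ψ : H →* alternatingGroup (Fin n)), Function.Surjective ψ ∧ PP p H := by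
  let j := altHom (Fin.castLEEmb hd)
  let e := MonoidHom.ofInjective (altHom_inj (Fin.castLEEmb hd))
  refine ⟨j.range.comap φ, e.symm.toMonoidHom.comp (φ.subgroupComap _),
    e.symm.surjective.comp (φ.subgroupComap_surjective_of_surjective _ hφ), h.sub _⟩

theorem main {p d : ℕ} [hp : Fact p.Prime] (hp3 : p ≠ 3) {G : Type u} [Group G] [Finite G]
    (h : PP p G) {φ : G →* alternatingGroup (Fin d)} (hφ : Function.Surjective φ) :
    d ≤ p + 4 + (if p = 2 then 2 else 0) := by
  by_contra hd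
  by_cases h2 : p = 2
  · subst h2
    obtain ⟨H, ψ, h1, h3⟩ := down (n := 9) h hφ (by simp at hd; omega)
    refine red (fun G _ _ φ hφ h hN hZ => ?_) H ψ h1 h3
    have := endM h hφ hN hZ fun W _ _ _ ρ => A.main ρ
    exact endA (m := 4) h hφ hN (by simp [this]) le_rfl (swap 0 1 * swap 2 3) (by decide +kernel)
      (by decide +kernel) (by decide +kernel)
  rw [if_neg h2] at hd
  by_cases h5 : p = 5
  · subst h5
    obtain ⟨H, ψ, h1, h3⟩ := down (n := 10) h hφ (by omega)
    refine red (fun G _ _ φ hφ h hN hZ => ?_) H ψ h1 h3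
    have := endM h hφ hN hZ fun W _ _ _ ρ => B.main ρ
    exact endA (m := 5) h hφ hN (by simp [this]) le_rfl (finRotate 5) (by decide +kernel)
      (by decide +kernel) (by decide +kernel)
  refine red (fun G _ _ φ hφ h hN _ => ?_) G φ hφ h
  obtain ⟨k, hk⟩ := IsPGroup.iff_card.1 hN
  obtain ⟨q, rfl⟩ : ∃ q, p = q + 2 := ⟨p - 2, by have := hp.out.two_le; omega⟩
  refine endA (m := q + 2) h hφ hN ?_ (by omega) (finRotate _) isCycle_finRotate.ne_one ?_ ?_
  · rw [hk, show 120 = 2 ^ 3 * 3 * 5 by rfl]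
    exact ((((Nat.coprime_primes hp.out Nat.prime_two).2 h2).pow_right 3).mul_right
      ((Nat.coprime_primes hp.out Nat.prime_three).2 hp3)).mul_right
      ((Nat.coprime_primes hp.out Nat.prime_five).2 h5) |>.pow_left k
  · rw [sign_finRotate]
    exact Even.neg_one_pow (hp.out.even_sub_one h2)
  · have := pow_orderOf_eq_one (finRotate (q + 2))
    rwa [isCycle_finRotate.orderOf, support_finRotate, Finset.card_univ, Fintype.card_fin] at this

end H21.MC
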