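import Cfsg.Agent.H1.Fitting

/-! Orders of nilpotent permutation groups: numeric bounds and the transitive case. -/

namespace H21.Nil

open Subgroup Equiv MulAction
open scoped Nat

theorem exp_le {p y e : ℕ} (hp : p.Prime) (hy : y ≠ 0) (h : p ^ e ∣ y !) : (p - 1) * e ≤ y - 1 := by
  haveI := Fact.mk hp
  have h1 := sub_one_mul_padicValNat_factorial_lt_of_ne_zero p hy
  have h2 : e ≤ padicValNat p y ! := (padicValNat_dvd_iff_le (Nat.factorial_ne_zero y)).1 h
  have := Nat.mul_le_mul_left (p - 1) h2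
  omega

theorem sq_le_three_pow : ∀ p : ℕ, 3 ≤ p → p ^ 2 ≤ 3 ^ (p - 1) := by
  intro p hp
  induction p, hp using Nat.le_induction with
  | base => norm_num
  | succ k hk ih =>
    have : k + 1 - 1 = (k - 1) + 1 := by omega
    rw [this, pow_succ 3]
    nlinarith

theorem odd_bound {p y e : ℕ} (hp : p.Prime) (h2 : p ≠ 2) (hy : y ≠ 0) (h : p ^ e ∣ y !) :
    (p ^ e) ^ 2 ≤ 3 ^ (y - 1) := by
  have h3 : 3 ≤ p := by have := hp.two_le; omega
  calc (p ^ e) ^ 2 = (p ^ 2) ^ e := by rw [← pow_mul, ← pow_mul, mul_comm]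
    _ ≤ (3 ^ (p - 1)) ^ e := Nat.pow_le_pow_left (sq_le_three_pow p h3) e
    _ = 3 ^ ((p - 1) * e) := by rw [pow_mul]
    _ ≤ _ := Nat.pow_le_pow_right (by norm_num) (exp_le hp hy h)

theorem prod_bound (S : Finset ℕ) (f y : ℕ → ℕ) (hy : ∀ p ∈ S, y p ≠ 0)
    (h : ∀ p ∈ S, f p ^ 2 ≤ 3 ^ (y p - 1)) :
    (∏ p ∈ S, f p) ^ 2 ≤ 3 ^ (∏ p ∈ S, y p - 1) := by
  classical
  induction S using Finset.induction_on with
  | empty => simp
  | insert a s ha ih =>
    rw [Finset.prod_insert ha, Finset.prod_insert ha, mul_pow]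
    have h1 := ih (fun p hp => hy p (Finset.mem_insert_of_mem hp))
      (fun p hp => h p (Finset.mem_insert_of_mem hp))
    have h2 := h a (Finset.mem_insert_self a s)
    have h3 : ∏ p ∈ s, y p ≠ 0 :=
      Finset.prod_ne_zero_iff.2 fun p hp => hy p (Finset.mem_insert_of_mem hp)
    have h4 := hy a (Finset.mem_insert_self a s)
    refine (Nat.mul_le_mul h2 h1).trans ?_
    rw [← pow_add]
    refine Nat.pow_le_pow_right (by norm_num) ?_
    obtain ⟨u, hu⟩ := Nat.exists_eq_succ_of_ne_zero h3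
    obtain ⟨v, hv⟩ := Nat.exists_eq_succ_of_ne_zero h4
    rw [hu, hv]
    have : (v + 1) * (u + 1) = v * u + v + u + 1 := by ring
    simp only [Nat.succ_eq_add_one, this]
    omega

/-- The numeric form of the bound for a transitive nilpotent group. -/
theorem num_sq {N m : ℕ} (hN : N ≠ 0) (hm : m ≠ 0)
    (h : ∀ p, p.Prime → p ^ N.factorization p ∣ (p ^ m.factorization p)!)
    {r : ℕ} (hr : r.Prime) (hr2 : r ≠ 2) (hrm : r ∣ m) : N ^ 2 ≤ 3 ^ (m - 1) := by
  classical
  set S := (N * m).primeFactors.erase 2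
  have hS : ∀ {n : ℕ}, n ≠ 0 → n ∣ N * m →
      n = 2 ^ n.factorization 2 * ∏ p ∈ S, p ^ n.factorization p := by
    intro n hn hd
    have h1 : n = ∏ p ∈ insert 2 S, p ^ n.factorization p := by
      conv_lhs => rw [← Nat.prod_factorization_pow_eq_self hn]
      rw [Finsupp.prod_of_support_subset (s := insert 2 S)]
      · intro p hp
        rw [Nat.support_factorization] at hp
        by_cases h2 : p = 2
        · simp [h2]
        · exact Finset.mem_insert_of_mem (Finset.mem_erase.2 ⟨h2,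
            Nat.primeFactors_mono hd (mul_ne_zero hN hm) hp⟩)
      · simp
    rwa [Finset.prod_insert (Finset.notMem_erase 2 _)] at h1
  have hp : ∀ p ∈ S, p.Prime ∧ p ≠ 2 := fun p hp =>
    ⟨Nat.prime_of_mem_primeFactors (Finset.mem_of_mem_erase hp), Finset.ne_of_mem_erase hp⟩
  have h1 := prod_bound S (fun p => p ^ N.factorization p) (fun p => p ^ m.factorization p)
    (fun p h' => pow_ne_zero _ (hp p h').1.ne_zero)
    (fun p h' => odd_bound (hp p h').1 (hp p h').2 (pow_ne_zero _ (hp p h').1.ne_zero)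
      (h p (hp p h').1))
  have h2 := exp_le Nat.prime_two (pow_ne_zero _ two_ne_zero) (h 2 Nat.prime_two)
  have hN' := hS hN (Dvd.intro _ rfl)
  have hm' := hS hm (Dvd.intro_left _ rfl)
  have h3 : 2 ≤ ∏ p ∈ S, p ^ m.factorization p := by
    have hrS : r ∈ S := Finset.mem_erase.2 ⟨hr2,
      Nat.mem_primeFactors.2 ⟨hr, Dvd.dvd.mul_left hrm N, mul_ne_zero hN hm⟩⟩
    have h4 : r ∣ ∏ p ∈ S, p ^ m.factorization p :=
      (dvd_pow_self r (hr.factorization_pos_of_dvd hm hrm).ne').trans (Finset.dvd_prod_of_mem _ hrS)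
    refine hr.two_le.trans (Nat.le_of_dvd (Nat.pos_of_ne_zero ?_) h4)
    exact Finset.prod_ne_zero_iff.2 fun p h' => pow_ne_zero _ (hp p h').1.ne_zero
  generalize ∏ p ∈ S, p ^ m.factorization p = m' at *
  generalize ∏ p ∈ S, p ^ N.factorization p = N' at *
  have h5 : 1 ≤ 2 ^ m.factorization 2 := Nat.one_le_two_pow
  generalize 2 ^ m.factorization 2 = y at *
  generalize N.factorization 2 = e at *
  rw [hN', mul_pow]
  have h6 : (2 ^ e) ^ 2 ≤ 3 ^ (2 * (y - 1)) := by
    rw [← pow_mul]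
    exact (Nat.pow_le_pow_right (by norm_num) (by omega)).trans
      (Nat.pow_le_pow_left (by norm_num) _)
  refine (Nat.mul_le_mul h6 h1).trans ?_
  rw [← pow_add]
  refine Nat.pow_le_pow_right (by norm_num) ?_
  obtain ⟨u, rfl⟩ := Nat.exists_eq_add_of_le h5
  obtain ⟨v, rfl⟩ := Nat.exists_eq_add_of_le h3
  have : (1 + u) * (2 + v) = 2 + v + 2 * u + u * v := by ring
  rw [hm', this]
  omega

theorem num_sqfree {N m : ℕ} (hN : N ≠ 0) (hm : Squarefree m)
    (h : ∀ p, p.Prime → p ^ N.factorization p ∣ (p ^ m.factorization p)!) : N ∣ m := by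
  refine (Nat.factorization_prime_le_iff_dvd hN hm.ne_zero).1 fun p hp => ?_
  have h1 := exp_le hp (pow_ne_zero _ hp.ne_zero) (h p hp)
  have h2 := hm.natFactorization_le_one p
  have h3 := hp.two_le
  rcases Nat.le_one_iff_eq_zero_or_eq_one.1 h2 with h4 | h4
  · rw [h4] at h1 ⊢
    simp only [pow_zero, Nat.sub_self, nonpos_iff_eq_zero, mul_eq_zero] at h1
    omega
  · rw [h4] at h1 ⊢
    rw [pow_one] at h1
    have h5 : 0 < p - 1 := by omega
    exact Nat.le_of_mul_le_mul_left (by omega) h5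

theorem relIndex_dvd {G : Type*} [Group G] [Finite G] (H P : Subgroup G) [P.Normal] :
    H.relIndex P ∣ H.index := by
  have h1 := relIndex_mul_index (inf_le_right : H ⊓ P ≤ P)
  have h2 := relIndex_mul_index (inf_le_left : H ⊓ P ≤ H)
  rw [inf_relIndex_right] at h1
  rw [inf_relIndex_left] at h2
  obtain ⟨t, ht⟩ := relIndex_dvd_index_of_normal P H
  have h0 : P.relIndex H ≠ 0 := index_ne_zero_of_finite
  refine ⟨t, Nat.eq_of_mul_eq_mul_left (Nat.pos_of_ne_zero h0) ?_⟩
  rw [h2, ← h1, ht]; ring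

theorem sylow_normal {G : Type*} [Group G] [Finite G] (hG : Group.IsNilpotent G) {p : ℕ}
    [Fact p.Prime] (P : Sylow p G) : P.1.Normal :=
  Sylow.normal_of_normalizerCondition (normalizerCondition_of_isNilpotent) P

theorem sup_centralizer {G : Type*} [Group G] [Finite G] (hG : Group.IsNilpotent G) {p : ℕ}
    [hp : Fact p.Prime] (P : Sylow p G) : P.1 ⊔ centralizer (P.1 : Set G) = ⊤ := by
  rw [← index_eq_one]
  by_contra h
  obtain ⟨q, hq, hd⟩ := Nat.exists_prime_and_dvd h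
  haveI := Fact.mk hq
  by_cases hqp : q = p
  · subst hqp
    exact P.not_dvd_index (hd.trans (index_dvd_of_le le_sup_left))
  · obtain ⟨Q⟩ : Nonempty (Sylow q G) := inferInstance
    refine Q.not_dvd_index (hd.trans (index_dvd_of_le (le_trans ?_ le_sup_right)))
    intro g hg
    rw [mem_centralizer_iff]
    intro u hu
    refine H1.commute_of_isNilpotent_of_coprime hG ?_
    obtain ⟨i, hi⟩ := IsPGroup.iff_orderOf.1 P.2 ⟨u, hu⟩
    obtain ⟨j, hj⟩ := IsPGroup.iff_orderOf.1 Q.2 ⟨g, hg⟩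
    rw [orderOf_mk] at hi hj
    rw [hi, hj]
    exact Nat.Coprime.pow _ _ ((Nat.coprime_primes hp.out hq).2 (Ne.symm hqp))

section trans
variable {G X : Type*} [Group G] [MulAction G X] [Finite G]

theorem card_orbit_dvd (P : Subgroup G) [P.Normal] (x : X) :
    Nat.card (orbit P x) ∣ Nat.card (orbit G x) := by
  have h1 : Nat.card (orbit P x) = (stabilizer G x).relIndex P := by
    rw [Nat.card_coe_set_eq, ← index_stabilizer]; rfl
  rw [h1, Nat.card_coe_set_eq, ← index_stabilizer]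
  exact relIndex_dvd _ _

theorem card_orbit_pow {p : ℕ} [Fact p.Prime] {P : Subgroup G} (hP : IsPGroup p P) (x : X) :
    ∃ a, Nat.card (orbit P x) = p ^ a := by
  rw [Nat.card_coe_set_eq, ← index_stabilizer]
  exact hP.index _

/-- A Sylow subgroup of a faithful transitive nilpotent group is faithful on each of its orbits. -/
theorem sylow_dvd [FaithfulSMul G X] [IsPretransitive G X] [Finite X] [Nonempty X]
    (hG : Group.IsNilpotent G) (p : ℕ) (hp : p.Prime) :
    p ^ (Nat.card G).factorization p ∣ (p ^ (Nat.card X).factorization p)! := by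
  haveI := Fact.mk hp
  obtain ⟨P⟩ : Nonempty (Sylow p G) := inferInstance
  obtain ⟨x⟩ := ‹Nonempty X›
  haveI := sylow_normal hG P
  obtain ⟨a, ha⟩ := card_orbit_pow P.2 x
  have h1 := card_orbit_dvd P.1 x
  rw [ha, orbit_eq_univ G x, Nat.card_univ] at h1
  have h2 : a ≤ (Nat.card X).factorization p :=
    (hp.pow_dvd_iff_le_factorization Nat.card_pos.ne').1 h1
  refine Dvd.dvd.trans ?_ (Nat.factorial_dvd_factorial (Nat.pow_le_pow_right hp.pos h2))
  rw [← P.card_eq_multiplicity, ← ha, ← Nat.card_perm]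
  refine card_dvd_of_injective (toPermHom P.1 (orbit P.1 x)) ?_
  rw [injective_iff_map_eq_one]
  intro g hg
  have h3 : ∀ u : P.1, (g : G) • (u : G) • x = (u : G) • x := fun u =>
    congrArg Subtype.val (Equiv.congr_fun hg ⟨u • x, mem_orbit x u⟩)
  ext1
  refine eq_of_smul_eq_smul (α := X) fun y => ?_
  obtain ⟨w, rfl⟩ := exists_smul_eq G x y
  have hw : w ∈ centralizer (P.1 : Set G) ⊔ P.1 := by
    rw [sup_comm, sup_centralizer hG P]; trivial
  rw [← SetLike.mem_coe, mul_normal] at hw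
  obtain ⟨c, hc, u, hu, rfl⟩ := hw
  have h4 : (g : G) * c = c * g := hc g g.2
  simp only [OneMemClass.coe_one, one_smul]
  rw [mul_smul, ← mul_smul (g : G), h4, mul_smul, h3 ⟨u, hu⟩]

end trans

/-- Bound for a transitive nilpotent group of small degree that is not a power of two. -/
def f1 (m : ℕ) : ℕ := [0, 0, 0, 3, 0, 5, 6, 7, 0, 81, 10, 11, 420, 13, 14, 15].getD m 0

/-- Bound for a nilpotent group of small degree, no orbit length a power of two. -/
def tb (m : ℕ) : ℕ := [1, 0, 0, 3, 0, 5, 9, 7, 15, 81, 25, 45, 420, 75, 405, 1260].getD m 0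

theorem tb_mul : ∀ m ≤ 15, ∀ b ≤ 15, m + b ≤ 15 → f1 m * tb b ≤ tb (m + b) := by decide

section perm
variable {α : Type*} [Finite α] {N : Subgroup (Perm α)}

theorem orbit_dvd (hN : Group.IsNilpotent N) (x : α) (p : ℕ) (hp : p.Prime) :
    p ^ (fixingSubgroup N (orbit N x)).index.factorization p ∣
      (p ^ (Nat.card (orbit N x)).factorization p)! := by
  have h1 : fixingSubgroup N (orbit N x) = (toPermHom N (orbit N x)).ker := by
    ext g
    rw [mem_fixingSubgroup_iff, MonoidHom.mem_ker, Equiv.ext_iff]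
    exact ⟨fun h y => Subtype.ext (h y y.2), fun h y hy => congrArg Subtype.val (h ⟨y, hy⟩)⟩
  rw [h1, index_ker]
  haveI : IsPretransitive (toPermHom N (orbit N x)).range (orbit N x) := ⟨fun y z => by
    obtain ⟨g, hg⟩ := exists_smul_eq N y z
    exact ⟨⟨_, g, rfl⟩, hg⟩⟩
  haveI : Nonempty (orbit N x) := ⟨⟨x, mem_orbit_self x⟩⟩
  exact sylow_dvd (Group.nilpotent_of_surjective _ (MonoidHom.rangeRestrict_surjective _)) p hp

/-- Points moved by an element of odd prime power order. -/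
def B (N : Subgroup (Perm α)) : Set α :=
  {x | ∃ p : ℕ, p.Prime ∧ p ≠ 2 ∧ ∃ g : N, (∃ k, orderOf g = p ^ k) ∧ g • x ≠ x}

omit [Finite α] in
theorem smul_mem_B {x : α} (hx : x ∈ B N) (g : N) : g • x ∈ B N := by
  obtain ⟨p, h1, h2, u, ⟨k, hk⟩, hu⟩ := hx
  refine ⟨p, h1, h2, g * u * g⁻¹, ⟨k, ?_⟩, fun h => hu ?_⟩
  · rw [← hk]; exact (MulAut.conj g).orderOf_eq u
  · rwa [mul_smul, inv_smul_smul, mul_smul, smul_left_cancel_iff] at h

theorem exists_prime_dvd (hN : Group.IsNilpotent N) {x : α} (hx : x ∈ B N) :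
    ∃ p : ℕ, p.Prime ∧ p ≠ 2 ∧ p ∣ Nat.card (orbit N x) := by
  obtain ⟨p, h1, h2, u, ⟨k, hk⟩, hu⟩ := hx
  haveI := Fact.mk h1
  have h3 : IsPGroup p (zpowers u) := IsPGroup.of_card (by rw [Nat.card_zpowers, hk])
  obtain ⟨P, hP⟩ := h3.exists_le_sylow
  haveI := sylow_normal hN P
  obtain ⟨a, ha⟩ := card_orbit_pow P.2 x
  refine ⟨p, h1, h2, Dvd.dvd.trans ?_ (card_orbit_dvd P.1 x)⟩
  rw [ha]
  refine dvd_pow_self p ?_
  rintro rfl
  rw [pow_zero, Nat.card_eq_one_iff_unique] at ha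
  exact hu (congrArg Subtype.val (ha.1.elim ⟨_, mem_orbit x ⟨u, hP (mem_zpowers u)⟩⟩
    ⟨x, mem_orbit_self x⟩))

theorem orbit_bound (hN : Group.IsNilpotent N) {x : α} (hx : x ∈ B N) :
    3 ≤ (orbit N x).ncard ∧
      (fixingSubgroup N (orbit N x)).index ^ 2 ≤ 3 ^ ((orbit N x).ncard - 1) ∧
      ((orbit N x).ncard ≤ 15 → (fixingSubgroup N (orbit N x)).index ≤ f1 (orbit N x).ncard) := by
  obtain ⟨p, h1, h2, h3⟩ := exists_prime_dvd hN hx
  have h4 := orbit_dvd hN x
  haveI : Nonempty (orbit N x) := ⟨⟨x, mem_orbit_self x⟩⟩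
  have h5 : Nat.card (orbit N x) ≠ 0 := Nat.card_pos.ne'
  rw [Nat.card_coe_set_eq] at h3 h4 h5
  have h6 : (fixingSubgroup N (orbit N x)).index ≠ 0 := index_ne_zero_of_finite
  have h7 := num_sq h6 h5 h4 h1 h2 h3
  have h8 := fun h => Nat.le_of_dvd (Nat.pos_of_ne_zero h5) (num_sqfree h6 h h4)
  have h9 := Nat.le_of_dvd (Nat.pos_of_ne_zero h5) h3
  have h10 := h1.two_le
  refine ⟨by omega, h7, fun h => ?_⟩
  generalize (orbit N x).ncard = m at *
  generalize (fixingSubgroup N (orbit N x)).index = i at *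
  have h11 : ∀ k, m ≠ 2 ^ k := by
    rintro k rfl
    exact h2 ((Nat.prime_dvd_prime_iff_eq h1 Nat.prime_two).1 (h1.dvd_of_dvd_pow h3))
  have h12 := h11 2
  have h13 := h11 3
  have h14 : 3 ≤ m := by omega
  clear h4 h3 h9 h11
  interval_cases m
  all_goals first
    | omega
    | exact h8 (by rw [Nat.squarefree_iff_nodup_primeFactorsList (by norm_num)]; simp)
    | (simp only [f1, List.getD_cons_succ, List.getD_cons_zero]; norm_num at h7; nlinarith)

theorem inv_bound (hN : Group.IsNilpotent N) : ∀ (b : ℕ) (s : Set α), s.ncard = b → s ⊆ B N →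
    (∀ x ∈ s, ∀ g : N, g • x ∈ s) →
    (fixingSubgroup N s).index ^ 2 ≤ 3 ^ (b - 1) ∧ (b ≤ 15 → (fixingSubgroup N s).index ≤ tb b) := by
  intro b
  induction b using Nat.strong_induction_on with
  | _ b ih =>
  intro s hs hB hi
  rcases s.eq_empty_or_nonempty with rfl | ⟨x, hx⟩
  · rw [Set.ncard_empty] at hs
    subst hs
    simp [tb]
  have h1 : orbit N x ⊆ s := by rintro _ ⟨g, rfl⟩; exact hi x hx g
  obtain ⟨h2, h3, h4⟩ := orbit_bound hN (hB hx)
  have h5 : (orbit N x).ncard + (s \ orbit N x).ncard = b := by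
    rw [← hs, add_comm, Set.ncard_diff_add_ncard_of_subset h1]
  obtain ⟨h6, h7⟩ := ih _ (by omega) (s \ orbit N x) rfl (Set.diff_subset.trans hB)
    fun y hy g => ⟨hi y hy.1 g, fun h => hy.2 (by simpa using mem_orbit_of_mem_orbit g⁻¹ h)⟩
  have h8 : (fixingSubgroup N s).index ≤
      (fixingSubgroup N (orbit N x)).index * (fixingSubgroup N (s \ orbit N x)).index := by
    conv_lhs => rw [← Set.union_diff_cancel h1, fixingSubgroup_union]
    exact index_inf_le
  refine ⟨?_, fun h => h8.trans (le_trans (Nat.mul_le_mul (h4 (by omega)) (h7 (by omega))) ?_)⟩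
  · refine (Nat.pow_le_pow_left h8 2).trans ?_
    rw [mul_pow]
    refine (Nat.mul_le_mul h3 h6).trans ?_
    rw [← pow_add]
    exact Nat.pow_le_pow_right (by norm_num) (by omega)
  · rw [← h5]
    exact tb_mul _ (by omega) _ (by omega) (by omega)

end perm

end H21.Nil
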