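import Cfsg.Agent.H21.Nil1

/-! Largest nilpotent subgroups of symmetric and alternating groups. -/

namespace H21.Nil

open Subgroup Equiv MulAction
open scoped Nat

theorem struct {α : Type*} [Fintype α] [DecidableEq α] {N : Subgroup (Perm α)}
    (hN : Group.IsNilpotent N) : ∃ a b k I : ℕ, a + b = Fintype.card α ∧ Nat.card N = 2 ^ k * I ∧
      2 ^ k ∣ a ! ∧ (N ≤ alternatingGroup α → 2 ≤ a → 2 ^ (k + 1) ∣ a !) ∧
      I ^ 2 ≤ 3 ^ (b - 1) ∧ (b ≤ 15 → I ≤ tb b) ∧ (b = 3 → ∃ c ∈ N, c.IsThreeCycle) := by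
  classical
  set K := fixingSubgroup N (B N)
  set s : Finset α := (B N)ᶜ.toFinset
  have hs : ∀ x, x ∈ s ↔ x ∉ B N := fun x => by simp [s]
  have hK : IsPGroup 2 K := by
    obtain ⟨k, hk⟩ : ∃ k, Nat.card K = 2 ^ k := by
      refine ⟨_, (Nat.eq_prime_pow_of_unique_prime_dvd Nat.card_pos.ne' fun {d} hd h => ?_)⟩
      by_contra h2
      haveI := Fact.mk hd
      obtain ⟨g, hg⟩ := exists_prime_orderOf_dvd_card' d h
      have h3 : (g : N) = 1 := by
        refine eq_of_smul_eq_smul (α := α) fun y => ?_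
        rw [one_smul]
        by_contra h4
        exact h4 ((mem_fixingSubgroup_iff N).1 g.2 y
          ⟨d, hd, h2, g, ⟨1, by rw [pow_one, ← hg, orderOf_coe]⟩, h4⟩)
      rw [← orderOf_coe, h3, orderOf_one] at hg
      exact hd.one_lt.ne hg
    exact IsPGroup.of_card hk
  obtain ⟨k, hk⟩ := IsPGroup.iff_card.1 hK
  have h1 : K.map N.subtype ≤ (Perm.ofSubtype (p := (· ∈ s))).range := by
    rintro _ ⟨g, hg, rfl⟩
    rw [Perm.mem_range_ofSubtype_iff]
    intro x hx
    exact (hs x).2 fun h => (Perm.mem_support.1 hx) ((mem_fixingSubgroup_iff N).1 hg x h)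
  have h2 : Nat.card (K.map N.subtype) = 2 ^ k := by rw [card_map_of_injective N.subtype_injective, hk]
  obtain ⟨h3, h4⟩ := inv_bound hN _ (B N) rfl subset_rfl fun x hx g => smul_mem_B hx g
  refine ⟨s.card, (B N).ncard, k, K.index, ?_, by rw [← hk, card_mul_index], ?_, ?_, h3, h4, ?_⟩
  · rw [← Set.ncard_eq_toFinset_card', add_comm, Set.ncard_add_ncard_compl, Nat.card_eq_fintype_card]
  · have := card_dvd_of_le h1
    rwa [h2, MonoidHom.range_eq_map, card_map_of_injective Perm.ofSubtype_injective, card_top,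
      Nat.card_perm, Nat.card_eq_fintype_card, Fintype.card_coe] at this
  · intro h5 h6
    have h7 : K.map N.subtype ≤ (alternatingGroup s).map Perm.ofSubtype := by
      rw [alternatingGroup.map_ofSubtype]
      exact le_inf h1 ((map_subtype_le _).trans h5)
    have h8 := card_dvd_of_le h7
    rw [h2, card_map_of_injective Perm.ofSubtype_injective] at h8
    haveI : Nontrivial s := Fintype.one_lt_card_iff_nontrivial.1 (by rw [Fintype.card_coe]; exact h6)
    have h9 := two_mul_nat_card_alternatingGroup (α := s)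
    rw [Nat.card_perm, Nat.card_eq_fintype_card (α := s), Fintype.card_coe] at h9
    rw [← h9, pow_succ']
    exact Nat.mul_dvd_mul_left 2 h8
  · intro h5
    obtain ⟨x, p, hp, hp2, g, ⟨j, hj⟩, hg⟩ := Set.nonempty_of_ncard_ne_zero (h5.trans_ne (by norm_num))
    refine ⟨g, g.2, card_support_eq_three_iff.1 ?_⟩
    have h6 : ((g : Perm α).support : Set α) ⊆ B N := fun y hy =>
      ⟨p, hp, hp2, g, ⟨j, hj⟩, Perm.mem_support.1 hy⟩
    have h7 := Set.ncard_le_ncard h6
    rw [Set.ncard_coe_finset, h5] at h7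
    have h8 : (g : Perm α) ≠ 1 := fun h => hg (by change (g : Perm α) x = x; rw [h]; rfl)
    have h9 := Perm.one_lt_card_support_of_ne_one h8
    have h10 : (g : Perm α).support.card ≠ 2 := fun h => by
      have h11 := (Perm.card_support_eq_two.1 h).orderOf
      rw [orderOf_coe, hj] at h11
      exact hp2 ((Nat.Prime.pow_eq_iff Nat.prime_two).1 h11).1
    omega

/-- The order of a Sylow `2`-subgroup of `S_n`. -/
def V (n : ℕ) : ℕ := 2 ^ (n !).factorization 2

theorem dvd_V {k n : ℕ} : 2 ^ k ∣ V n ↔ 2 ^ k ∣ n ! := by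
  rw [V, Nat.pow_dvd_pow_iff_le_right (by norm_num),
    Nat.prime_two.pow_dvd_iff_le_factorization (Nat.factorial_ne_zero n)]

theorem V_pos (n : ℕ) : 0 < V n := Nat.two_pow_pos _

theorem le_V {k n : ℕ} (h : 2 ^ k ∣ n !) : 2 ^ k ≤ V n := Nat.le_of_dvd (V_pos n) (dvd_V.2 h)

theorem V_dvd (n : ℕ) : V n ∣ n ! := Nat.ordProj_dvd _ _

theorem V_mul (a b : ℕ) : V a * V b ≤ V (a + b) := by
  have := (mul_dvd_mul (V_dvd a) (V_dvd b)).trans (Nat.factorial_mul_factorial_dvd_factorial_add a b)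
  rw [V, V, ← pow_add] at this ⊢
  exact le_V this

theorem V_three (a : ℕ) : V (a + 3) = V a * 2 ^ ((a + 1) * (a + 2) * (a + 3)).factorization 2 := by
  have : (a + 3)! = a ! * ((a + 1) * (a + 2) * (a + 3)) := by
    simp only [Nat.factorial_succ]; ring
  rw [V, V, this, Nat.factorization_mul (Nat.factorial_ne_zero a) (by positivity), Finsupp.add_apply,
    pow_add]

theorem V_three_ne {a : ℕ} (h : a % 4 ≠ 0) : 4 * V a ≤ V (a + 3) := by
  rw [V_three, mul_comm]
  refine Nat.mul_le_mul_left _ (Nat.pow_le_pow_right (n := 2) (i := 2) (by norm_num) ?_)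
  refine (Nat.prime_two.pow_dvd_iff_le_factorization (by positivity)).1 ?_
  have : (a + 1) % 4 = 0 ∨ (a + 2) % 4 = 0 ∨ (a + 3) % 4 = 0 := by omega
  rcases this with h | h | h
  · exact ((Nat.dvd_of_mod_eq_zero h).mul_right _).mul_right _
  · exact ((Nat.dvd_of_mod_eq_zero h).mul_left _).mul_right _
  · exact (Nat.dvd_of_mod_eq_zero h).mul_left _

theorem V_three_eq {a : ℕ} (h : a % 4 = 0) : V (a + 3) ≤ 2 * V a := by
  rw [V_three, mul_comm]
  refine Nat.mul_le_mul_right _ (Nat.pow_le_pow_right (n := 2) (j := 1) (by norm_num) ?_)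
  by_contra h1
  have h2 := (Nat.prime_two.pow_dvd_iff_le_factorization (k := 2)
    (n := (a + 1) * (a + 2) * (a + 3)) (by positivity)).2 (by omega)
  obtain ⟨c, rfl⟩ := Nat.dvd_of_mod_eq_zero h
  have : (4 * c + 1) * (4 * c + 2) * (4 * c + 3) = 4 * (16 * c ^ 3 + 24 * c ^ 2 + 11 * c + 1) + 2 := by
    ring
  rw [this] at h2
  omega

/-- Exponent of two in small factorials. -/
def vt (b : ℕ) : ℕ := b / 2 + b / 4 + b / 8 + b / 16

theorem vt_le {b : ℕ} (h : b ≤ 23) : 2 ^ vt b ≤ V b := by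
  refine le_V ?_
  revert b
  decide +kernel

theorem big (b : ℕ) (h : 16 ≤ b) : 4 * 3 ^ (b - 1) < V b ^ 2 := by
  induction b using Nat.strong_induction_on with
  | _ b ih =>
  by_cases h1 : b ≤ 23
  · refine lt_of_lt_of_le ?_ (Nat.pow_le_pow_left (vt_le h1) 2)
    interval_cases b <;> simp [vt]
  · obtain ⟨c, rfl⟩ : ∃ c, b = c + 8 := ⟨b - 8, by omega⟩
    have h2 := ih c (by omega) (by omega)
    have h3 := Nat.pow_le_pow_left (V_mul c 8) 2
    have h4 : 128 ≤ V 8 := vt_le (b := 8) (by norm_num)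
    have h5 : c + 8 - 1 = c - 1 + 8 := by omega
    rw [h5, pow_add]
    refine lt_of_lt_of_le ?_ h3
    rw [mul_pow]
    nlinarith [Nat.pow_le_pow_left h4 2]

theorem big' {b I : ℕ} (h : 16 ≤ b) (hI : I ^ 2 ≤ 3 ^ (b - 1)) : 2 * I < V b := by
  have := big b h
  exact lt_of_pow_lt_pow_left₀ 2 (Nat.zero_le _) (by nlinarith)

theorem le_Vb {b I : ℕ} (h3 : b ≠ 3) (h1 : I ^ 2 ≤ 3 ^ (b - 1)) (h2 : b ≤ 15 → I ≤ tb b) :
    I ≤ V b := by
  by_cases h : b ≤ 15
  · refine (h2 h).trans (le_trans ?_ (vt_le (by omega)))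
    interval_cases b <;> simp_all [vt, tb]
  · have := big' (by omega) h1
    omega

/-- The combined numeric bound. -/
theorem num {a b I : ℕ} (h1 : I ^ 2 ≤ 3 ^ (b - 1)) (h2 : b ≤ 15 → I ≤ tb b) :
    ((a + b) % 4 ≠ 3 → V a * I ≤ V (a + b)) ∧
    ((a + b) % 4 = 3 → V a * I ≤ 3 * V (a + b - 3) ∧ (b ≠ 3 → V a * I < 3 * V (a + b - 3))) := by
  by_cases h3 : b = 3
  · subst h3
    have h4 : I ≤ 3 := h2 (by norm_num)
    refine ⟨fun h => ?_, fun _ => ⟨?_, fun h => (h rfl).elim⟩⟩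
    · have := V_three_ne (a := a) (by omega)
      nlinarith
    · rw [Nat.add_sub_cancel]; nlinarith
  · have h4 := (Nat.mul_le_mul_left (V a) (le_Vb h3 h1 h2)).trans (V_mul a b)
    refine ⟨fun _ => h4, fun h => ?_⟩
    have h5 := V_three_eq (a := a + b - 3) (by omega)
    rw [show a + b - 3 + 3 = a + b by omega] at h5
    have := V_pos (a + b - 3)
    exact ⟨by omega, fun _ => by omega⟩

theorem num_alt {a b I : ℕ} (ha : a ≤ 1) (hb : b ≠ 0) (h1 : I ^ 2 ≤ 3 ^ (b - 1))
    (h2 : b ≤ 15 → I ≤ tb b) :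
    ((a + b) % 4 ≠ 3 → a + b ≠ 5 → a + b ≠ 6 → a + b ≠ 9 → 2 * I ≤ V (a + b)) ∧
    ((a + b) % 4 = 3 → 7 ≤ a + b → 2 * I < 3 * V (a + b - 3)) := by
  by_cases h : b ≤ 15
  · have h3 := h2 h
    have h4 := vt_le (b := a + b) (by omega)
    have h5 := vt_le (b := a + b - 3) (by omega)
    generalize V (a + b) = x at *
    generalize V (a + b - 3) = y at *
    clear h1 h2
    interval_cases a <;> interval_cases b <;> simp [vt, tb] at h3 h4 h5 ⊢ <;> omega
  · have h3 := big' (by omega) h1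
    have h4 := V_mul a b
    have h5 := V_pos a
    have h6 : V b ≤ V (a + b) := by nlinarith
    refine ⟨fun _ _ _ _ => by omega, fun h _ => ?_⟩
    have h5 := V_three_eq (a := a + b - 3) (by omega)
    rw [show a + b - 3 + 3 = a + b by omega] at h5
    omega

section perm
variable {α : Type*} [Fintype α] [DecidableEq α] {N : Subgroup (Perm α)}

theorem perm_ne (hN : Group.IsNilpotent N) (h : Fintype.card α % 4 ≠ 3) :
    Nat.card N ≤ V (Fintype.card α) := by
  obtain ⟨a, b, k, I, h1, h2, h3, -, h5, h6, -⟩ := struct hN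
  rw [← h1] at h ⊢
  rw [h2]
  exact (Nat.mul_le_mul_right _ (le_V h3)).trans ((num h5 h6).1 h)

theorem perm_eq (hN : Group.IsNilpotent N) (h : Fintype.card α % 4 = 3) :
    Nat.card N ≤ 3 * V (Fintype.card α - 3) ∧
      (Nat.card N = 3 * V (Fintype.card α - 3) → ∃ c ∈ N, c.IsThreeCycle) := by
  obtain ⟨a, b, k, I, h1, h2, h3, -, h5, h6, h7⟩ := struct hN
  rw [← h1] at h ⊢
  rw [h2]
  have h8 := Nat.mul_le_mul_right I (le_V h3)
  obtain ⟨h9, h10⟩ := (num h5 h6).2 h
  exact ⟨h8.trans h9, fun h11 => h7 (by by_contra h12; have := h10 h12; omega)⟩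

theorem alt_ne (hN : Group.IsNilpotent N) (hA : N ≤ alternatingGroup α) (h2 : 2 ≤ Fintype.card α)
    (h : Fintype.card α % 4 ≠ 3) (h5 : Fintype.card α ≠ 5) (h6 : Fintype.card α ≠ 6)
    (h9 : Fintype.card α ≠ 9) : 2 * Nat.card N ≤ V (Fintype.card α) := by
  obtain ⟨a, b, k, I, h1, e2, e3, e4, e5, e6, -⟩ := struct hN
  rw [← h1] at h h2 h5 h6 h9 ⊢
  rw [e2]
  by_cases ha : 2 ≤ a
  · rw [← mul_assoc, ← pow_succ']
    exact (Nat.mul_le_mul_right _ (le_V (e4 hA ha))).trans ((num e5 e6).1 h)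
  · have : a ! = 1 := Nat.factorial_eq_one.2 (by omega)
    rw [this, Nat.dvd_one] at e3
    rw [e3, one_mul]
    exact (num_alt (by omega) (by omega) e5 e6).1 h h5 h6 h9

theorem alt_eq (hN : Group.IsNilpotent N) (hA : N ≤ alternatingGroup α) (h7 : 7 ≤ Fintype.card α)
    (h : Fintype.card α % 4 = 3) : 2 * Nat.card N ≤ 3 * V (Fintype.card α - 3) ∧
      (2 * Nat.card N = 3 * V (Fintype.card α - 3) → ∃ c ∈ N, c.IsThreeCycle) := by
  obtain ⟨a, b, k, I, h1, e2, e3, e4, e5, e6, e7⟩ := struct hN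
  rw [← h1] at h h7 ⊢
  rw [e2]
  by_cases ha : 2 ≤ a
  · rw [← mul_assoc, ← pow_succ']
    have h8 := Nat.mul_le_mul_right I (le_V (e4 hA ha))
    obtain ⟨h9, h10⟩ := (num e5 e6).2 h
    exact ⟨h8.trans h9, fun h11 => e7 (by by_contra h12; have := h10 h12; omega)⟩
  · have : a ! = 1 := Nat.factorial_eq_one.2 (by omega)
    rw [this, Nat.dvd_one] at e3
    rw [e3, one_mul]
    have := (num_alt (by omega) (by omega) e5 e6).2 h h7
    exact ⟨this.le, fun h11 => (this.ne h11).elim⟩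

end perm

section uniq
variable {G : Type*} [Group G] [Finite G]

theorem exists_prod {S : Type*} [Group S] [Finite S] (hS : IsPGroup 2 S) (f : S →* G)
    (hf : Function.Injective f) {c : G} (hc : orderOf c = 3) (h : ∀ s, Commute (f s) c) :
    ∃ M : Subgroup G, Group.IsNilpotent M ∧ Nat.card M = 3 * Nat.card S ∧
      Nonempty (M ≃* (S × Multiplicative (ZMod 3))) := by
  have h1 : Nat.card (zpowers c) = Nat.card (Multiplicative (ZMod 3)) := by
    rw [Nat.card_zpowers, hc]; simp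
  let e : Multiplicative (ZMod 3) ≃* zpowers c := mulEquivOfCyclicCardEq h1.symm
  let ψ : S × Multiplicative (ZMod 3) →* G := f.noncommCoprod ((zpowers c).subtype.comp e.toMonoidHom)
    fun s t => by
      obtain ⟨j, hj⟩ := (e t).2
      change Commute (f s) (e t : G)
      rw [← hj]
      exact (h s).zpow_right j
  have hψ : Function.Injective ψ := by
    rw [injective_iff_map_eq_one]
    rintro ⟨s, t⟩ hst
    have h2 : f s * (e t : G) = 1 := hst
    have h3 : orderOf (f s) ∣ 3 := by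
      rw [eq_inv_of_mul_eq_one_left h2, orderOf_inv, orderOf_coe]
      exact (_root_.orderOf_dvd_natCard _).trans (by rw [Nat.card_zpowers, hc])
    obtain ⟨j, hj⟩ := IsPGroup.iff_orderOf.1 hS s
    rw [orderOf_injective f hf, hj] at h3
    have h4 : s = 1 := by
      rw [← orderOf_eq_one_iff, hj]
      exact Nat.Coprime.eq_one_of_dvd (Nat.Coprime.pow_left j (by norm_num)) h3
    subst h4
    rw [map_one, one_mul, OneMemClass.coe_eq_one, map_eq_one_iff _ e.injective] at h2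
    rw [h2]; rfl
  haveI := hS.isNilpotent
  refine ⟨ψ.range, Group.nilpotent_of_surjective _ ψ.rangeRestrict_surjective, ?_,
    ⟨(MonoidHom.ofInjective hψ).symm⟩⟩
  rw [← Nat.card_congr (MonoidHom.ofInjective hψ).toEquiv, Nat.card_prod, mul_comm]
  simp

theorem exists_sylow {k : ℕ} (hmax : ∀ M : Subgroup G, Group.IsNilpotent M → Nat.card M ≤ 3 * 2 ^ k)
    {N : Subgroup G} (hN : Group.IsNilpotent N) (h : Nat.card N = 3 * 2 ^ k) {c : G} (hc : c ∈ N)
    (h3 : orderOf c = 3) : ∃ T : Sylow 2 (centralizer ({c} : Set G)),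
      N = T.1.map (centralizer ({c} : Set G)).subtype ⊔ zpowers c := by
  obtain ⟨S⟩ : Nonempty (Sylow 2 N) := inferInstance
  have h1 : Nat.card S = 2 ^ k := by
    rw [S.card_eq_multiplicity, h, Nat.factorization_mul (by norm_num) (by positivity)]
    simp [Nat.prime_two.factorization_pow, Nat.prime_three.factorization]
  set C := centralizer ({c} : Set G)
  have h2 : S.1.map N.subtype ≤ C := by
    rintro _ ⟨g, hg, rfl⟩
    rw [mem_centralizer_singleton_iff]
    obtain ⟨i, hi⟩ := IsPGroup.iff_orderOf.1 S.2 ⟨g, hg⟩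
    rw [orderOf_mk] at hi
    refine congrArg Subtype.val (H1.commute_of_isNilpotent_of_coprime hN (x := g) (y := ⟨c, hc⟩) ?_)
    rw [hi, orderOf_mk, h3]
    exact Nat.Coprime.pow_left i (by norm_num)
  obtain ⟨T, hT⟩ := ((S.2.map N.subtype).comap_subtype (K := C)).exists_le_sylow
  have h4 : S.1.map N.subtype ≤ T.1.map C.subtype := fun g hg => ⟨⟨g, h2 hg⟩, hT hg, rfl⟩
  obtain ⟨M, hM, h5, -⟩ := exists_prod T.2 (C.subtype.comp T.1.subtype)
    (C.subtype_injective.comp T.1.subtype_injective) h3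
    fun s => mem_centralizer_singleton_iff.1 s.1.2
  have h6 := hmax M hM
  have h7 : S.1.map N.subtype = T.1.map C.subtype := by
    refine eq_of_le_of_card_ge h4 ?_
    rw [card_map_of_injective C.subtype_injective, card_map_of_injective N.subtype_injective, h1]
    omega
  refine ⟨T, ?_⟩
  rw [← h7]
  have h8 : S.1.map N.subtype ⊔ zpowers c ≤ N := sup_le (map_subtype_le _) (by simpa using hc)
  refine (eq_of_le_of_card_ge h8 (Nat.le_of_dvd Nat.card_pos ?_)).symm
  rw [h]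
  refine Nat.Coprime.mul_dvd_of_dvd_of_dvd (Nat.Coprime.pow_right k (by norm_num)) ?_ ?_
  · rw [← h3, ← Nat.card_zpowers]; exact card_dvd_of_le le_sup_right
  · rw [← h1, ← card_map_of_injective N.subtype_injective]; exact card_dvd_of_le le_sup_left

theorem uniq {k : ℕ} (hmax : ∀ M : Subgroup G, Group.IsNilpotent M → Nat.card M ≤ 3 * 2 ^ k)
    {N₁ N₂ : Subgroup G} (hN₁ : Group.IsNilpotent N₁) (hN₂ : Group.IsNilpotent N₂)
    (h₁ : Nat.card N₁ = 3 * 2 ^ k) (h₂ : Nat.card N₂ = 3 * 2 ^ k) {c₁ c₂ : G} (hc₁ : c₁ ∈ N₁)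
    (hc₂ : c₂ ∈ N₂) (h3 : orderOf c₂ = 3) (hc : IsConj c₁ c₂) :
    ∃ g : G, N₂ = N₁.map (MulAut.conj g).toMonoidHom := by
  obtain ⟨u, hu⟩ := isConj_iff.1 hc
  have e := N₁.equivMapOfInjective (MulAut.conj u).toMonoidHom (MulAut.conj u).injective
  obtain ⟨T₁, hT₁⟩ := exists_sylow hmax (N := N₁.map (MulAut.conj u).toMonoidHom)
    (Group.nilpotent_of_mulEquiv e) (by rw [← h₁, Nat.card_congr e.toEquiv]) ⟨c₁, hc₁, hu⟩ h3
  obtain ⟨T₂, hT₂⟩ := exists_sylow hmax hN₂ h₂ hc₂ h3
  obtain ⟨g, hg⟩ := exists_smul_eq (centralizer ({c₂} : Set G)) T₁ T₂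
  refine ⟨g * u, ?_⟩
  rw [map_mul]
  change _ = N₁.map ((MulAut.conj (g : G)).toMonoidHom.comp (MulAut.conj u).toMonoidHom)
  rw [← map_map, hT₁, hT₂, Subgroup.map_sup, MonoidHom.map_zpowers, ← hg]
  have h4 : (MulAut.conj (g : G)).toMonoidHom c₂ = c₂ := by
    simp [mem_centralizer_singleton_iff.1 g.2]
  rw [h4, map_map, Sylow.coe_subgroup_smul, pointwise_smul_def]
  congr 1
  exact map_map _ _ _

end uniq

theorem exists_emb {n : ℕ} (h : 3 ≤ n) : ∃ f : Perm (Fin (n - 3)) →* Perm (Fin n),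
    Function.Injective f ∧ (∀ g, Perm.sign (f g) = Perm.sign g) ∧
      ∃ c : Perm (Fin n), c.IsThreeCycle ∧ ∀ g, Commute (f g) c := by
  classical
  let e : Fin (n - 3) ↪ Fin n := Fin.castLEEmb (Nat.sub_le n 3)
  let a : Fin n := ⟨n - 3, by omega⟩
  let b : Fin n := ⟨n - 2, by omega⟩
  let c : Fin n := ⟨n - 1, by omega⟩
  refine ⟨Perm.viaEmbeddingHom e, Perm.viaEmbeddingHom_injective e, fun g => ?_,
    swap a b * swap a c, Perm.isThreeCycle_swap_mul_swap_same (by simp [a, b]; omega)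
      (by simp [a, c]; omega) (by simp [b, c]; omega),
    fun g => Perm.Disjoint.commute fun x => ?_⟩
  · rw [Perm.viaEmbeddingHom_apply, Perm.viaEmbedding]
    convert Perm.sign_extendDomain g _
  · by_cases hx : x ∈ Set.range e
    · obtain ⟨y, rfl⟩ := hx
      have := y.2
      right
      rw [Perm.mul_apply, swap_apply_of_ne_of_ne (x := e y), swap_apply_of_ne_of_ne] <;>
        (simp [e, a, b, c, Fin.ext_iff]; omega)
    · exact Or.inl (Perm.viaEmbedding_apply_of_notMem g e x hx)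

theorem card_sylow_perm {n : ℕ} (P : Sylow 2 (Perm (Fin n))) : Nat.card P = V n := by
  rw [P.card_eq_multiplicity, Nat.card_perm, Nat.card_fin, V]

theorem card_sylow_alt {n : ℕ} (h : 2 ≤ n) (P : Sylow 2 (alternatingGroup (Fin n))) :
    2 * Nat.card P = V n := by
  haveI : Nontrivial (Fin n) := Fin.nontrivial_iff_two_le.2 h
  have h1 := two_mul_nat_card_alternatingGroup (α := Fin n)
  rw [Nat.card_perm, Nat.card_fin] at h1
  rw [P.card_eq_multiplicity, V, ← h1, Nat.factorization_mul (by norm_num) Nat.card_pos.ne',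
    Finsupp.add_apply, pow_add, Nat.prime_two.factorization_self, pow_one]

theorem map_alt {α : Type*} [Fintype α] [DecidableEq α] {N : Subgroup (alternatingGroup α)}
    (hN : Group.IsNilpotent N) : Group.IsNilpotent (N.map (alternatingGroup α).subtype) ∧
      Nat.card (N.map (alternatingGroup α).subtype) = Nat.card N :=
  ⟨Group.nilpotent_of_mulEquiv (N.equivMapOfInjective _ (subtype_injective _)),
    card_map_of_injective (subtype_injective _)⟩

end H21.Nil
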