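import Cfsg.Agent.H21.Q2c
import Cfsg.Agent.H10.StrongEmb
import Cfsg.Agent.H10.Taussky

/-!
Groups with a self-centralizing subgroup of prime order with dihedral normalizer have one class of
involutions; permutation groups of odd degree whose involutions fix at most three points.
-/

set_option autoImplicit false
open Cfsg
open H5 H7 H8

namespace H21.P3

open Subgroup Finset MulAction
open scoped ComplexConjugate Pointwise

variable {G : Type*} [Group G] [Finite G] {p : ℕ} {x : G}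

local notation "𝐍" x:max => normalizer (SetLike.coe (zpowers x))
local notation "𝐂" x:max => centralizer ({x} : Set _)

theorem not_mem (S : SCent p x) (hp : p ≠ 2) {t : G} (ht : orderOf t = 2) : t ∉ zpowers x :=
  fun e => hp ((Nat.prime_dvd_prime_iff_eq Nat.prime_two S.prime).1
    (by rw [← ht, ← S.card]; exact orderOf_dvd_natCard _ e)).symm

theorem inverts (S : SCent p x) (hp : p ≠ 2) {t : G} (ht : orderOf t = 2) (hN : t ∈ 𝐍 x) :
    t * x * t⁻¹ = x⁻¹ := by
  have h1 : t * x * t⁻¹ ∈ zpowers x := (mem_normalizer_iff.1 hN x).1 (mem_zpowers x)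
  have h2 : t * t = 1 := by rw [← pow_two, ← ht, pow_orderOf_eq_one]
  have h3 : x * (t * x * t⁻¹) = t * x * t⁻¹ * x := by
    obtain ⟨i, hi⟩ := h1
    rw [← hi]; exact (Commute.self_zpow x i).eq
  by_contra e
  refine not_mem S hp ht ?_
  have h4 := mul_mem (mem_zpowers x) h1
  have S' := S.of_mem h4 fun e' => e (eq_inv_of_mul_eq_one_right e')
  refine (zpowers_le.2 h4) (S'.mem_of_comm ?_)
  have h5 : t⁻¹ = t := inv_eq_of_mul_eq_one_right h2
  rw [h5] at h3 ⊢
  calc t * (x * (t * x * t)) = t * x * t * x * t := by group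
    _ = _ := by rw [← h3]

/-- all involutions invert an element of order `p` -/
theorem inv_class [IsSimpleGroup G] (S : SCent p x) (hp : p ≠ 2) (hq : aq x = 2) :
    ∃ t, orderOf t = 2 ∧ t * x * t⁻¹ = x⁻¹ ∧ ∀ s, orderOf s = 2 → IsConj s t := by
  classical
  have := Fintype.ofFinite G
  have : Fact (Nat.Prime 2) := ⟨Nat.prime_two⟩
  have hN : Nat.card (𝐍 x) = p * 2 := by rw [S.card_normalizer', hq]
  obtain ⟨⟨t, tN⟩, ht⟩ := exists_prime_orderOf_dvd_card' (G := 𝐍 x) 2 (hN ▸ dvd_mul_left 2 p)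
  rw [orderOf_mk] at ht
  refine ⟨t, ht, inverts S hp ht tN, fun s hs => by_contra fun hn => ?_⟩
  have k1 : ∀ a ∈ 𝐍 x, orderOf a = 2 → IsConj t a := fun a aN ha => by
    have h1 : ((zpowers x).subgroupOf (𝐍 x)).index = 2 := S.aq_eq.symm.trans hq
    have h2 := (mul_mem_iff_of_index_two h1 (a := ⟨t, tN⟩⁻¹) (b := ⟨a, aN⟩)).2 (by
      simp [mem_subgroupOf, not_mem S hp ht, not_mem S hp ha])
    simpa using S.isConj_mul tN (not_mem S hp ht) ⟨_, h2⟩
  obtain ⟨M, hM⟩ := exists_isPModular S.prime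
  obtain ⟨δ, ζ, a, Y, h⟩ := exists_PD hM S.ord S.not_dvd_index
  obtain ⟨χ, h1, h2, -, h4⟩ := h.two hq
  obtain ⟨η, hη⟩ := card_pos.1 h.card_Y_pos
  have k2 := h.rel S.cent (fun ψ => ψ.1 s * ψ.1 s / ψ.1 1) (fun u hu => by
    have e := card_pairs_isConj s s (u : G)⁻¹
    have : IsEmpty {y : G × G // IsConj s y.1 ∧ IsConj s y.2 ∧ y.1 * y.2 = (u : G)⁻¹} :=
      ⟨fun ⟨⟨b, c⟩, hb, hc, e⟩ => hn (by
        have b2 : orderOf b = 2 := (orderOf_eq_of_isConj hb).symm.trans hs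
        have c2 : orderOf c = 2 := (orderOf_eq_of_isConj hc).symm.trans hs
        have b3 : b * b = 1 := by rw [← pow_two, ← b2, pow_orderOf_eq_one]
        have c3 : c * c = 1 := by rw [← pow_two, ← c2, pow_orderOf_eq_one]
        have u1 : (u : G) ≠ 1 := by simpa using hu
        have e1 : zpowers (u : G) = zpowers x :=
          ((S.of_mem u.2 u1).eq_of_isPGroup S.isP u.2).symm
        refine hb.trans (k1 b ?_ b2).symm
        rw [← e1]
        refine H10.mem_normalizer_of_conj_zpowers ?_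
        have e2 : (u : G) = c * b := by
          rw [← inv_inj, ← e, mul_inv_rev, inv_eq_of_mul_eq_one_right b3,
            inv_eq_of_mul_eq_one_right c3]
        have : b * u * b⁻¹ = (u : G)⁻¹ := by rw [← e, e2]; group
        exact this ▸ inv_mem (mem_zpowers _))⟩
    have e0 : (Nat.card {y // IsConj s y} : ℂ) ≠ 0 := by
      have : Nonempty {y // IsConj s y} := ⟨⟨s, IsConj.refl s⟩⟩
      exact_mod_cast Nat.card_pos.ne'
    rw [Nat.card_of_isEmpty, Nat.cast_zero, eq_comm, mul_eq_zero, div_eq_zero_iff, mul_self_eq_zero]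
      at e
    rw [← e.resolve_left (not_or.2 ⟨e0, card_ne_zero_complex G⟩)]
    exact sum_congr rfl fun ψ _ => by rw [irr_apply_inv, Complex.conj_conj]; ring) η hη
  have k3 := h.reg η hη s (by
    rw [hs]; exact fun e => hp ((Nat.prime_dvd_prime_iff_eq S.prime Nat.prime_two).1 e))
  have k4 := h.reg η hη 1 h.not_dvd_one
  rw [h4] at k2
  rw [h4 fun ψ => ψ.1 s] at k3
  rw [h4 fun ψ => ψ.1 1] at k4
  have k5 := η.2.apply_one_ne_zero
  have k6 := χ.2.apply_one_ne_zero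
  have k7 := h.sign_sq
  have k8 : (a χ : ℂ) * a χ = 1 := by
    rcases h.pm χ with e | e | e <;> simp [e] at h2 ⊢
  simp only [irrOne, mul_one, div_one] at k2 k3 k4
  field_simp at k2
  have k9 : η.1 s = δ * (1 + a χ * χ.1 s) := by rw [← k3, ← mul_assoc, k7, one_mul]
  have k10 : η.1 1 = δ * (1 + a χ * χ.1 1) := by rw [← k4, ← mul_assoc, k7, one_mul]
  rw [k9, k10] at k2
  have k11 : (χ.1 s - χ.1 1) ^ 2 = 0 := by
    have hδ : (δ : ℂ) ≠ 0 := left_ne_zero_of_mul (k7 ▸ one_ne_zero)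
    have ha : (a χ : ℂ) ≠ 0 := left_ne_zero_of_mul (k8 ▸ one_ne_zero)
    refine mul_left_cancel₀ (mul_ne_zero hδ ha) ?_
    linear_combination (-1 : ℂ) * k2 + (δ * (1 + a χ * χ.1 s) ^ 2 * χ.1 1) * k7
  have k12 := χ.2.charKer_eq_bot_of_simple fun e => h1 (Subtype.ext e)
  have := (eq_bot_iff_forall _).1 k12 s (χ.2.mem_charKer_iff.2
    (sub_eq_zero.1 (pow_eq_zero_iff two_ne_zero |>.1 k11)))
  simp [this] at hs

variable {Ω : Type*} [Finite Ω] [MulAction G Ω]

theorem fix_le (S : SCent p x) (hp : p ≠ 2) [IsPretransitive G Ω] {k : ℕ} (hΩ : Nat.card Ω = p * k)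
    {t : G} (ht : t * x * t⁻¹ = x⁻¹) : (fixedBy Ω t).ncard ≤ k := by
  have free : ∀ u ∈ zpowers x, ∀ ω : Ω, u • ω = ω → u = 1 := fun u hu ω e => by_contra fun u1 => by
    have h := S.fixedBy_eq (Ω := Ω) (hΩ ▸ dvd_mul_right p k) ⟨u, hu⟩ (by simpa using u1)
    have : Nonempty (fixedBy Ω u) := ⟨⟨ω, e⟩⟩
    exact Nat.card_pos.ne' (by exact_mod_cast h)
  have := Nat.card_le_card_of_injective
    (fun y : zpowers x × fixedBy Ω t => (y.1 : G) • (y.2 : Ω)) (by
      rintro ⟨⟨u, hu⟩, a, ha⟩ ⟨⟨v, hv⟩, b, hb⟩ e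
      have hw := mul_mem (inv_mem hv) hu
      have e1 : (v⁻¹ * u) • a = b := by rw [mul_smul, inv_smul_eq_iff]; exact e
      generalize hw' : v⁻¹ * u = w at hw e1
      have e2 : t * w = w⁻¹ * t := by
        obtain ⟨i, rfl⟩ := hw
        simp only
        rw [← inv_zpow, ← ht, conj_zpow]; group
      have e3 : (w * w) • a = a := by
        have := mem_fixedBy.1 hb
        rw [← e1, ← mul_smul, e2, mul_smul, mem_fixedBy.1 ha, inv_smul_eq_iff, ← mul_smul] at this
        exact this.symm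
      have e4 : w = 1 := by
        have h1 := orderOf_dvd_of_pow_eq_one ((pow_two w).trans (free _ (mul_mem hw hw) a e3))
        have h2 := S.card ▸ orderOf_dvd_natCard _ hw
        exact orderOf_eq_one_iff.1 (Nat.eq_one_of_dvd_coprimes
          ((Nat.coprime_primes Nat.prime_two S.prime).2 hp.symm) h1 h2)
      subst e4
      obtain rfl : v = u := inv_mul_eq_one.1 hw'
      obtain rfl : a = b := by simpa using e1
      rfl)
  rw [Nat.card_prod, S.card, hΩ] at this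
  exact Nat.le_of_mul_le_mul_left this S.prime.pos

variable (G Ω) in
/-- odd degree, one class of involutions, each fixing at most three points -/
structure F3 : Prop where
  odd : Odd (Nat.card Ω)
  cls : ∀ a b : G, orderOf a = 2 → orderOf b = 2 → IsConj a b
  le : ∀ a : G, orderOf a = 2 → (fixedBy Ω a).ncard ≤ 3

namespace F3

variable (h : F3 G Ω) {a b : G}
include h

theorem card_eq (ha : orderOf a = 2) (hb : orderOf b = 2) :
    (fixedBy Ω a).ncard = (fixedBy Ω b).ncard := by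
  obtain ⟨c, rfl⟩ := isConj_iff.1 (h.cls a b ha hb)
  rw [← smul_fixedBy, Set.ncard_smul_set]

theorem eq_of_subset (ha : orderOf a = 2) (hb : orderOf b = 2) (e : fixedBy Ω a ⊆ fixedBy Ω b) :
    fixedBy Ω a = fixedBy Ω b :=
  Set.eq_of_subset_of_ncard_le e (h.card_eq hb ha).le

theorem exists_fix {C : Subgroup G} (hC : IsPGroup 2 C) : ∃ ω : Ω, ∀ c ∈ C, c • ω = ω := by
  have : Fact (Nat.Prime 2) := ⟨Nat.prime_two⟩
  obtain ⟨ω, hω⟩ := hC.nonempty_fixed_point_of_prime_not_dvd_card Ω h.odd.not_two_dvd_nat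
  exact ⟨ω, fun c hc => hω ⟨c, hc⟩⟩

theorem cent_le (ha : orderOf a = 2) (hb : orderOf b = 2) (hne : fixedBy Ω a ≠ fixedBy Ω b)
    {C : Subgroup G} (hC : IsPGroup 2 C) (aC : a ∈ C) (bC : b ∈ C)
    (h1 : ∀ c ∈ C, c * a = a * c) (h2 : ∀ c ∈ C, c * b = b * c) : Nat.card C ≤ 4 := by
  have : Fact (Nat.Prime 2) := ⟨Nat.prime_two⟩
  obtain ⟨ω, hω⟩ := h.exists_fix hC
  have k : ∀ {a b : G}, orderOf a = 2 → orderOf b = 2 → fixedBy Ω a ≠ fixedBy Ω b → a ∈ C → b ∈ C →
      (∀ c ∈ C, c * a = a * c) → (∀ c ∈ C, c * b = b * c) →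
      (fixedBy Ω a \ fixedBy Ω b).ncard ≤ 2 ∧ ∃ β, ∀ c ∈ C, c • β ∈ fixedBy Ω a \ fixedBy Ω b :=
    fun {a b} ha hb hne aC bC h1 h2 => by
      constructor
      · have := Set.ncard_sdiff_singleton_of_mem (show ω ∈ fixedBy Ω a from hω a aC)
        have := Set.ncard_le_ncard (s := fixedBy Ω a \ fixedBy Ω b) (t := fixedBy Ω a \ {ω})
          (Set.sdiff_subset_sdiff_right (Set.singleton_subset_iff.2 (hω b bC)))
        have := h.le a ha
        omega
      · obtain ⟨β, b1, b2⟩ := Set.not_subset.1 (mt (h.eq_of_subset ha hb) hne)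
        refine ⟨β, fun c hc => ⟨?_, fun e => b2 ?_⟩⟩
        · rw [mem_fixedBy, ← mul_smul, ← h1 c hc, mul_smul, mem_fixedBy.1 b1]
        · rwa [mem_fixedBy, ← mul_smul, ← h2 c hc, mul_smul, smul_left_cancel_iff] at e
  obtain ⟨k1, β, k2⟩ := k ha hb hne aC bC h1 h2
  obtain ⟨k3, γ, k4⟩ := k hb ha hne.symm bC aC h2 h1
  refine (Nat.card_le_card_of_injective (fun c : C => ((⟨_, k2 c c.2⟩, ⟨_, k4 c c.2⟩) :
    ↥(fixedBy Ω a \ fixedBy Ω b) × ↥(fixedBy Ω b \ fixedBy Ω a))) fun c d e => ?_).trans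
    (by rw [Nat.card_prod]; exact Nat.mul_le_mul k1 k3)
  by_contra hcd
  have e1 : ((d : G)⁻¹ * c) • β = β := by
    rw [mul_smul, inv_smul_eq_iff]; exact congrArg (·.1.1) e
  have e2 : ((d : G)⁻¹ * c) • γ = γ := by
    rw [mul_smul, inv_smul_eq_iff]; exact congrArg (·.2.1) e
  have hw := mul_mem (inv_mem d.2) c.2
  have w1 : (d : G)⁻¹ * c ≠ 1 := fun e => hcd (Subtype.ext (inv_mul_eq_one.1 e).symm)
  generalize (d : G)⁻¹ * c = w at e1 e2 hw w1
  obtain ⟨z, ⟨i, rfl⟩, hz, -⟩ := H10.exists_mem_center_of_ne_bot (hC.to_le (zpowers_le.2 hw))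
    (by simpa using w1)
  have hz' := zpow_mem hw i
  have f1 : β ∈ fixedBy Ω (w ^ i) := mem_fixedBy_zpow e1 i
  have f2 : γ ∈ fixedBy Ω (w ^ i) := mem_fixedBy_zpow e2 i
  have f3 : b • β ∈ fixedBy Ω (w ^ i) := by
    rw [mem_fixedBy, ← mul_smul, h2 _ hz', mul_smul, mem_fixedBy.1 f1]
  have f4 : a • γ ∈ fixedBy Ω (w ^ i) := by
    rw [mem_fixedBy, ← mul_smul, h1 _ hz', mul_smul, mem_fixedBy.1 f2]
  have g1 := k2 1 (one_mem _)
  have g2 := k2 b bC
  have g3 := k4 1 (one_mem _)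
  have g4 := k4 a aC
  rw [one_smul] at g1 g3
  have := (Set.three_lt_ncard_iff (s := fixedBy Ω (w ^ i))).2 ⟨β, b • β, γ, a • γ, f1, f3, f2, f4,
    fun e => g1.2 e.symm, fun e => g1.2 (e ▸ g3.1), fun e => g1.2 (e ▸ g4.1),
    fun e => g2.2 (e ▸ g3.1), fun e => g2.2 (e ▸ g4.1), fun e => g3.2 e.symm⟩
  exact absurd (h.le _ hz) (not_le.2 this)

theorem eq_of_comm (hr : ¬ PRankLE 2 2 G) (ha : orderOf a = 2) (hb : orderOf b = 2)
    (hab : a * b = b * a) : fixedBy Ω a = fixedBy Ω b := by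
  have : Fact (Nat.Prime 2) := ⟨Nat.prime_two⟩
  refine by_contra fun hne => hr fun A hA h2 => by_contra fun hlt => ?_
  have hAp : IsPGroup 2 A := fun g => ⟨1, Subtype.ext (by simpa using h2 g g.2)⟩
  obtain ⟨z, zA, hz, -⟩ := H10.exists_mem_center_of_ne_bot hAp (by rintro rfl; simp at hlt)
  obtain ⟨g, rfl⟩ := isConj_iff.1 (h.cls z a hz ha)
  have sq : ∀ {y : G}, orderOf y = 2 → y * y = 1 := fun hy => by
    rw [← pow_two, ← hy, pow_orderOf_eq_one]
  obtain ⟨T, h3, hT⟩ := H10.exists_isSylowIn_ge (H := 𝐂 (g * z * g⁻¹))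
    (H10.isPGroup_closure_pair (sq ha) (sq hb) hab) ((closure_le _).2 (by
      rintro y (rfl | rfl)
      exacts [mem_centralizer_singleton_iff.2 rfl, mem_centralizer_singleton_iff.2 hab.symm]))
  have aT : g * z * g⁻¹ ∈ T := h3 (subset_closure (by simp))
  have bT : b ∈ T := h3 (subset_closure (by simp))
  obtain ⟨c, -, hc⟩ := hT.exists_conj_le (X := MulAut.conj g • A) (hAp.map _) (by
    rintro _ ⟨y, hy, rfl⟩
    refine mem_centralizer_singleton_iff.2 ?_
    have : y * z = z * y := congrArg Subtype.val (hA.is_comm.comm ⟨y, hy⟩ ⟨z, zA⟩)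
    change g * y * g⁻¹ * _ = _ * (g * y * g⁻¹)
    rw [conj_mul, conj_mul, this])
  obtain ⟨y, hy⟩ := H10.exists_cyc_of_centralizer hT.isPGroup (s := ⟨b, bT⟩) (by
    rw [← card_map_of_injective T.subtype_injective]
    refine h.cent_le ha hb hne (hT.isPGroup.to_subgroup _ |>.map _) ⟨⟨_, aT⟩, ?_, rfl⟩
      ⟨⟨_, bT⟩, mem_centralizer_singleton_iff.2 rfl, rfl⟩ ?_ ?_
    · exact mem_centralizer_singleton_iff.2 (Subtype.ext hab)
    · rintro _ ⟨y, -, rfl⟩
      exact mem_centralizer_singleton_iff.1 (hT.le y.2)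
    · rintro _ ⟨y, hy, rfl⟩
      exact congrArg Subtype.val (mem_centralizer_singleton_iff.1 hy))
  set B := (MulAut.conj c • MulAut.conj g • A).subgroupOf T
  have b1 : Nat.card B = Nat.card A := by
    rw [Nat.card_congr (subgroupOfEquivOfLe hc).toEquiv, H1.card_conj_smul, H1.card_conj_smul]
  have b2 : ∀ u ∈ B, u ^ 2 = 1 := by
    rintro ⟨_, hu⟩ ⟨_, ⟨y, hy, rfl⟩, rfl⟩
    refine Subtype.ext ?_
    change (c * (g * y * g⁻¹) * c⁻¹) ^ 2 = 1
    rw [conj_pow, conj_pow, h2 y hy]; group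
  have b3 : Nat.card (zpowers y ⊓ B : Subgroup T) ≤ 2 := by
    have : IsCyclic (zpowers y ⊓ B : Subgroup T) := isCyclic_of_le inf_le_left
    rw [← IsCyclic.exponent_eq_card]
    exact Nat.le_of_dvd two_pos (Monoid.exponent_dvd_of_forall_pow_eq_one fun u =>
      Subtype.ext (b2 u u.2.2))
  have b4 : (zpowers y).relIndex B ≤ 2 :=
    (relIndex_le_of_le_right le_top (by rw [relIndex_top_right]; exact index_ne_zero_of_finite)).trans
      (by rw [relIndex_top_right]; exact Nat.le_of_dvd two_pos hy)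
  have b5 := card_mul_index ((zpowers y).subgroupOf B)
  rw [← inf_subgroupOf_right, Nat.card_congr (subgroupOfEquivOfLe inf_le_right).toEquiv,
    inf_subgroupOf_right, b1] at b5
  have := Nat.mul_le_mul b3 b4
  rw [relIndex, b5] at this
  omega

theorem se [IsPretransitive G Ω] (hr : ¬ PRankLE 2 2 G) (h3 : 3 < Nat.card Ω) (ω : Ω)
    {T : Subgroup G} (hT : IsPGroup 2 T) (h1 : T ≠ ⊥) (hω : T ≤ stabilizer G ω) :
    ∃ M : Subgroup G, IsStronglyEmbedded M ∧ T ≤ M ∧ ∃ β : Ω, ∀ m ∈ M, m • ω ≠ β := by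
  have : Fact (Nat.Prime 2) := ⟨Nat.prime_two⟩
  obtain ⟨z, zT, hz, hc⟩ := H10.exists_mem_center_of_ne_bot hT h1
  have k0 : ∀ g, g * z = z * g → g ∈ stabilizer G (fixedBy Ω z) := fun g e => by
    rw [mem_stabilizer_iff, smul_fixedBy, e, mul_inv_cancel_right]
  obtain ⟨β, -, hβ⟩ := Set.not_subset.1 (show ¬ Set.univ ⊆ fixedBy Ω z from fun e => by
    have := Set.ncard_le_ncard e
    rw [Set.ncard_univ] at this
    exact absurd (h.le z hz) (by omega))
  have k1 : ∀ m ∈ stabilizer G (fixedBy Ω z), m • ω ≠ β := fun m hm e =>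
    hβ (e ▸ mem_stabilizer_iff.1 hm ▸ Set.smul_mem_smul_set (hω zT))
  have k2 : ∀ w ∈ stabilizer G (fixedBy Ω z), orderOf w = 2 → fixedBy Ω w = fixedBy Ω z :=
    fun w hw w2 => by
      obtain ⟨R, r1, hR⟩ := H10.exists_isSylowIn_ge (H10.isPGroup_two_zpowers hz)
        (zpowers_le.2 (k0 z rfl))
      obtain ⟨m, hm, r2⟩ := hR.exists_conj_mem_two w2 hw
      obtain ⟨y, -, hy, r3⟩ := H10.exists_mem_center_of_ne_bot hR.isPGroup (by
        rintro rfl
        simp [show z = 1 from r1 (mem_zpowers z)] at hz)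
      have := (h.eq_of_comm hr ((H10.orderOf_conj m w).trans w2) hy (r3 _ r2)).trans
        (h.eq_of_comm hr hz hy (r3 _ (r1 (mem_zpowers z)))).symm
      rw [← smul_fixedBy, ← mem_stabilizer_iff.1 hm] at this
      exact smul_left_cancel m this
  refine ⟨stabilizer G (fixedBy Ω z), H10.isStronglyEmbedded_iff.2 ⟨fun e => ?_, ⟨z, k0 z rfl, hz⟩,
    fun t ht t2 g hg => ?_⟩, fun s hs => k0 s (hc s hs), β, k1⟩
  · obtain ⟨g, hg⟩ := exists_smul_eq G ω β
    exact k1 g (e ▸ mem_top g) hg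
  · rw [mem_stabilizer_iff]
    nth_rewrite 1 [← k2 t ht t2]
    rw [smul_fixedBy, k2 _ hg ((H10.orderOf_conj g t).trans t2)]

end F3

theorem se_free {M T : Subgroup G} (hM : IsStronglyEmbedded M) (hT : IsPGroup 2 T) (h : T ≤ M)
    {s g : G} (hs : s ∈ T) (hg : g ∉ M) (e : g⁻¹ * s * g ∈ M) : s = 1 := by
  have : Fact (Nat.Prime 2) := ⟨Nat.prime_two⟩
  by_contra s1
  obtain ⟨z, ⟨i, rfl⟩, hz, -⟩ := H10.exists_mem_center_of_ne_bot (hT.to_le (zpowers_le.2 hs))
    (by simpa using s1)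
  refine hg (H10.SE.mem' hM (h (zpow_mem hs i)) hz ?_)
  have := zpow_mem (show g⁻¹ * s * g⁻¹⁻¹ ∈ M by simpa using e) i
  rwa [conj_zpow, inv_inv] at this

theorem se_dvd {M T : Subgroup G} (hM : IsStronglyEmbedded M) (hT : IsPGroup 2 T) (h : T ≤ M) :
    Nat.card T ∣ M.index - 1 := by
  classical
  have := Fintype.ofFinite T
  have := Fintype.ofFinite (G ⧸ M)
  have k : ∀ u : T, u • ((1 : G) : G ⧸ M) = (1 : G) := fun u =>
    QuotientGroup.eq.2 (by simpa using h u.2)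
  have h3 := sum_mem_of_free (P := T) (AddSubgroup.zmultiples (Nat.card T : ℤ)) (fun _ => 1)
    (univ.erase ((1 : G) : G ⧸ M)) (fun u Q hQ => by
      simp only [mem_erase, mem_univ, and_true] at hQ ⊢
      exact fun e => hQ (smul_left_cancel u (e.trans (k u).symm)))
    (fun u Q hQ e => by
      obtain ⟨g, rfl⟩ := QuotientGroup.mk_surjective Q
      refine Subtype.ext (se_free hM hT h u.2 (g := g) (fun e' => ne_of_mem_erase hQ
        (QuotientGroup.eq.2 (by simpa using e'))) ?_)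
      simpa [mul_assoc] using QuotientGroup.eq.1 (show ((g : G) : G ⧸ M) = ((u * g : G) : _) from e.symm))
    fun _ _ => by simp [Nat.card_eq_fintype_card]
  rw [sum_const, card_erase_of_mem (mem_univ _), card_univ, ← Nat.card_eq_fintype_card,
    nsmul_one, Int.mem_zmultiples_iff] at h3
  exact_mod_cast h3

theorem se_fact {M T H : Subgroup G} (hM : IsStronglyEmbedded M) (hT : IsPGroup 2 T) (h : T ≤ M)
    (hi : M.index = Nat.card T + 1) (h1 : T ≤ H) (h2 : ¬ H ≤ M) (g : G) :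
    ∃ m ∈ M, ∃ y ∈ H, g = m * y := by
  obtain ⟨y, yH, yM⟩ := SetLike.not_le_iff_exists.1 h2
  have := (Nat.bijective_iff_injective_and_card (fun o : Option T =>
    (((o.elim 1 fun s => s * y : G)) : G ⧸ M))).2 ⟨by
      rintro (_ | s) (_ | s') e <;> replace e := QuotientGroup.eq.1 e
      · rfl
      · exact absurd ((M.mul_mem_cancel_left (h s'.2)).1 (by simpa using e)) yM
      · exact absurd ((M.mul_mem_cancel_left (h s.2)).1 (by simpa using inv_mem e)) yM
      · rw [show s = s' from Subtype.ext (inv_mul_eq_one.1 (se_free hM hT h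
          (mul_mem (inv_mem s.2) s'.2) yM (by simpa [mul_assoc] using e)))],
    by rw [Finite.card_option, ← hi]; rfl⟩
  obtain ⟨o, ho⟩ := this.2 (g⁻¹ : G)
  refine ⟨_, inv_mem (QuotientGroup.eq.1 ho), (o.elim 1 fun s => s * y : G)⁻¹, inv_mem ?_, by group⟩
  rcases o with _ | s
  exacts [one_mem _, mul_mem (h1 s.2) yH]

end H21.P3
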