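import Cfsg.Agent.H21.P3a
import Cfsg.Agent.H11.SUBasic

/-!
In `PSL₃(q)` and `PSU₃(q)`, `q` odd, real elements of prime order `p > 3` are not self-centralizing.
-/

set_option autoImplicit false
open Cfsg

namespace H21.P3

open Subgroup Finset Matrix
open scoped MatrixGroups

variable {F : Type*} [Field F] {p : ℕ}

theorem exists_W (hp : (p : F) ≠ 0) (h2 : (2 : F) ≠ 0) {X T : SL(3, F)} (hX : X ^ p = 1)
    (X1 : X ≠ 1) (hT : T * X * T⁻¹ = X⁻¹) : ∃ W : SL(3, F), W * W = 1 ∧ W ≠ 1 ∧ W * X = X * W ∧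
      ∃ ε : F, (ε = 1 ∨ ε = -1) ∧ W.1 = ε • ((2 / p : F) • ∑ i ∈ range p, X.1 ^ i - 1) := by
  set A := ∑ i ∈ range p, X.1 ^ i with hA
  have x1 : X.1 ^ p = 1 := congrArg Subtype.val hX
  have a1 : X.1 * A = A := by
    have := mul_geom_sum X.1 p
    rwa [x1, sub_self, sub_mul, one_mul, sub_eq_zero] at this
  have a2 : A * X.1 = A := by
    have := geom_sum_mul X.1 p
    rwa [x1, sub_self, mul_sub, mul_one, sub_eq_zero] at this
  have a3 : A * A = (p : F) • A := by
    have : ∀ i : ℕ, X.1 ^ i * A = A := fun i => by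
      induction i with
      | zero => simp
      | succ i ih => rw [pow_succ, mul_assoc, a1, ih]
    nth_rewrite 1 [hA]
    rw [sum_mul, sum_congr rfl fun i _ => this i, sum_const, card_range, Nat.cast_smul_eq_nsmul]
  set W := (2 / p : F) • A - 1 with hW
  have w1 : W * W = 1 := by
    simp only [hW, sub_mul, mul_sub, smul_mul_assoc, mul_smul_comm, a3, one_mul, mul_one, smul_smul,
      smul_sub]
    rw [show (2 / p * (2 / p * p) : F) = 2 / p + 2 / p by field_simp; ring, add_smul]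
    abel
  have w2 : W.det * W.det = 1 := by rw [← det_mul, w1, det_one]
  refine ⟨⟨W.det • W, by
    rw [det_smul, Fintype.card_fin]; linear_combination (W.det * W.det + 1) * w2⟩,
    Subtype.ext ?_, fun e => ?_, Subtype.ext ?_, W.det, mul_self_eq_one_iff.1 w2, rfl⟩
  · change W.det • W * W.det • W = 1
    rw [smul_mul_assoc, mul_smul_comm, w1, smul_smul, w2, one_smul]
  · replace e : W.det • W = 1 := congrArg Subtype.val e
    rcases mul_self_eq_one_iff.1 w2 with e' | e' <;> rw [e'] at e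
    · rw [one_smul, hW, sub_eq_iff_eq_add] at e
      refine X1 (Subtype.ext (smul_right_injective _ h2 ?_))
      have := congrArg (X.1 * ·) e
      simp only [mul_smul_comm, a1] at this
      rw [e, mul_add, mul_one] at this
      simpa [two_smul] using this.symm
    · rw [neg_smul, one_smul, hW, neg_sub, sub_eq_self, smul_eq_zero,
        or_iff_right (div_ne_zero h2 hp)] at e
      have b1 : (1 - X.1) * ∑ i ∈ range p, ∑ j ∈ range i, X.1 ^ j = (p : F) • 1 := by
        rw [mul_sum, sum_congr rfl fun i _ => mul_neg_geom_sum X.1 i, sum_sub_distrib, ← hA, e,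
          sub_zero, sum_const, card_range, Nat.cast_smul_eq_nsmul]
      have b2 : (1 - X.1).det = -(1 - X.1).det := by
        have c1 : T.1 * (1 - X.1) * (T⁻¹).1 = -((X⁻¹).1 * (1 - X.1)) := by
          have d1 : T.1 * X.1 * (T⁻¹).1 = (X⁻¹).1 := congrArg Subtype.val hT
          have d2 : T.1 * (T⁻¹).1 = 1 := congrArg Subtype.val (mul_inv_cancel T)
          have d3 : (X⁻¹).1 * X.1 = 1 := congrArg Subtype.val (inv_mul_cancel X)
          rw [mul_sub, sub_mul, mul_one, d1, d2, mul_sub, d3, mul_one, neg_sub]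
        have := congrArg det c1
        rwa [det_neg, det_mul, det_mul, det_mul, T.2, (T⁻¹).2, (X⁻¹).2, one_mul, mul_one,
          Fintype.card_fin, show (-1 : F) ^ 3 = -1 by ring, neg_one_mul] at this
      have := congrArg det b1
      rw [det_mul, det_smul, det_one, mul_one, show (1 - X.1).det = 0 from
        (mul_eq_zero.1 (by linear_combination b2)).resolve_left h2, zero_mul] at this
      exact pow_ne_zero _ hp this.symm
  · change W.det • W * X.1 = X.1 * W.det • W
    simp only [hW, sub_mul, mul_sub, smul_mul_assoc, mul_smul_comm, a1, a2, one_mul, mul_one]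

variable {G : Type*} [Group G] [Finite G] {x t : G}

theorem no_three {K : Type*} [Group K] [Finite K] (ι : K →* SL(3, F)) (hι : Function.Injective ι)
    (f : G ≃* K ⧸ center K) (hZ : Nat.card (center K) ∣ 3)
    (hW : ∀ X : K, X ^ p = 1 → ∀ W : SL(3, F), W * W = 1 → ∀ ε : F, ε = 1 ∨ ε = -1 →
      W.1 = ε • ((2 / p : F) • ∑ i ∈ range p, (ι X).1 ^ i - 1) → W ∈ ι.range)
    (S : SCent p x) (h3 : 3 < p) (ht : t * x * t⁻¹ = x⁻¹) (hp : (p : F) ≠ 0) (h2 : (2 : F) ≠ 0) :
    False := by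
  let π : K →* G := f.symm.toMonoidHom.comp (QuotientGroup.mk' _)
  have hs : Function.Surjective π := f.symm.surjective.comp (QuotientGroup.mk'_surjective _)
  have hk : ∀ k, π k = 1 → k ∈ center K ∧ k ^ 3 = 1 := fun k e => by
    have : k ∈ center K := (QuotientGroup.eq_one_iff k).1 (f.symm.injective (e.trans (map_one _).symm))
    exact ⟨this, orderOf_dvd_iff_pow_eq_one.1 ((orderOf_dvd_natCard _ this).trans hZ)⟩
  obtain ⟨X, rfl⟩ := hs x
  obtain ⟨T, rfl⟩ := hs t
  have x3 : π X ^ 3 ≠ 1 := fun e =>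
    absurd (Nat.le_of_dvd three_pos (S.ord ▸ orderOf_dvd_of_pow_eq_one e)) (by omega)
  have S' := S.of_mem (pow_mem (mem_zpowers _) 3) x3
  have k1 : (X ^ 3) ^ p = 1 := by
    rw [← pow_mul, mul_comm, pow_mul, (hk _ (by rw [map_pow, ← S.ord, pow_orderOf_eq_one])).2]
  have k2 : T * X ^ 3 * T⁻¹ = (X ^ 3)⁻¹ := by
    obtain ⟨a, b⟩ := hk (X * (T * X * T⁻¹)) (by simp only [map_mul, map_inv, ht, mul_inv_cancel])
    rw [← conj_pow, ← inv_mul_cancel_left X (T * X * T⁻¹),
      (show Commute X⁻¹ _ from mem_center_iff.1 a X⁻¹).mul_pow, b, mul_one, inv_pow]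
  obtain ⟨W, w1, w2, w3, ε, w4, w5⟩ := exists_W hp h2 (X := ι (X ^ 3)) (T := ι T)
    (by rw [← map_pow, k1, map_one]) (fun e => x3 (by
      rw [← map_pow, hι (e.trans (map_one ι).symm), map_one])) (by rw [← map_inv, ← map_inv, ← k2]; simp)
  obtain ⟨W, rfl⟩ := hW _ k1 W w1 ε w4 w5
  replace w1 : W * W = 1 := hι (by simpa using w1)
  replace w3 : W * X ^ 3 = X ^ 3 * W := hι (by simpa using w3)
  have k3 := S'.card ▸ orderOf_dvd_natCard _ (S'.mem_of_comm (g := π W) (by
    rw [← map_pow, ← map_mul, w3, map_mul]))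
  have k4 := orderOf_dvd_of_pow_eq_one (show π W ^ 2 = 1 by rw [pow_two, ← map_mul, w1, map_one])
  have k5 := (hk W (orderOf_eq_one_iff.1 (Nat.eq_one_of_dvd_coprimes
    ((Nat.coprime_primes Nat.prime_two S.prime).2 (by omega)) k4 k3))).2
  rw [pow_succ, pow_two, w1, one_mul] at k5
  exact w2 (by rw [k5, map_one])

variable [Fintype F]

theorem cast_ne {n : ℕ} (hn : n.Prime) (h : ¬ n ∣ Fintype.card F) : (n : F) ≠ 0 := fun e => by
  obtain ⟨r, _, k, hr, hk⟩ := FiniteField.card' F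
  obtain rfl := (Nat.prime_dvd_prime_iff_eq hr hn).1 ((CharP.cast_eq_zero_iff F r n).1 e)
  exact h (hk ▸ dvd_pow_self _ k.ne_zero)

theorem no_psl3 (ho : Odd (Fintype.card F)) (f : G ≃* ProjectiveSpecialLinearGroup (Fin 3) F)
    (S : SCent p x) (h3 : 3 < p) (ht : t * x * t⁻¹ = x⁻¹) : False := by
  refine no_three (.id SL(3, F)) Function.injective_id f
    (by rw [H11.card_center_sl]; exact Nat.gcd_dvd_left _ _) (fun _ _ W _ _ _ _ => ⟨W, rfl⟩) S h3 ht
    (cast_ne S.prime fun e => S.not_sq_dvd ?_) (cast_ne Nat.prime_two ho.not_two_dvd_nat)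
  have h1 := H11.card_units_mul_card_sl (ι := Fin 3) (F := F)
  rw [card_GL_field, Fin.prod_univ_three, ← H11.card_psl, ← Nat.card_congr f.toEquiv,
    Fintype.card_fin, ← mul_assoc] at h1
  have h2 := Fintype.one_lt_card (α := F)
  refine Nat.Coprime.dvd_of_dvd_mul_left (Nat.Coprime.pow_left 2 (Nat.Coprime.mul_right
    (Nat.Coprime.coprime_dvd_left e ((Nat.coprime_self_sub_right h2.le).2 (by simp)))
    ((Nat.coprime_primes S.prime Nat.prime_three).2 (by omega) |>.coprime_dvd_right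
      (Nat.gcd_dvd_left 3 (Fintype.card F - 1))))) ?_
  rw [h1, mul_assoc, pow_two]
  exact (mul_dvd_mul (Nat.dvd_sub (e.pow (by simp)) (e.pow (by simp)))
    (Nat.dvd_sub (e.pow (by simp)) (e.pow (by simp)))).mul_left _

theorem no_psu3 {q : ℕ} (hF : Fintype.card F = q ^ 2) (ho : Odd q) (f : G ≃* PSU 3 F q)
    (S : SCent p x) (h3 : 3 < p) (ht : t * x * t⁻¹ = x⁻¹) : False := by
  refine no_three (SU 3 F q).subtype (subtype_injective _) f
    (by rw [H11.card_center_SU hF (by omega)]; exact Nat.gcd_dvd_left _ _)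
    (fun X hX W w1 ε w2 w3 => ⟨⟨W, fun u v => ?_⟩, rfl⟩) S h3 ht
    (cast_ne S.prime fun e => S.not_sq_dvd ?_)
    (cast_ne Nat.prime_two (hF ▸ ho.pow).not_two_dvd_nat)
  · let B := H11.hermB (Fin 3) hF
    have k0 : ∀ i u v, B (X.1.1 ^ i *ᵥ u) (X.1.1 ^ i *ᵥ v) = B u v := fun i u v => (X ^ i).2 v u
    have k1 : ∀ u v, B ((∑ i ∈ range p, X.1.1 ^ i) *ᵥ u) v =
        B u ((∑ i ∈ range p, X.1.1 ^ i) *ᵥ v) := fun u v => by
      have x1 : X.1.1 ^ p = 1 := congrArg (·.1.1) hX
      have := (sum_congr rfl fun i hi => show B (X.1.1 ^ i *ᵥ u) v =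
          B u (X.1.1 ^ (p + 1 - 1 - i) *ᵥ v) by
        rw [← k0 (p + 1 - 1 - i), mulVec_mulVec, ← pow_add,
          show p + 1 - 1 - i + i = p by have := mem_range.1 hi; omega, x1, one_mulVec]).trans
        (sum_range_reflect (fun i => B u (X.1.1 ^ i *ᵥ v)) (p + 1))
      rw [sum_range_succ, sum_range_succ, x1, one_mulVec, one_mulVec, add_left_inj] at this
      rw [sum_mulVec, sum_mulVec, map_sum, map_sum, LinearMap.sum_apply, this]
    have k2 : ∀ u v, B (W.1 *ᵥ u) v = B u (W.1 *ᵥ v) := fun u v => by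
      have e1 : H11.frob hF ε = ε := by rcases w2 with rfl | rfl <;> [exact map_one _; simp only [map_neg, map_one]]
      have e2 : H11.frob hF (2 / p) = 2 / p := by rw [map_div₀, map_natCast, map_ofNat]
      change W.1 = ε • ((2 / p : F) • ∑ i ∈ range p, X.1.1 ^ i - 1) at w3
      simp only [w3, smul_mulVec, sub_mulVec, one_mulVec, map_smulₛₗ, map_sub, LinearMap.smul_apply,
        LinearMap.sub_apply, e1, e2, k1, RingHom.id_apply]
    change B (W.1 *ᵥ v) (W.1 *ᵥ u) = B v u
    rw [k2, mulVec_mulVec, show W.1 * W.1 = 1 from congrArg Subtype.val w1, one_mulVec]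
  · have h1 := H11.card_psu hF (n := 3) (by omega)
    rw [← Nat.card_congr f.toEquiv, ← mul_assoc] at h1
    replace e := S.prime.dvd_of_dvd_pow (hF ▸ e)
    exact Nat.Coprime.dvd_of_dvd_mul_left (Nat.Coprime.pow_left 2 (Nat.Coprime.mul_right
      ((Nat.coprime_primes S.prime Nat.prime_three).2 (by omega) |>.coprime_dvd_right
        (Nat.gcd_dvd_left _ _)) (Nat.Coprime.coprime_dvd_left e (by simp)))) (h1 ▸ Dvd.dvd.mul_right
          ((pow_dvd_pow_of_dvd e 2).trans (pow_dvd_pow q (by omega))) _)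

end H21.P3
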