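/-
S3860: the chunks R2 and F4 of `H9.RL0`.
-/
import Cfsg.Agent.H9.RL0

set_option autoImplicit false
set_option linter.unusedVariables false
set_option linter.unusedSectionVars false

namespace H21.RL
open Cfsg Subgroup H19 H17.GS H9.RL

universe u
variable {G : Type u} [Group G] [Finite G] {a b : ℕ} {A H P Q S T U : Subgroup G} {c g r s t v w x y z : G}

theorem cA (hA : A ≤ center G) (hz : z ∈ A) (g : G) : g * z * g⁻¹ ∈ A := by
  rwa [mem_center_iff.1 (hA hz) g, mul_inv_cancel_right]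

/-- the elements `g` with `g w g⁻¹ w⁻¹ ∈ A`, for `A` central -/
def Nz (A : Subgroup G) (hA : A ≤ center G) (w : G) : Subgroup G where
  carrier := {g | g * w * g⁻¹ * w⁻¹ ∈ A}
  one_mem' := by simp
  mul_mem' := fun {x y} hx hy => by
    have := mul_mem (cA hA hy x) hx
    simpa [mul_assoc] using this
  inv_mem' := fun {x} hx => by
    have := cA hA (inv_mem hx) x⁻¹
    simpa [mul_assoc] using this

theorem mem_Nz {hA : A ≤ center G} : g ∈ Nz A hA w ↔ g * w * g⁻¹ * w⁻¹ ∈ A := Iff.rfl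

theorem cnt (h : ∀ u ∈ U, u * w * u⁻¹ * w⁻¹ ∈ center G) :
    ∃ A : Subgroup G, (∀ x, x ∈ A ↔ ∃ u ∈ U, u * w * u⁻¹ * w⁻¹ = x) ∧ #U = #(U ⊓ C[w]) * #A := by
  let f : U →* G := MonoidHom.mk' (fun u => u * w * (u : G)⁻¹ * w⁻¹) fun u u' => by
    have e := mem_center_iff.1 (h u' u'.2)
    calc _ = u * (u' * w * (u' : G)⁻¹ * w⁻¹) * (w * (u : G)⁻¹ * w⁻¹) := by simp [mul_assoc]
      _ = _ := by rw [mul_assoc (u : G), ← e]; simp [mul_assoc]
  refine ⟨f.range, fun x => ⟨fun ⟨u, e⟩ => ⟨u, u.2, e⟩, fun ⟨u, hu, e⟩ => ⟨⟨u, hu⟩, e⟩⟩, ?_⟩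
  have k : f.ker = C[w].subgroupOf U := by
    ext u
    rw [MonoidHom.mem_ker, mem_subgroupOf, mem_cent1]
    show u * w * (u : G)⁻¹ * w⁻¹ = 1 ↔ _
    rw [mul_inv_eq_one, mul_inv_eq_iff_eq_mul]
  rw [← index_ker, inf_comm, ← card_subgroupOf, ← k, card_mul_index]

theorem exists_sq_mem (hP : H19.PG 2 P) (h : H < P) : ∃ s ∈ P, s ∈ N(H) ∧ s ∉ H ∧ s * s ∈ H := by
  obtain ⟨s, h1, h2⟩ := SetLike.exists_of_lt (hP.lt_norm h)
  obtain ⟨k, e⟩ := hP.isPGroup ⟨s, h1.1⟩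
  replace e : s ^ 2 ^ k ∈ H := by
    rw [show s ^ 2 ^ k = 1 from congrArg Subtype.val e]; exact one_mem _
  induction k generalizing s with
  | zero => exact absurd (by simpa using e) h2
  | succ k ih =>
    by_cases h3 : s * s ∈ H
    · exact ⟨s, h1.1, h1.2, h2, h3⟩
    · exact ih (s * s) (mul_mem h1 h1) h3 (by rwa [← pow_two, ← pow_mul, ← pow_succ'])

theorem odd_z (h : St G a b) (hz : z ∈ center G) (ho : PiE {2}ᶜ z) : z = 1 := by
  have : zpowers z ≤ O((⊤ : Subgroup G)) := le_Oc ⟨le_top, norms_of_cents (by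
    rw [cent_zpowers]; exact fun g _ => mem_cent1.2 (mem_center_iff.1 hz g))⟩ (piG_zpowers.2 ho)
  rw [h.oo] at this
  exact this (mem_zpowers z)

theorem pz (h : St G a b) (hz : z ∈ center G) : PiE {2} z := by
  obtain ⟨h1, h2, h3⟩ := constt_spec {2} z
  have := odd_z h (mul_mem (inv_mem (zpowers_le.2 hz h1)) hz) h3
  rwa [inv_mul_eq_one.1 this] at h2

theorem ple (h : St G a b) (hr : Re x) (hx : x ∉ center G) (hU : H19.PG 2 U) (hle : U ≤ C[x]) : #U ≤ 2 ^ b := by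
  obtain ⟨P, hP, h1⟩ := hU.exists_syl hle
  exact h.hy x hr hx P hP ▸ card_le h1

theorem pe_of_sq (h : PiE {2} (r * r)) : PiE {2} r := by
  refine PiN.dvd (n := 2 * orderOf (r * r)) (PiN.mul (by simpa using PiN.prime_pow Nat.prime_two 1) h) ?_
  rw [orderOf_dvd_iff_pow_eq_one, pow_mul, pow_two, pow_orderOf_eq_one]

theorem mem_syl (hS : Syl 2 Q C[r]) (h : PiE {2} r) : r ∈ Q :=
  hS.mem_of_norm (mem_cent1_self r) h (cent_le_norm _ (le_cent1_iff.1 hS.le))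

theorem r2 : R2.{u} := fun {G} _ _ {a b S r} h hr hS hP => by
  by_contra! hn
  obtain ⟨s, s1, s2⟩ := hn
  set T := S ⊓ Nz (center G) le_rfl r with hT
  have lt : T < S := lt_of_le_of_ne inf_le_left fun e => s2 (e.ge s1).2
  obtain ⟨g, g1, g2, g3, g4⟩ := exists_sq_mem hS.pi lt
  have rS : r ∈ S := (mem_syl hP (pe_of_sq (pz h hr.sq))).1
  have rT : r ∈ T := ⟨rS, by simp [mem_Nz]⟩
  obtain ⟨A, hA, cT⟩ := cnt (U := T) (w := r) fun u hu => hu.2
  have AZ : A ≤ center G := fun x hx => by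
    obtain ⟨u, hu, rfl⟩ := (hA x).1 hx
    exact hu.2
  have mA : ∀ u ∈ T, u * r * u⁻¹ * r⁻¹ ∈ A := fun u hu => (hA _).2 ⟨u, hu, rfl⟩
  have e1 : T ⊓ C[r] = S ⊓ C[r] := le_antisymm (inf_le_inf_right _ inf_le_left) fun u hu =>
    ⟨⟨hu.1, by simp [mem_Nz, mem_cent1.1 hu.2]⟩, hu.2⟩
  rw [e1, h.hy r hr.re hr.nc _ hP] at cT
  obtain ⟨w, hw⟩ : ∃ w, w = r⁻¹ * (g * r * g⁻¹) := ⟨_, rfl⟩
  have wT : w ∈ T := hw ▸ mul_mem (inv_mem rT) (conj_mem_of_norm g2 rT)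
  have hi : r * w * r⁻¹ = w⁻¹ := by
    have e := mem_center_iff.1 hr.sq g
    rw [hw]
    calc _ = g * r⁻¹ * g⁻¹ * (g * (r * r)) * g⁻¹ * r⁻¹ := by group
      _ = _ := by rw [e]; group
  have wZ : w ∉ center G := fun k => g3 ⟨g1, by
    have := cA le_rfl k r
    rw [hw] at this
    simpa [mem_Nz, mul_assoc] using this⟩
  have UN : T ⊔ zpowers g ≤ Nz A AZ w := by
    refine sup_le (fun y hy => ?_) (zpowers_le.2 ?_)
    · have := cA AZ (mul_mem (inv_mem (mA y hy)) (cA AZ (mA _ (conj_mem_of_norm' g2 hy)) g)) r⁻¹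
      rw [mem_Nz, hw]
      convert this using 1
      group
    · have e : w * r * w⁻¹ * r⁻¹ = w * w := by
        rw [show w * r * w⁻¹ * r⁻¹ = w * (r * w * r⁻¹)⁻¹ by group, hi, inv_inv]
      have := mul_mem (cA AZ (mA _ g4) (g * r * g⁻¹)⁻¹) (inv_mem (e ▸ mA w wT))
      rw [mem_Nz, hw]
      rw [hw] at this
      convert this using 1
      group
  have US : T ⊔ zpowers g ≤ S := sup_le inf_le_left (zpowers_le.2 g1)
  obtain ⟨A', hA', cU⟩ := cnt (U := T ⊔ zpowers g) (w := w) fun u hu => AZ (UN hu)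
  have l1 : #A' ≤ #A := card_le fun x hx => by
    obtain ⟨u, hu, rfl⟩ := (hA' x).1 hx
    exact UN hu
  have l2 := ple h ⟨r, hi⟩ wZ ((hS.pi.of_le US).infl C[w]) inf_le_right
  have l3 := pg_lt_card (hS.pi.of_le US) (lt_of_le_of_ne le_sup_left fun e =>
    g3 (e.ge (mem_sup_right (mem_zpowers g))) : T < T ⊔ zpowers g)
  have l4 := Nat.mul_le_mul l2 l1
  have := card_pos T
  omega

theorem inv_pow_odd {n : ℕ} (h : t * x * t⁻¹ = x⁻¹) (hn : Odd n) : t ^ n * x * (t ^ n)⁻¹ = x⁻¹ := by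
  obtain ⟨k, rfl⟩ := hn
  have c : Commute (t * t) x := by
    show t * t * x = x * (t * t)
    calc _ = t * (t * x * t⁻¹) * t⁻¹ * (t * t) := by group
      _ = (t * x * t⁻¹)⁻¹ * (t * t) := by rw [h, ← mul_assoc, ← mul_assoc]; nth_rewrite 2 [← inv_inv x, ← h]; group
      _ = _ := by rw [h, inv_inv]
  rw [pow_succ', pow_mul, pow_two, mul_assoc t, (c.pow_left k).eq, ← h]
  group

theorem ex_odd_pow (t : G) : ∃ n, Odd n ∧ PiE {2} (t ^ n) := by
  obtain ⟨k, m, hm, e⟩ := Nat.exists_eq_two_pow_mul_odd (orderOf_pos t).ne'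
  refine ⟨m, hm, (PiN.prime_pow Nat.prime_two k).dvd ?_⟩
  rw [orderOf_dvd_iff_pow_eq_one, ← pow_mul, mul_comm, ← e, pow_orderOf_eq_one]

theorem pe_odd (h : Odd (orderOf x)) : PiE {2}ᶜ x := PiN.of_not_dvd h.not_two_dvd_nat

theorem sqrt_pow {n : ℕ} (h : x ^ (2 * n + 1) = 1) : (x * x) ^ (n + 1) = x := by
  rw [← pow_two, ← pow_mul, show 2 * (n + 1) = 2 * n + 1 + 1 by ring, pow_succ, h, one_mul]

/-- an abstract four-group `⟨g, t⟩` acting on a group `O` of odd order -/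
theorem four_act {O : Subgroup G} (hO : PiG {2}ᶜ O) (hg : g ∈ N(O)) (ht : t ∈ N(O))
    (g2 : ∀ c ∈ O, g * (g * c * g⁻¹) * g⁻¹ = c) (gt : ∀ c ∈ O, g * (t * c * t⁻¹) * g⁻¹ = t * (g * c * g⁻¹) * t⁻¹)
    (k1 : ∀ c ∈ O, g * c * g⁻¹ = c → t * c * t⁻¹ = c)
    (k2 : ∀ c ∈ O, g * t * c * (g * t)⁻¹ = c → t * c * t⁻¹ = c) (hx : x ∈ O) (hi : t * x * t⁻¹ = x⁻¹) : x = 1 := by
  obtain ⟨n, hn⟩ : Odd #O := by
    rw [← Nat.not_even_iff_odd, even_iff_two_dvd]; exact hO.not_dvd Nat.prime_two rfl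
  have pw : ∀ c ∈ O, c ^ (2 * n + 1) = 1 := fun c hc => by
    rw [← hn]; exact orderOf_dvd_iff_pow_eq_one.1 (orderOf_dvd_card' hc)
  have un : ∀ c ∈ O, ∀ d ∈ O, c * c = d * d → c = d := fun c hc d hd e => by
    rw [← sqrt_pow (pw c hc), e, sqrt_pow (pw d hd)]
  obtain ⟨j, hj⟩ : ∃ j, j = x⁻¹ * (g * x * g⁻¹) := ⟨_, rfl⟩
  have jO : j ∈ O := hj ▸ mul_mem (inv_mem hx) (conj_mem_of_norm hg hx)
  have gj : g * j * g⁻¹ = j⁻¹ := by
    calc _ = (g * x * g⁻¹)⁻¹ * (g * (g * x * g⁻¹) * g⁻¹) := by rw [hj]; group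
      _ = _ := by rw [g2 x hx, hj]; group
  obtain ⟨k, hk⟩ : ∃ k, k = j ^ (n + 1) := ⟨_, rfl⟩
  have kO : k ∈ O := hk ▸ pow_mem jO _
  have kk : k * k = j := by rw [hk, ← Commute.mul_pow (Commute.refl j), sqrt_pow (pw j jO)]
  have gk : g * k * g⁻¹ = k⁻¹ := by rw [hk, ← conj_pow, gj, inv_pow]
  have gx : g * x * g⁻¹ = x * (k * k) := by rw [kk, hj]; group
  have gc : g * (x * k) * g⁻¹ = x * k := by
    calc _ = g * x * g⁻¹ * (g * k * g⁻¹) := by group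
      _ = _ := by rw [gx, gk]; group
  have tc := k1 _ (mul_mem hx kO) gc
  obtain ⟨l, hl⟩ : ∃ l, l = t * k * t⁻¹ := ⟨_, rfl⟩
  have lO : l ∈ O := hl ▸ conj_mem_of_norm ht kO
  have gl : g * l * g⁻¹ = l⁻¹ := by rw [hl, gt k kO, gk]; group
  have e1 : x * k = x⁻¹ * l := by rw [← tc, ← hi, hl]; group
  have e2 : x⁻¹ * l = (x * (k * k))⁻¹ * l⁻¹ := by
    rw [← e1, ← gc, e1, ← gx, ← gl]; group
  have e3 : l = x * k⁻¹ * x⁻¹ := un _ lO _ (O.mul_mem (mul_mem hx (inv_mem kO)) (inv_mem hx)) (by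
    calc _ = x * (x⁻¹ * l) * l := by group
      _ = _ := by rw [e2]; group)
  have e4 : x * k = 1 := un _ (mul_mem hx kO) _ (one_mem _) (by
    calc _ = x * k * (x⁻¹ * l) := by rw [← e1]
      _ = _ := by rw [e3]; group)
  have e5 : g * x * g⁻¹ = x⁻¹ := by
    rw [gx, ← mul_assoc, e4, one_mul, eq_inv_of_mul_eq_one_right e4]
  have e6 := k2 x hx (by
    calc _ = g * (t * x * t⁻¹) * g⁻¹ := by group
      _ = (g * x * g⁻¹)⁻¹ := by rw [hi]; group
      _ = _ := by rw [e5, inv_inv])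
  exact un _ hx _ (one_mem _) (by
    calc _ = x * (t * x * t⁻¹) := by rw [e6]
      _ = _ := by rw [hi]; group)

theorem f4a (r2 : R2.{u}) (h : St G a b) (ha : 2 ≤ a) (o : Ox x t) (pt : PiE {2} t) (hv : PiE {2} v) (vx : v ∈ C[x])
    (tv : t * v * t⁻¹ = v⁻¹) (r : Rr v) : False := by
  have c := mem_cent1.1 vx
  have ox := pe_odd o.odd
  have ty : t * (v * x) * t⁻¹ = (v * x)⁻¹ := by
    calc _ = t * v * t⁻¹ * (t * x * t⁻¹) := by group
      _ = _ := by rw [tv, o.inv, c, mul_inv_rev]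
  have yv : C[v * x] ≤ C[v] := by
    have := cent1_le_cent1_constt {2} (v * x)
    rwa [constt_eq hv ox c] at this
  have yx : C[v * x] ≤ C[x] := fun g hg => mem_cent1.2 (by
    calc g * x = g * v⁻¹ * (v * x) := by group
      _ = v⁻¹ * (g * (v * x)) := by
        rw [show g * v⁻¹ = v⁻¹ * g from (Commute.inv_right (mem_cent1.1 (yv hg))).eq, mul_assoc]
      _ = _ := by rw [mem_cent1.1 hg]; group)
  have yZ : v * x ∉ center G := fun k => r.nc (mem_center_iff.2 fun g =>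
    mem_cent1.1 (yv (mem_cent1.2 (mem_center_iff.1 k g))))
  have ci : ∀ y : G, C[y⁻¹] = C[y] := fun y => by rw [← cent_zpowers, zpowers_inv, cent_zpowers]
  have tn : zpowers t ≤ N(C[v * x]) := zpowers_le.2 (mem_norm_iff_cj.2 (by rw [cj_cent1, ty, ci]))
  obtain ⟨P, hP, tP⟩ := (piG_zpowers.2 pt).exists_syl (le_sup_right : zpowers t ≤ C[v * x] ⊔ zpowers t)
  have q1 := h.hy _ ⟨t, ty⟩ yZ _ (hP.inf_normal (left_normal_sup tn))
  obtain ⟨S, hS, PS⟩ := hP.pi.exists_syl (le_top : P ≤ ⊤)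
  have tS : t ∈ S := PS (tP (mem_zpowers t))
  set Q := S ⊓ C[v] with hQ
  have q2 : P ⊓ C[v * x] = Q := eq_of_le_of_card_ge (inf_le_inf PS yv)
    (q1 ▸ ple h r.re r.nc (hS.pi.infl _) inf_le_right)
  have Qx : Q ≤ C[x] := q2 ▸ inf_le_right.trans yx
  rw [q2] at q1
  obtain ⟨P', hP'⟩ := exists_syl 2 C[v]
  have sQ : Syl 2 Q C[v] := hP'.of_card_le inf_le_right (hS.pi.infl _) (by rw [q1, h.hy v r.re r.nc _ hP'])
  have sz := r2 h r hS sQ
  have vQ := mem_syl sQ hv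
  have SN : S ≤ N(Q) := norms_inf le_normalizer fun s hs => mem_norm_of_cj_le (by
    rw [cj_cent1]
    intro g hg
    have e : Commute g (s * v * s⁻¹ * v⁻¹) := mem_center_iff.1 (sz s hs) g
    have := e.inv_right.mul_right (mem_cent1.1 hg)
    rw [show (s * v * s⁻¹ * v⁻¹)⁻¹ * (s * v * s⁻¹) = v by group] at this
    exact mem_cent1.2 this)
  have sq : ∀ s ∈ S, s * s ∈ Q := fun s hs => ⟨mul_mem hs hs, mem_cent1.2 (by
    obtain ⟨z, hz⟩ : ∃ z, z = s * v * s⁻¹ * v⁻¹ := ⟨_, rfl⟩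
    have zc := mem_center_iff.1 (hz ▸ sz s hs)
    have e : s * v = z * v * s := by rw [hz]; group
    have z2 : z * z = 1 := mul_right_cancel (b := v * v * s) (by
      calc _ = z * (z * v) * v * s := by group
        _ = z * (v * z) * v * s := by rw [zc v]
        _ = z * v * (z * v * s) := by group
        _ = z * v * s * v := by rw [← e, ← mul_assoc, ← e]
        _ = s * (v * v) := by rw [← e]; group
        _ = _ := by rw [mem_center_iff.1 r.sq s, one_mul])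
    calc _ = s * z * v * s := by rw [mul_assoc, e]; group
      _ = z * (s * v) * s := by rw [zc s]; group
      _ = z * z * v * (s * s) := by rw [e]; group
      _ = _ := by rw [z2, one_mul])⟩
  have cm : ∀ s ∈ S, ∀ s' ∈ S, s⁻¹ * s' * s * s'⁻¹ ∈ Q := fun s hs s' hs' => by
    have := mul_mem (mul_mem (inv_mem (sq s hs)) (sq _ (mul_mem hs hs'))) (inv_mem (sq s' hs'))
    convert this using 1
    group
  obtain ⟨g, gS, g1, g2⟩ : ∃ g ∈ S, g * t ∉ Q ∧ g ∉ Q := by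
    by_contra! k
    have d := Nat.le_of_dvd two_pos (relIndex_dvd_two_iff.2 ⟨t, tS, fun g hg => (em _).imp id (k g hg)⟩)
    have e := card_mul_relIndex (H := Q) (K := S) inf_le_left
    rw [q1, h.sy S hS, pow_add, mul_comm] at e
    have := Nat.pow_le_pow_right two_pos ha
    have := Nat.eq_of_mul_eq_mul_right (by positivity) e
    omega
  have CQ : C(Q) ≤ C[v] := cent_le_cent1 vQ
  have hO := H18.Burnside_normal_complement (sQ.inf_of_norm' CQ (cent_le_norm Q))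
    (inf_le_left.trans (cent_mono inf_le_left))
  have xO := hO.mem_Oc (le_cent1_iff.1 Qx) ox
  set O := Oc {2}ᶜ C(Q)
  have SO : S ≤ N(O) := norms_Oc _ (norms_cent SN)
  have qc : ∀ q ∈ Q, ∀ c ∈ O, q * c * q⁻¹ = c := fun q hq c hc => by
    rw [mem_cent.1 (Oc_le _ _ hc) q hq, mul_inv_cancel_right]
  have cc : ∀ g ∈ S, ∀ c ∈ O, g * (t * c * t⁻¹) * g⁻¹ = t * (g * c * g⁻¹) * t⁻¹ := fun g hg c hc => by
    rw [← qc _ (cm t tS g hg) _ (conj_mem_of_norm (SO hg) hc)]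
    group
  have key : ∀ g ∈ S, g ∉ Q → ∀ c ∈ O, g * c * g⁻¹ = c → t * c * t⁻¹ = c := fun g hg gQ c hc e => by
    have dO : c⁻¹ * (t * c * t⁻¹) ∈ O := mul_mem (inv_mem hc) (conj_mem_of_norm (SO tS) hc)
    have dZ : c⁻¹ * (t * c * t⁻¹) ∈ center G := by
      by_contra k
      have l := ple h ⟨t, by
        calc _ = (t * c * t⁻¹)⁻¹ * (t * t * c * (t * t)⁻¹) := by group
          _ = _ := by rw [qc _ (sq t tS) c hc]; group⟩ k (hS.pi.infl _) inf_le_right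
      have : Q < S ⊓ C[c⁻¹ * (t * c * t⁻¹)] := lt_of_le_of_ne
        (le_inf inf_le_left (le_cent1_iff.2 (Oc_le _ _ dO))) fun e' => gQ (e'.ge ⟨hg, mem_cent1.2 (by
          rw [← mul_inv_eq_iff_eq_mul]
          calc _ = (g * c * g⁻¹)⁻¹ * (g * (t * c * t⁻¹) * g⁻¹) := by group
            _ = _ := by rw [cc g hg c hc, e])⟩)
      have := card_lt this
      omega
    exact (inv_mul_eq_one.1 (odd_z h dZ ((Oc_pi _ _).elt dO))).symm
  exact o.ne (four_act (Oc_pi _ _) (SO gS) (SO tS) (fun c hc => Eq.trans (by group) (qc _ (sq g gS) c hc))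
    (cc g gS) (key g gS g2) (key _ (mul_mem gS tS) g1) xO o.inv)

theorem f4 (r2 : R2.{u}) (r1 : R1.{u}) : F4.{u} := fun {G} _ _ {a b x t v} h ha o hv vx tv => by
  by_contra k
  obtain ⟨n, hn, pt⟩ := ex_odd_pow t
  exact f4a r2 h ha ⟨o.ne, o.odd, inv_pow_odd o.inv hn⟩ pt hv vx (inv_pow_odd tv hn)
    ⟨⟨t, tv⟩, k, r1 h ha ⟨t, tv⟩ hv⟩

end H21.RL
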