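import Cfsg.Agent.H21.Sh2
import Cfsg.Agent.H4.SuzA
import Cfsg.Agent.H9.EAMod
import Cfsg.Agent.H22.FldAut
import Cfsg.Agent.S3360
import Cfsg.Agent.S3774
import Cfsg.Agent.S0119
import Cfsg.Agent.S0094
import Cfsg.Agent.S0003
import Cfsg.Agent.S0007
import Cfsg.Agent.S0043

/-! Shaw's theorem on Suzuki 2-groups, III: reduction from a solvable group of automorphisms. -/

set_option autoImplicit false
set_option linter.unusedSectionVars false

namespace H21.Sh
open Subgroup Module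
open H4 hiding Coord comm_pairing sq_map T_nondeg alt_eq_zero idem_zero not_fix
open scoped commutatorElement

variable {P : Type*} [Group P] [Finite P] {Y R : Subgroup (MulAut P)} {U N : Subgroup P}

instance finAut : Finite (MulAut P) := Finite.of_injective _ DFunLike.coe_injective

/-- invariance under a group of automorphisms -/
def YI (Y : Subgroup (MulAut P)) (U : Subgroup P) : Prop := ∀ y ∈ Y, Inv y U

/-- restriction to an invariant subgroup -/
def res (h : YI Y U) : Y →* MulAut U where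
  toFun y :=
    { toFun := fun x => ⟨y.1 x, h _ y.2 _ x.2⟩
      invFun := fun x => ⟨y.1⁻¹ x, h _ (Y.inv_mem y.2) _ x.2⟩
      left_inv := fun x => Subtype.ext (by simp)
      right_inv := fun x => Subtype.ext (by simp)
      map_mul' := fun a b => Subtype.ext (by simp) }
  map_one' := rfl
  map_mul' _ _ := rfl

theorem res_apply (h : YI Y U) (y : Y) (x : U) : (res h y x : P) = y.1 x := rfl

/-- the hypothesis -/
structure Hy (Y : Subgroup (MulAut P)) : Prop where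
  pg : IsPGroup 2 P
  two : ∃ x y : P, x ≠ y ∧ x ≠ 1 ∧ x * x = 1 ∧ y ≠ 1 ∧ y * y = 1
  trans : ∀ x y : P, x ≠ 1 → x * x = 1 → y ≠ 1 → y * y = 1 → ∃ a ∈ Y, a x = y

/-- fixed points in an invariant coset -/
theorem coset_fix {r : ℕ} [Fact r.Prime] (hr : r ≠ 2) (hP : IsPGroup 2 P) (hR : IsPGroup r R)
    (hN : YI R N) {x : P} (hx : ∀ a ∈ R, x⁻¹ * a x ∈ N) : ∃ n ∈ N, ∀ a ∈ R, a (x * n) = x * n := by
  let M : SubMulAction R P := ⟨{y | x⁻¹ * y ∈ N}, fun a y hy => by
    show x⁻¹ * a.1 y ∈ N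
    have := N.mul_mem (hx _ a.2) (hN _ a.2 _ hy)
    simpa [mul_assoc] using this⟩
  have hc : Nat.card M = Nat.card N := Nat.card_congr
    ⟨fun y => ⟨x⁻¹ * y, y.2⟩, fun n => ⟨x * n, show x⁻¹ * (x * n) ∈ N by simp⟩,
      fun y => by simp, fun n => by simp⟩
  obtain ⟨y, hy⟩ := hR.nonempty_fixed_point_of_prime_not_dvd_card M (by
    obtain ⟨k, hk⟩ := (hP.to_subgroup N).exists_card_eq
    rw [hc, hk]
    exact fun e => hr ((Nat.prime_dvd_prime_iff_eq Fact.out Nat.prime_two).1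
      ((Fact.out : r.Prime).dvd_of_dvd_pow e)))
  refine ⟨x⁻¹ * y, y.2, fun a ha => ?_⟩
  rw [mul_inv_cancel_left]
  exact congrArg Subtype.val (hy ⟨a, ha⟩)

namespace Hy
variable (h : Hy Y)
include h

theorem nontriv : Nontrivial P := let ⟨_, _, e, _⟩ := h.two; ⟨⟨_, _, e⟩⟩

theorem central {x : P} (hx : x * x = 1) : x ∈ center P :=
  have := h.nontriv
  (Cfsg.Agent.S3774.result h.pg fun x y a b c d =>
    let ⟨a, _, e⟩ := h.trans x y a (by rwa [← sq]) c (by rwa [← sq]); ⟨a, e⟩).1 x (by rwa [sq])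

theorem Om_le : Om P ≤ center P := (closure_le _).2 fun _ hx => h.central hx

theorem mem_Om {x : P} : x ∈ Om P ↔ x * x = 1 := by
  refine ⟨fun hx => ?_, fun hx => subset_closure hx⟩
  induction hx using closure_induction with
  | mem x hx => exact hx
  | one => simp
  | mul x y hx' _ hx hy =>
    rw [mul_assoc, ← mul_assoc y, mem_center_iff.1 (h.Om_le hx') y, mul_assoc, hy, mul_one, hx]
  | inv x _ hx => rw [← mul_inv_rev, hx, inv_one]

theorem Om_le_of (hU : YI Y U) (h1 : U ≠ ⊥) : Om P ≤ U := fun y hy => by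
  obtain ⟨⟨x, hx⟩, hx1⟩ := ne_bot_iff_exists_ne_one.1 h1
  obtain ⟨i, h2, h3⟩ := exists_inv_pow h.pg (x := x) (by simpa using hx1)
  by_cases hy1 : y = 1
  · exact hy1 ▸ U.one_mem
  obtain ⟨a, ha, rfl⟩ := h.trans _ y h2 h3 hy1 (h.mem_Om.1 hy)
  exact hU a ha _ (U.pow_mem hx i)

theorem exists_card : ∃ n, 2 ≤ n ∧ Nat.card (Om P) = 2 ^ n := by
  obtain ⟨n, hn⟩ := (h.pg.to_subgroup (Om P)).exists_card_eq
  refine ⟨n, ?_, hn⟩
  obtain ⟨x, y, hxy, hx1, hx, hy1, hy⟩ := h.two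
  have : 3 ≤ Nat.card (Om P) := by
    rw [← SetLike.coe_sort_coe, Nat.card_coe_set_eq, ← Set.ncard_eq_three.2
      ⟨1, x, y, hx1.symm, hy1.symm, hxy, rfl⟩]
    refine Set.ncard_le_ncard ?_
    rintro z (rfl | rfl | rfl)
    exacts [one_mem _, h.mem_Om.2 hx, h.mem_Om.2 hy]
  by_contra hlt
  rw [hn] at this
  have : n ≤ 1 := by omega
  interval_cases n <;> omega

theorem card_pow (hU : YI Y U) (hle : Om P ≤ U) : ∃ m, Nat.card U = Nat.card (Om P) ^ m := by
  obtain ⟨x, -, -, h1, h2, -⟩ := h.two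
  have : Nontrivial U := ⟨⟨⟨x, hle (h.mem_Om.2 h2)⟩, 1, fun e => h1 (congrArg Subtype.val e)⟩⟩
  obtain ⟨m, hm⟩ := (Cfsg.Agent.S3774.result (h.pg.to_subgroup U) fun x y a b c d => by
    obtain ⟨g, hg, e⟩ := h.trans x y (by simpa using a) (by rw [← sq]; exact congrArg Subtype.val b)
      (by simpa using c) (by rw [← sq]; exact congrArg Subtype.val d)
    exact ⟨res hU ⟨g, hg⟩, Subtype.ext e⟩).2
  refine ⟨m, hm.trans (congrArg (· ^ m) (Nat.card_congr ⟨fun z => ⟨z.1, h.mem_Om.2 (by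
    rw [← sq]; exact congrArg Subtype.val z.2)⟩, fun z => ⟨⟨z, hle z.2⟩, Subtype.ext (by
      simpa [sq] using h.mem_Om.1 z.2)⟩, fun _ => rfl, fun _ => rfl⟩))⟩

theorem card_le (hle : Om P ≤ U) (hs : ∀ x ∈ U, x * x ∈ Om P) :
    Nat.card U ≤ Nat.card (Om P) ^ 3 := by
  have h1 := index_le_sq (P := U) (Z := (Om P).subgroupOf U)
    (fun z hz => mem_center_iff.2 fun g => Subtype.ext (mem_center_iff.1 (h.Om_le hz) g))
    (fun x => hs x x.2) fun x => by rw [mem_subgroupOf, h.mem_Om, Subtype.ext_iff]; rfl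
  have h2 : Nat.card ((Om P).subgroupOf U) = Nat.card (Om P) :=
    Nat.card_congr (subgroupOfEquivOfLe hle).toEquiv
  rw [← ((Om P).subgroupOf U).card_mul_index, h2, pow_succ']
  rw [h2] at h1
  exact Nat.mul_le_mul_left _ h1

theorem same_sq (hU : YI Y U) (hle : Om P ≤ U) (hc : Nat.card U = Nat.card (Om P) ^ 2) {x : P}
    (hx : x ∈ U) (hx1 : x ∉ Om P) (hx2 : x * x ∈ Om P) {a b : P} (ha : a ∈ U) (hb : b ∈ U)
    (e : a * a = b * b) : a⁻¹ * b ∈ Om P := by
  have : ∀ w : Om P, ∃ t ∈ U, t * t = w := fun w => by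
    by_cases hw : (w : P) = 1
    · exact ⟨1, U.one_mem, by simp [hw]⟩
    obtain ⟨g, hg, e⟩ := h.trans (x * x) w (fun e => hx1 (h.mem_Om.2 e)) (h.mem_Om.1 hx2) hw
      (h.mem_Om.1 w.2)
    exact ⟨g x, hU g hg x hx, by rw [← map_mul, e]⟩
  choose t ht ht' using this
  have hsq : ∀ w z : Om P, t w * z * (t w * z) = w := fun w z => by
    rw [mul_assoc, ← mul_assoc (z : P), ← mem_center_iff.1 (h.Om_le z.2) (t w), mul_assoc,
      h.mem_Om.1 z.2, mul_one, ht']
  let f : Om P × Om P → U := fun p => ⟨t p.1 * p.2, U.mul_mem (ht _) (hle p.2.2)⟩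
  have hi : Function.Injective f := fun p q e => by
    have e1 : t p.1 * p.2 = t q.1 * q.2 := congrArg Subtype.val e
    have e2 : p.1 = q.1 := Subtype.ext (by rw [← hsq p.1 p.2, e1, hsq])
    rw [e2] at e1
    exact Prod.ext e2 (Subtype.ext (mul_left_cancel e1))
  have hs := (hi.bijective_of_nat_card_le (by rw [Nat.card_prod, hc, sq])).2
  obtain ⟨p, hp⟩ := hs ⟨a, ha⟩
  obtain ⟨q, hq⟩ := hs ⟨b, hb⟩
  have e1 : t p.1 * p.2 = a := congrArg Subtype.val hp
  have e2 : t q.1 * q.2 = b := congrArg Subtype.val hq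
  have e3 : p.1 = q.1 := Subtype.ext (by rw [← hsq p.1 p.2, e1, e, ← e2, hsq])
  rw [← e1, ← e2, e3]
  simpa [mul_assoc] using mul_mem (inv_mem p.2.2) q.2.2

/-- the case of an unfaithful action on the involutions -/
theorem sq_of_kernel {r : ℕ} [Fact r.Prime] (hr : r ≠ 2) (hR : IsPGroup r R) (hRY : R ≤ Y)
    (hn : ∀ y ∈ Y, ∀ a ∈ R, y * a * y⁻¹ ∈ R) (h1 : R ≠ ⊥) (hc : ∀ a ∈ R, ∀ z ∈ Om P, a z = z)
    (x : P) : x * x ∈ Om P := by
  have cf := fun {N : Subgroup P} (hN : YI R N) {x : P} => coset_fix (x := x) hr h.pg hR hN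
  have hOm : YI R (Om P) := fun _ _ => inv_Om
  have fixOm : ∀ x, (∀ a ∈ R, x⁻¹ * a x ∈ Om P) → ∀ a ∈ R, a x = x := fun x hx a ha => by
    obtain ⟨z, hz, e⟩ := cf hOm hx
    simpa [hc a ha z hz] using e a ha
  let Q := closure {y : P | ∃ g : P, ∃ a ∈ R, y = g⁻¹ * a g}
  have gen : ∀ g, ∀ a ∈ R, g⁻¹ * a g ∈ Q := fun g a ha => subset_closure ⟨g, a, ha, rfl⟩
  have hQ : YI Y Q := fun y hy => inv_closure (by
    rintro _ ⟨g, a, ha, rfl⟩
    exact ⟨y g, _, hn y hy a ha, by simp⟩)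
  have hQR : YI R Q := fun a ha => hQ a (hRY ha)
  have hQn : Q.Normal := ⟨fun y hy g => by
    induction hy using closure_induction with
    | mem y hy =>
      obtain ⟨x, a, ha, rfl⟩ := hy
      have := mul_mem (gen (x * g⁻¹) a ha) (inv_mem (gen g⁻¹ a ha))
      convert this using 1
      simp [mul_assoc]
    | one => simp
    | mul a b _ _ ha hb => simpa [mul_assoc] using mul_mem ha hb
    | inv a _ ha => simpa [mul_assoc] using inv_mem ha⟩
  have dec : ∀ g, ∃ q ∈ Q, ∀ a ∈ R, a (g * q) = g * q := fun g => cf hQR (gen g)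
  obtain ⟨hsp, hfix⟩ := Cfsg.Agent.S0119.result (h.pg.to_subgroup Q) (res hQR).range (by
      obtain ⟨k, hk⟩ := (hR.of_surjective _ (res hQR).rangeRestrict_surjective).exists_card_eq
      rw [hk]
      exact Nat.Coprime.pow_left _ ((Nat.coprime_primes Fact.out Nat.prime_two).2 hr)) (by
      rw [eq_top_iff]
      rintro ⟨y, hy⟩ -
      induction hy using closure_induction with
      | mem y hy =>
        obtain ⟨g, a, ha, rfl⟩ := hy
        obtain ⟨q, hq, e⟩ := dec g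
        refine subset_closure ⟨⟨q⁻¹, Q.inv_mem hq⟩, _, ⟨⟨a, ha⟩, rfl⟩, Subtype.ext ?_⟩
        have := e a ha
        rw [map_mul] at this
        show g⁻¹ * a g = q⁻¹⁻¹ * a q⁻¹
        rw [map_inv, eq_mul_inv_of_mul_eq this]; group
      | one => exact one_mem _
      | mul a b ha hb ia ib => exact mul_mem ia ib
      | inv a ha ia => exact inv_mem ia) (by
      rintro H hH hab _ ⟨a, rfl⟩ y hy
      have key : ∀ k : ℕ, ∀ y ∈ H, y ^ 2 ^ k = 1 → ∀ a : R, res hQR a y = y := fun k => by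
        induction k with
        | zero => intro y _ e a; simp at e; simp [e]
        | succ k ih =>
          intro y hy e a
          have i1 := ih (y * y) (H.mul_mem hy hy) (by rw [← sq, ← pow_mul, ← pow_succ', e])
          refine Subtype.ext (fixOm y (fun b hb => h.mem_Om.2 ?_) a a.2)
          have m1 : res hQR ⟨b, hb⟩ y ∈ H :=
            characteristic_iff_le_comap.1 hH (res hQR ⟨b, hb⟩) hy
          have c1 : y⁻¹ * res hQR ⟨b, hb⟩ y = res hQR ⟨b, hb⟩ y * y⁻¹ :=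
            isMulCommutative_iff.1 hab _ (H.inv_mem hy) _ m1
          have e1 : y⁻¹ * res hQR ⟨b, hb⟩ y * (y⁻¹ * res hQR ⟨b, hb⟩ y) = 1 := by
            calc _ = y⁻¹ * (res hQR ⟨b, hb⟩ y * y⁻¹) * res hQR ⟨b, hb⟩ y := by group
              _ = (y * y)⁻¹ * (res hQR ⟨b, hb⟩ y * res hQR ⟨b, hb⟩ y) := by rw [← c1]; group
              _ = 1 := by rw [← map_mul, i1, inv_mul_cancel]
          exact congrArg Subtype.val e1
      obtain ⟨k, hk⟩ := h.pg.to_subgroup Q y
      exact key k y hy hk a)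
  have zQ : ∀ z : Q, z ∈ center Q → (z : P) ∈ Om P := fun z hz => h.mem_Om.2 (by
    rw [← sq]; exact congrArg Subtype.val (Cfsg.Agent.S0094.result hsp z hz))
  have sqQ : ∀ q ∈ Q, q * q ∈ Om P := fun q hq => by
    have := pow_mem_frattini (h.pg.to_subgroup Q) ⟨q, hq⟩
    rw [hsp.2.1, sq] at this
    exact zQ _ this
  have fixQ : ∀ q ∈ Q, (∀ a ∈ R, a q = q) → q ∈ Om P := fun q hq e =>
    zQ ⟨q, hq⟩ ((hfix _).2 (by rintro _ ⟨a, rfl⟩; exact Subtype.ext (e a a.2)))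
  have nle : ¬ Q ≤ Om P := fun e => h1 (eq_bot_iff.2 fun a ha =>
    MulEquiv.ext fun g => fixOm g (fun b hb => e (gen g b hb)) a ha)
  have hOQ : Om P ≤ Q := h.Om_le_of hQ fun e => nle (e ▸ bot_le)
  obtain ⟨n, hn2, hq⟩ := h.exists_card
  have h4 : 1 < Nat.card (Om P) := by rw [hq]; exact Nat.one_lt_two_pow (by omega)
  -- the centre of `P / Ω` inside `Q`
  have hW : YI Y (Q ⊓ cmod (Om P)) := fun y hy => (hQ y hy).inf inv_Om.cmod
  have hOW : Om P ≤ Q ⊓ cmod (Om P) := le_inf hOQ le_cmod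
  obtain ⟨u, hu, hu1⟩ := SetLike.not_le_iff_exists.1 (exists_mem_cmod h.pg nle)
  have big : Nat.card (Om P) ^ 3 ≤ Nat.card (Q ⊓ cmod (Om P) : Subgroup P) := by
    obtain ⟨m, hm⟩ := h.card_pow hW hOW
    have l1 := card_lt_of_lt (lt_of_le_not_ge hOW fun e => hu1 (e hu))
    rw [hm] at l1 ⊢
    refine Nat.pow_le_pow_right (by omega) ?_
    have l2 : 1 < m := (Nat.pow_lt_pow_iff_right h4).1 (by rwa [pow_one])
    by_contra l3
    obtain rfl : m = 2 := by omega
    refine hu1 (fixQ u hu.1 (fixOm u fun a ha => h.same_sq hW hOW hm hu hu1 hu.2.1 hu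
      (hW a (hRY ha) u hu) ?_))
    rw [← map_mul, hc a ha _ hu.2.1]
  by_cases ht : Q = ⊤
  · exact sqQ x (ht ▸ mem_top x)
  exfalso
  have hQW : Q ≤ cmod (Om P) :=
    (eq_of_le_of_card_ge inf_le_left ((h.card_le hOQ sqQ).trans big)).ge.trans inf_le_right
  refine exists_mem_cmod h.pg (M := Q) (N := ⊤) (fun e => ht (top_le_iff.1 e)) (inf_le_right.trans
    (eq_of_le_of_card_ge le_cmod ((h.card_le (hOQ.trans le_cmod) fun e he => ?_).trans
      (big.trans (card_le_of_le inf_le_left)))).ge)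
  obtain ⟨q, hq, e1⟩ := dec e
  have he' : e * q ∈ cmod Q := mul_mem he (le_cmod hq)
  have s1 : e * q * (e * q) ∈ Om P := fixQ _ he'.1 fun a ha => by rw [map_mul, e1 a ha]
  have := mul_mem (mul_mem s1 (inv_mem (sqQ q hq))) ((hQW hq).2 e⁻¹)
  convert this using 1
  simp only [commutatorElement_def]; group

/-- the case of a faithful action on the involutions -/
theorem exists_sz [Group.IsSolvable Y] (hf : ∀ a ∈ Y, (∀ z ∈ Om P, a z = z) → a = 1) :
    ∃ (k : MulAut P) (n d : ℕ), Sz k n d := by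
  have hV : Cfsg.IsElementaryAbelian 2 (Om P) := ⟨isMulCommutative_iff.2 fun _ ha b _ =>
    (mem_center_iff.1 (h.Om_le ha) b).symm, fun x hx => by rw [sq, h.mem_Om.1 hx]⟩
  let ρ0 : Y →* Module.End (ZMod 2) (H9.EA hV) :=
    { toFun := fun g => AddMonoidHom.toZModLinearMap 2 (AddMonoidHom.mk'
        (fun x : H9.EA hV => H9.EA.mk hV (g.1 x.val) (inv_Om _ x.val_mem))
        (fun x y => H9.EA.ext (by simp)))
      map_one' := by ext x; simp
      map_mul' := fun a b => by ext x; simp }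
  let ρ := (LinearMap.GeneralLinearGroup.generalLinearEquiv (ZMod 2) (H9.EA hV)).toMonoidHom.comp
    ρ0.toHomUnits
  have hρ : ∀ g x, (ρ g x).val = g.1 x.val := fun _ _ => rfl
  obtain ⟨n, hn2, hn⟩ := h.exists_card
  have h4 : 2 ^ 2 ≤ 2 ^ n := Nat.pow_le_pow_right two_pos hn2
  have : Nontrivial (H9.EA hV) := Finite.one_lt_card_iff_nontrivial.1 (by
    rw [H9.EA.card, hn]; omega)
  have hinj : Function.Injective ρ := (injective_iff_map_eq_one _).2 fun g e =>
    Subtype.ext (hf g g.2 fun v hv => by simpa [e] using (hρ g (H9.EA.mk hV v hv)).symm)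
  have htr : ∀ v w : H9.EA hV, v ≠ 0 → w ≠ 0 → ∃ g, ρ g v = w := fun v w hv hw => by
    obtain ⟨g, hg, e⟩ := h.trans _ _ (mt H9.EA.val_eq_one.1 hv) (h.mem_Om.1 v.val_mem)
      (mt H9.EA.val_eq_one.1 hw) (h.mem_Om.1 w.val_mem)
    exact ⟨⟨g, hg⟩, H9.EA.ext e⟩
  rcases Cfsg.Agent.S3360.result 2 inferInstance ρ hinj htr with ⟨F, _, _, e, he⟩ | he
  swap
  · rw [H9.EA.card, hn] at he
    have : Even (2 ^ n) := Nat.even_pow.2 ⟨even_two, by omega⟩
    simp only [Set.mem_insert_iff, Set.mem_singleton_iff] at he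
    rcases he with e | e | e | e | e | e <;> rw [e] at this <;> exact absurd this (by decide)
  choose a σ he using he
  have ha : ∀ g, a g ≠ 0 := fun g e0 => by
    have := he g (e.symm 1)
    rw [e0, zero_mul, map_eq_zero_iff _ e.injective, map_eq_zero_iff _ (ρ g).injective,
      map_eq_zero_iff _ e.symm.injective] at this
    exact one_ne_zero this
  have k : ∀ g h x, a (g * h) * σ (g * h) x = a g * σ g (a h) * σ g (σ h x) := fun g g' x => by
    obtain ⟨v, rfl⟩ := e.surjective x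
    rw [← he, map_mul, LinearEquiv.mul_apply, he, he, map_mul, mul_assoc]
  have k1 : ∀ g h, a (g * h) = a g * σ g (a h) := fun g g' => by simpa using k g g' 1
  have hF : Fintype.card F = 2 ^ n := by
    rw [← hn, ← Nat.card_eq_fintype_card, ← H9.EA.card hV]; exact (Nat.card_congr e.toEquiv).symm
  let s : Y →* RingAut F := MonoidHom.mk' σ fun g g' => RingEquiv.ext fun x => by
    have k2 := k g g' x
    rw [← k1] at k2
    exact mul_left_cancel₀ (ha _) k2
  have fr : ∀ g ∈ s.ker, a g = 1 → g = 1 := fun g (hg : σ g = 1) e1 =>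
    hinj (LinearEquiv.ext fun v => e.injective (by rw [he, hg, e1, map_one]; simp))
  let f : s.ker →* Fˣ := MonoidHom.mk' (fun g => Units.mk0 (a g) (ha _)) fun g g' =>
    Units.ext (by simp [k1, show σ g = 1 from g.2])
  have hfi : Function.Injective f := (injective_iff_map_eq_one _).2 fun g e1 =>
    Subtype.ext (fr g g.2 (congrArg Units.val e1))
  classical
  have hcy : IsCyclic s.ker := isCyclic_of_injective _ hfi
  obtain ⟨g, hg⟩ := IsCyclic.exists_ofOrder_eq_natCard (α := s.ker)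
  obtain ⟨d, hd⟩ := card_dvd_of_injective f hfi
  rw [Nat.card_units, Nat.card_eq_fintype_card, hF] at hd
  obtain ⟨x, -, -, hx1, hx2, -⟩ := h.two
  have horb : (MulAction.stabilizer Y x).index = 2 ^ n - 1 := by
    rw [MulAction.index_stabilizer, ← hn, ← SetLike.coe_sort_coe (Om P), Nat.card_coe_set_eq,
      ← Set.ncard_sdiff_singleton_of_mem (Om P).one_mem]
    congr 1
    ext y
    constructor
    · rintro ⟨b, rfl⟩
      exact ⟨inv_Om _ (h.mem_Om.2 hx2), fun e => hx1 (b.1.map_eq_one_iff.1 e)⟩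
    · rintro ⟨h1, h2⟩
      obtain ⟨b, hb, e⟩ := h.trans x y hx1 hx2 h2 (h.mem_Om.1 h1)
      exact ⟨⟨b, hb⟩, e⟩
  have c1 := (MulAction.stabilizer Y x).card_mul_index
  have c2 := s.ker.card_mul_index
  have c3 : s.ker.index ∣ n := by
    rw [index_ker, ← H22.card_ringAut hF]; exact card_subgroup_dvd_card _
  have hok : orderOf (g.1.1 : MulAut P) = Nat.card s.ker := by
    rw [orderOf_coe, orderOf_coe, hg]
  refine ⟨g.1.1, n, d, h.pg, h.central, hn, ⟨hn2, Dvd.dvd.trans ⟨Nat.card (MulAction.stabilizer Y x),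
    Nat.eq_of_mul_eq_mul_left (Nat.card_pos (α := s.ker)) ?_⟩ c3, by rw [hok, mul_comm]; omega⟩,
    fun j y hy1 hy2 e1 => ?_⟩
  · rw [c2, ← c1, horb, hd]; ring
  · have hj : σ (g.1 ^ j) = 1 := (g ^ j).2
    have k3 := he (g.1 ^ j) (H9.EA.mk hV y (h.mem_Om.2 hy2))
    rw [show ρ (g.1 ^ j) (H9.EA.mk hV y (h.mem_Om.2 hy2)) = H9.EA.mk hV y (h.mem_Om.2 hy2) from
      H9.EA.ext e1, hj] at k3
    have k2 : a (g.1 ^ j) = 1 := (mul_eq_right₀ (fun e2 => hy1 (H9.EA.val_eq_one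
      (x := H9.EA.mk hV y (h.mem_Om.2 hy2)) |>.2 ((map_eq_zero_iff _ e.injective).1 e2)))).1 k3.symm
    exact congrArg Subtype.val (fr _ (g ^ j).2 k2)

theorem exists_odd [Group.IsSolvable Y] : ∃ Y₁ ≤ Y, Hy Y₁ ∧ Odd (Nat.card Y₁) := by
  obtain ⟨s, m, hm, e⟩ := Nat.exists_eq_two_pow_mul_odd (Nat.card_pos (α := Y)).ne'
  obtain ⟨H, hH⟩ := Cfsg.Agent.S0003.result (G := Y) m (2 ^ s) (e.trans (mul_comm _ _))
    (hm.coprime_two_right.pow_right s)
  have hi : H.index = 2 ^ s := Nat.eq_of_mul_eq_mul_left (Nat.card_pos (α := H)) (by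
    rw [H.card_mul_index, e, hH, mul_comm])
  refine ⟨H.map Y.subtype, map_subtype_le _, ⟨h.pg, h.two, fun x y hx1 hx2 hy1 hy2 => ?_⟩, by
    rwa [card_map_of_injective Y.subtype_injective, hH]⟩
  obtain ⟨n, hn2, hn⟩ := h.exists_card
  have horb : (MulAction.stabilizer Y x).index = 2 ^ n - 1 := by
    rw [MulAction.index_stabilizer, ← hn, ← SetLike.coe_sort_coe (Om P), Nat.card_coe_set_eq,
      ← Set.ncard_sdiff_singleton_of_mem (Om P).one_mem]
    congr 1
    ext y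
    constructor
    · rintro ⟨b, rfl⟩
      exact ⟨inv_Om _ (h.mem_Om.2 hx2), fun e => hx1 (b.1.map_eq_one_iff.1 e)⟩
    · rintro ⟨h1, h2⟩
      obtain ⟨b, hb, e⟩ := h.trans x y hx1 hx2 h2 (h.mem_Om.1 h1)
      exact ⟨⟨b, hb⟩, e⟩
  obtain ⟨b, hb, e1⟩ := h.trans x y hx1 hx2 hy1 hy2
  obtain ⟨u, hu, v, hv, e2⟩ := (Cfsg.Agent.S0007.result H (MulAction.stabilizer Y x) (by
    rw [hi, horb]
    exact Nat.Coprime.pow_left _ (Odd.coprime_two_left (Nat.Even.sub_odd Nat.one_le_two_pow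
      (Nat.even_pow.2 ⟨even_two, by omega⟩) odd_one)))).2 ⟨b, hb⟩
  refine ⟨u, mem_map_of_mem _ hu, ?_⟩
  have e3 : b = u.1 * v.1 := congrArg Subtype.val e2
  have e4 : v.1 x = x := hv
  rw [← e1, e3, MulAut.mul_apply, e4]

theorem sq_mem [Group.IsSolvable Y] (hna : ¬ Cm (⊤ : Subgroup P)) (x : P) : x * x ∈ Om P := by
  obtain ⟨Y₁, hle, h₁, ho⟩ := h.exists_odd
  have : Group.IsSolvable Y₁ := Group.isSolvable_of_isSolvable_injective (inclusion_injective hle)
  let C : Subgroup Y₁ := (res (U := Om P) (Y := Y₁) fun _ _ => inv_Om).ker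
  have hC : ∀ a, a ∈ C ↔ ∀ z ∈ Om P, a.1 z = z := fun a =>
    ⟨fun e z hz => congrArg Subtype.val (DFunLike.congr_fun (MonoidHom.mem_ker.1 e)
      (⟨z, hz⟩ : Om P)),
      fun e => MulEquiv.ext fun z => Subtype.ext (e z z.2)⟩
  by_cases h1 : C = ⊥
  · obtain ⟨k, n, d, hk⟩ := h₁.exists_sz fun a ha e =>
      congrArg Subtype.val (show (⟨a, ha⟩ : Y₁) = 1 from mem_bot.1 (h1.le ((hC ⟨a, ha⟩).2 e)))
    exact hk.sq_mem_Om hna x
  obtain ⟨M, ⟨m1, m2, m3⟩, hm⟩ := Set.Finite.exists_minimal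
    (s := {M : Subgroup Y₁ | M.Normal ∧ M ≤ C ∧ M ≠ ⊥}) (Set.toFinite _)
    ⟨C, inferInstance, le_rfl, h1⟩
  obtain ⟨-, r, hr, hp⟩ := Cfsg.Agent.S0043.result M m3 fun K a b => (eq_or_ne K ⊥).imp id
    fun c => le_antisymm b (hm ⟨a, b.trans m2, c⟩ b)
  have := Fact.mk hr
  have hM : IsPGroup r M := fun g => ⟨1, Subtype.ext (by simpa using hp g g.2)⟩
  refine h₁.sq_of_kernel (r := r) (R := M.map Y₁.subtype) ?_ (hM.map _) (map_subtype_le _) ?_ ?_ ?_ x
  · rintro rfl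
    obtain ⟨k, hk⟩ := hM.exists_card_eq
    have := ho.of_dvd_nat (card_subgroup_dvd_card M)
    rcases k with _ | k
    · exact m3 (card_eq_one.1 hk)
    · rw [hk, pow_succ] at this
      exact absurd (Nat.odd_mul.1 this).2 (by decide)
  · rintro y hy _ ⟨a, ha, rfl⟩
    exact ⟨_, m1.conj_mem a ha ⟨y, hy⟩, rfl⟩
  · exact fun e => m3 ((map_eq_bot_iff_of_injective _ Y₁.subtype_injective).1 e)
  · rintro _ ⟨a, ha, rfl⟩
    exact (hC a).1 (m2 ha)

theorem center_eq [Group.IsSolvable Y] (hna : ¬ Cm (⊤ : Subgroup P)) : center P = Om P := by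
  refine le_antisymm (fun z hz => by_contra fun hz1 => hna fun u _ v _ => mem_center_iff.1 ?_ u)
    h.Om_le
  by_cases hv : v ∈ Om P
  · exact h.Om_le hv
  obtain ⟨a, -, e⟩ := h.trans (z * z) (v * v) (fun e => hz1 (h.mem_Om.2 e))
    (h.mem_Om.1 (h.sq_mem hna z)) (fun e => hv (h.mem_Om.2 e)) (h.mem_Om.1 (h.sq_mem hna v))
  have hc : a z ∈ center P := inv_center z hz
  have : v * (a z)⁻¹ ∈ center P := h.central (by
    rw [mul_assoc, ← mul_assoc _ v, ← mem_center_iff.1 (inv_mem hc) v, mul_assoc, ← mul_assoc,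
      ← e, map_mul]
    group)
  simpa using mul_mem this hc

theorem main [Group.IsSolvable Y] (hna : ¬ IsMulCommutative P) :
    commutator P = frattini P ∧ frattini P = center P ∧ ∀ x : P, x ∈ center P ↔ x ^ 2 = 1 := by
  have hna' : ¬ Cm (⊤ : Subgroup P) := fun e =>
    hna (isMulCommutative_iff'.2 fun a b => e a trivial b trivial)
  have h1 : Om P ≤ commutator P := h.Om_le_of (fun _ _ => inv_top.comm inv_top) fun e =>
    hna (isMulCommutative_iff'.2 fun a b => commutatorElement_eq_one_iff_mul_comm.1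
      (mem_bot.1 (e ▸ commutator_mem_commutator (mem_top a) (mem_top b))))
  have h2 : frattini P ≤ Om P := frattini_le (p := 2) (commutator_le.2 fun x _ y _ =>
    comm_mem_of_sq (V := ⊤) (fun x _ => h.sq_mem hna' x) trivial trivial)
    fun x => by rw [sq]; exact h.sq_mem hna' x
  have h3 := commutator_le_frattini h.pg
  rw [h.center_eq hna']
  exact ⟨le_antisymm h3 (h2.trans h1), le_antisymm h2 (h1.trans h3),
    fun x => by rw [h.mem_Om, sq]⟩

end Hy

end H21.Sh
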