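import Cfsg.Agent.H23.SzFin
import Cfsg.Agent.H1.Core

/-! The automorphism group of the Sylow `2`-subgroup of a Suzuki group. -/

open Cfsg

namespace H21.SA
open Subgroup Finset H23 H23.Sz

variable {F : Type*} [Field F] [Fintype F] [Tits F] [Algebra (ZMod 2) F]

local notation "Γ" => F ≃ₐ[ZMod 2] F

theorem li {c : Γ → F} (h : ∀ x, ∑ σ, c σ * σ x = 0) (σ : Γ) : c σ = 0 := by
  have h1 := (linearIndependent_monoidHom F F).comp (fun σ : Γ => (σ : F →* F))
    fun σ ρ h => AlgEquiv.ext fun x => DFunLike.congr_fun h x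
  exact Fintype.linearIndependent_iff.1 h1 c (funext fun x => by simpa using h x) σ

theorem card_Γ {n : ℕ} (hF : Fintype.card F = 2 ^ n) : Nat.card Γ = n := by
  rw [IsGalois.card_aut_eq_finrank]
  have := Module.card_eq_pow_finrank (K := ZMod 2) (V := F)
  rw [hF, ZMod.card] at this
  exact (Nat.pow_right_injective le_rfl this).symm

theorem card_hom {n : ℕ} (hF : Fintype.card F = 2 ^ n) : Nat.card (F →+ F) = 2 ^ n ^ 2 := by
  have h1 := Module.card_eq_pow_finrank (K := ZMod 2) (V := F)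
  rw [hF, ZMod.card] at h1
  rw [Nat.card_congr (AddMonoidHom.toZModLinearMapEquiv 2).toEquiv, Module.natCard_eq_pow_finrank
    (K := ZMod 2), Module.finrank_linearMap, ← Nat.pow_right_injective le_rfl h1, Nat.card_zmod, sq]

theorem span {n : ℕ} (hF : Fintype.card F = 2 ^ n) (g : F →+ F) :
    ∃ a : Γ → F, ∀ x, g x = ∑ σ, a σ * σ x := by
  let f : (Γ → F) → (F →+ F) := fun a =>
    { toFun x := ∑ σ, a σ * σ x
      map_zero' := by simp
      map_add' x y := by simp [mul_add, sum_add_distrib] }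
  have h1 : Function.Injective f := fun a b h => funext fun σ => sub_eq_zero.1 (li (c := a - b)
    (fun x => by
      have : ∑ σ, a σ * σ x = ∑ σ, b σ * σ x := DFunLike.congr_fun h x
      simp [sub_mul, sum_sub_distrib, this]) σ)
  haveI : Finite (F →+ F) := DFunLike.finite _
  obtain ⟨a, rfl⟩ := (h1.bijective_of_nat_card_le (by
    rw [card_hom hF, Nat.card_fun, card_Γ hF, Nat.card_eq_fintype_card, hF, ← pow_mul, sq])).2 g
  exact ⟨a, fun _ => rfl⟩

omit [Tits F] in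
theorem comm (σ ρ : Γ) : σ * ρ = ρ * σ := IsCyclic.isMulCommutative.is_comm.comm σ ρ

/-- The Tits automorphism. -/
noncomputable def τ : Γ := AlgEquiv.ofBijective
  { (θ : F →+* F) with
    commutes' := fun r => DFunLike.congr_fun
      (Subsingleton.elim ((θ : F →+* F).comp (algebraMap (ZMod 2) F)) (algebraMap (ZMod 2) F)) r }
  ⟨θ_inj, θ_surj⟩

theorem τ_apply (x : F) : τ x = θ x := rfl

theorem θ_comm (σ : Γ) (x : F) : σ (θ x) = θ (σ x) := DFunLike.congr_fun (comm σ τ) x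

theorem quad {M : Γ → Γ → F} (h : ∀ x, ∑ α, ∑ β, M α β * α x * β x = 0) :
    (∀ α β, M α β = M β α) ∧ ∀ α, M α α = 0 := by
  classical
  have h1 : ∀ α β, M α β = M β α := fun α β => by
    refine CharTwo.add_eq_zero.1 (li (c := fun α => M α β + M β α) (fun x => li
      (c := fun β => ∑ α, (M α β + M β α) * α x) (fun y => ?_) β) α)
    have h2 := h (x + y)
    simp only [map_add, mul_add, add_mul, sum_add_distrib, h, zero_add, add_zero] at h2
    simp only [add_mul, sum_add_distrib, sum_mul]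
    rw [← h2, add_comm, sum_comm]
    congr 1
    · rw [sum_comm]
      exact sum_congr rfl fun _ _ => sum_congr rfl fun _ _ => by ring
    · rw [sum_comm]
  refine ⟨h1, li fun z => ?_⟩
  obtain ⟨x, rfl⟩ := exists_sq z
  have h2 := h x
  rw [← sum_product', ← diag_union_offDiag, sum_union (disjoint_diag_offDiag _), sum_diag,
    sum_involution (s := offDiag _) (fun (u : Γ × Γ) _ => Prod.swap u), add_zero] at h2
  · rw [← h2]
    exact sum_congr rfl fun _ _ => by rw [map_pow]; ring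
  · intro u _
    rw [Prod.fst_swap, Prod.snd_swap, h1 u.2, mul_right_comm, CharTwo.add_self_eq_zero]
  · exact fun u hu _ h => (mem_offDiag.1 hu).2.2 (congrArg Prod.snd h)
  · exact fun u hu => by simpa [eq_comm] using hu
  · exact fun u _ => rfl

theorem τ_four {m : ℕ} (hm : 1 ≤ m) (hF : Fintype.card F = 2 ^ (2 * m + 1)) : (τ : Γ) ^ 4 ≠ 1 := by
  intro h
  have h1 : (τ : Γ) ^ (2 * m + 1) = 1 := by rw [← card_Γ hF]; exact pow_card_eq_one'
  have h2 : (τ : Γ) = 1 := by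
    rw [← orderOf_eq_one_iff]
    refine Nat.eq_one_of_dvd_coprimes ?_ (orderOf_dvd_of_pow_eq_one h) (orderOf_dvd_of_pow_eq_one h1)
    exact (Nat.Coprime.pow_left 2 (by simp) : Nat.Coprime (2 ^ 2) (2 * m + 1))
  have h3 : ∀ x : F, x = 0 ∨ x = 1 := fun x => by
    have h4 : ∀ y : F, θ y = y := fun y => DFunLike.congr_fun h2 y
    have := θθ x
    rw [h4, h4] at this
    grind
  have h4 : Fintype.card F ≤ 2 := by
    classical
    exact (card_le_card fun x _ => by simpa using h3 x :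
      (univ : Finset F).card ≤ ({0, 1} : Finset F).card).trans card_le_two
  have : 2 ^ 3 ≤ 2 ^ (2 * m + 1) := Nat.pow_le_pow_right (by norm_num) (by omega)
  omega

theorem key {m : ℕ} (hm : 1 ≤ m) (hF : Fintype.card F = 2 ^ (2 * m + 1)) (g h : F →+ F)
    (H : ∀ x, h (x * θ x) = g x * θ (g x)) : ∃ (c : F) (σ : Γ), ∀ x, g x = c * σ x := by
  classical
  obtain ⟨a, ha⟩ := span hF g
  obtain ⟨b, hb⟩ := span hF h
  have h4 := τ_four hm hF
  obtain ⟨h1, h2⟩ := quad (M := fun α β => a α * θ (a (τ⁻¹ * β)) - if β = τ * α then b α else 0)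
    fun x => by
      simp only [sub_mul, sum_sub_distrib, ite_mul, zero_mul, sum_ite_eq', mem_univ, if_true]
      rw [sub_eq_zero]
      have h5 : θ (g x) = ∑ β : Γ, θ (a (τ⁻¹ * β)) * β x := by
        rw [ha, map_sum, ← Equiv.sum_comp (Equiv.mulLeft (τ : Γ)) fun β => θ (a (τ⁻¹ * β)) * β x]
        simp [τ_apply]
      calc _ = g x * θ (g x) := by
            rw [h5, ha, sum_mul_sum]
            exact sum_congr rfl fun _ _ => sum_congr rfl fun _ _ => by ring
        _ = _ := by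
            rw [← H, hb]
            exact sum_congr rfl fun σ _ => by
              rw [map_mul, θ_comm, AlgEquiv.mul_apply, τ_apply, mul_assoc]
  have h0 : ∀ α : Γ, α ≠ τ * α := fun α h => h4 (by rw [right_eq_mul.1 h, one_pow])
  have h3 : ∀ α, a α ≠ 0 → ∀ γ, γ ≠ α → γ ≠ τ⁻¹ * (τ⁻¹ * α) → a γ = 0 := fun α hα γ h5 h6 => by
    have h7 := h2 α
    have h8 := h1 α (τ * γ)
    simp only [if_neg (h0 α), sub_zero, mul_eq_zero, hα, false_or] at h7
    rw [if_neg (by simpa using h5), if_neg (fun h => h6 (by simp [h])), h7] at h8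
    simpa [hα] using h8
  by_cases h5 : ∃ α, a α ≠ 0
  · obtain ⟨α, hα⟩ := h5
    refine ⟨a α, α, fun x => ?_⟩
    rw [ha, sum_eq_single α (fun γ _ hγ => ?_) (by simp)]
    rw [mul_eq_zero]
    left
    by_contra h6
    obtain rfl : γ = τ⁻¹ * (τ⁻¹ * α) := by_contra fun h7 => h6 (h3 α hα γ hγ h7)
    refine hα (h3 _ h6 α (Ne.symm hγ) fun h7 => h4 ?_)
    rw [← mul_left_inj α, one_mul]
    conv_lhs => rw [h7]
    group
  · push Not at h5
    exact ⟨0, 1, fun x => by simp [ha, h5]⟩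

section grp
variable {S : Type*} [Group S] (t : F × F ≃ S)
  (ht : ∀ a b c d, t (a, b) * t (c, d) = t (a + c, b + d + θ a * c))
include ht

omit [Fintype F] [Algebra (ZMod 2) F] in
theorem t_one : t (0, 0) = 1 := by
  have := ht 0 0 0 0
  simpa using this

/-- The standard automorphisms. -/
noncomputable def aut (u : (F →+ F) × Fˣ × Γ) : MulAut S :=
  MulEquiv.ofBijective (MonoidHom.mk' (fun s => t (u.2.1 * u.2.2 (t.symm s).1,
    u.1 (t.symm s).1 + u.2.1 * θ (u.2.1 : F) * u.2.2 (t.symm s).2)) fun x y => by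
      obtain ⟨⟨a, b⟩, rfl⟩ := t.surjective x
      obtain ⟨⟨c, d⟩, rfl⟩ := t.surjective y
      simp only [ht, Equiv.symm_apply_apply, map_add, map_mul, θ_comm]
      congr 2 <;> ring) (by
    haveI : Finite S := Finite.of_equiv _ t
    refine Finite.injective_iff_bijective.1 fun x y h => ?_
    obtain ⟨⟨a, b⟩, rfl⟩ := t.surjective x
    obtain ⟨⟨c, d⟩, rfl⟩ := t.surjective y
    simp only [MonoidHom.mk'_apply, Equiv.symm_apply_apply, Equiv.apply_eq_iff_eq, Prod.mk.injEq,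
      mul_eq_mul_left_iff, Units.ne_zero, or_false, EmbeddingLike.apply_eq_iff_eq] at h ⊢
    obtain ⟨rfl, h⟩ := h
    simpa using h)

theorem aut_apply (u : (F →+ F) × Fˣ × Γ) (a b : F) :
    aut t ht u (t (a, b)) = t (u.2.1 * u.2.2 a, u.1 a + u.2.1 * θ (u.2.1 : F) * u.2.2 b) := by
  simp [aut]

theorem aut_inj : Function.Injective (aut t ht) := by
  rintro ⟨k, c, σ⟩ ⟨l, d, ρ⟩ h
  have h1 := fun a => t.injective ((aut_apply t ht _ a 0).symm.trans
    ((DFunLike.congr_fun h (t (a, 0))).trans (aut_apply t ht _ a 0)))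
  simp only [map_zero, mul_zero, add_zero, Prod.mk.injEq] at h1
  obtain rfl : c = d := Units.ext (by simpa using (h1 1).1)
  obtain rfl : σ = ρ := AlgEquiv.ext fun a => by simpa using (h1 a).1
  rw [AddMonoidHom.ext fun a => (h1 a).2]

omit [Algebra (ZMod 2) F] in
theorem sq_iff {a b : F} : t (a, b) ^ 2 = 1 ↔ a = 0 := by
  rw [sq, ht, ← t_one t ht, t.apply_eq_iff_eq]
  simp [CharTwo.add_self_eq_zero]

theorem aut_surj {m : ℕ} (hm : 1 ≤ m) (hF : Fintype.card F = 2 ^ (2 * m + 1)) :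
    Function.Surjective (aut t ht) := fun φ => by
  choose f hf using fun u : F × F => t.surjective (φ (t u))
  have h1 : ∀ b, (f (0, b)).1 = 0 := fun b => (sq_iff t ht (b := (f (0, b)).2)).1 (by
    rw [hf, ← map_pow, (sq_iff t ht).2 rfl, map_one])
  have h2 : ∀ a b c d, f (a + c, b + d + θ a * c) = ((f (a, b)).1 + (f (c, d)).1,
      (f (a, b)).2 + (f (c, d)).2 + θ (f (a, b)).1 * (f (c, d)).1) := fun a b c d =>
    t.injective (by rw [← ht, hf, hf, hf, ← map_mul, ht])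
  have h3 : ∀ a b, f (a, b) = ((f (a, 0)).1, (f (a, 0)).2 + (f (0, b)).2) := fun a b => by
    simpa [h1] using h2 a 0 0 b
  let g : F →+ F := AddMonoidHom.mk' (fun a => (f (a, 0)).1) fun a c => by
    have := congrArg Prod.fst (h2 a 0 c 0)
    rwa [h3] at this
  let h : F →+ F := AddMonoidHom.mk' (fun b => (f (0, b)).2) fun b d => by
    simpa [h1] using congrArg Prod.snd (h2 0 b 0 d)
  have H : ∀ x, h (x * θ x) = g x * θ (g x) := fun x => by
    simpa [CharTwo.add_self_eq_zero, mul_comm, g, h] using congrArg Prod.snd (h2 x 0 x 0)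
  obtain ⟨c, σ, h4⟩ := key hm hF g h H
  have h5 : c ≠ 0 := by
    rintro rfl
    have h5 : φ (t (1, 0)) ^ 2 = 1 := by
      rw [← hf]; exact (sq_iff t ht).2 (by simpa [g] using h4 1)
    rw [← map_pow, map_eq_one_iff _ φ.injective, sq_iff t ht] at h5
    exact one_ne_zero h5
  have h6 : ∀ b, h b = c * θ c * σ b := fun b => by
    obtain ⟨x, rfl⟩ := exists_mul_θ b
    rw [H, h4, map_mul, map_mul, θ_comm]; ring
  let k : F →+ F := AddMonoidHom.mk' (fun a => (f (a, 0)).2) fun a d => by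
    have h7 := congrArg Prod.snd (h2 a 0 d 0)
    rw [h3] at h7
    change _ + h _ = _ + θ (g a) * g d at h7
    rw [h6, h4, h4] at h7
    simp only [add_zero, zero_add, map_mul, θ_comm] at h7
    linear_combination h7
  refine ⟨(k, Units.mk0 c h5, σ), MulEquiv.ext fun s => ?_⟩
  obtain ⟨⟨a, b⟩, rfl⟩ := t.surjective s
  rw [aut_apply, ← hf, h3, Units.val_mk0, ← h4, ← h6]
  rfl

/-- The automorphisms acting trivially modulo the centre. -/
def K : Subgroup (MulAut S) where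
  carrier := {φ | ∀ a b, ∃ e, φ (t (a, b)) = t (a, b) * t (0, e)}
  one_mem' a b := ⟨0, by simp [t_one t ht]⟩
  mul_mem' {φ ψ} h1 h2 a b := by
    obtain ⟨e, he⟩ := h2 a b
    obtain ⟨x, hx⟩ := h1 a b
    obtain ⟨y, hy⟩ := h1 0 e
    exact ⟨x + (e + y), by rw [MulAut.mul_apply, he, map_mul, hx, hy]; simp [ht, add_assoc]⟩
  inv_mem' {φ} h a b := by
    obtain ⟨⟨c, d⟩, h1⟩ := t.surjective (φ⁻¹ (t (a, b)))
    obtain ⟨e, he⟩ := h c d
    rw [h1, ← MulAut.mul_apply, mul_inv_cancel, MulAut.one_apply, ← h1, ht] at he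
    obtain rfl : a = c := by simpa using congrArg Prod.fst (t.injective he)
    exact ⟨b + d, by simp [← h1, ht, ← add_assoc, CharTwo.add_self_eq_zero]⟩

theorem main {m : ℕ} (hm : 1 ≤ m) (hF : Fintype.card F = 2 ^ (2 * m + 1)) :
    IsElementaryAbelian 2 (pCore 2 (MulAut S)) ∧
      Nat.card (pCore 2 (MulAut S)) = 2 ^ ((2 * m + 1) ^ 2) ∧
      Nat.card (MulAut S) = 2 ^ ((2 * m + 1) ^ 2) * ((2 * m + 1) * (2 ^ (2 * m + 1) - 1)) := by
  classical
  haveI : Finite S := Finite.of_equiv _ t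
  have h1 : Nat.card (MulAut S) =
      2 ^ ((2 * m + 1) ^ 2) * ((2 * m + 1) * (2 ^ (2 * m + 1) - 1)) := by
    rw [← Nat.card_congr (Equiv.ofBijective _ ⟨aut_inj t ht, aut_surj t ht hm hF⟩), Nat.card_prod,
      Nat.card_prod, card_hom hF, card_Γ hF, Nat.card_units, Nat.card_eq_fintype_card, hF]
    ring
  have h2 : ∀ φ ∈ K t ht, ∃ k, φ = aut t ht (k, 1, 1) := fun φ hφ => by
    obtain ⟨⟨k, c, σ⟩, rfl⟩ := aut_surj t ht hm hF φ
    have h2 : ∀ a, c * σ a = a := fun a => by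
      obtain ⟨e, he⟩ := hφ a 0
      rw [aut_apply, ht] at he
      simpa using congrArg Prod.fst (t.injective he)
    obtain rfl : c = 1 := Units.ext (by simpa using h2 1)
    obtain rfl : σ = 1 := AlgEquiv.ext fun a => by simpa using h2 a
    exact ⟨k, rfl⟩
  have h3 : ∀ k a b, aut t ht (k, 1, 1) (t (a, b)) = t (a, k a + b) := fun k a b => by
    simp [aut_apply]
  have h4 : Nat.card (K t ht) = 2 ^ ((2 * m + 1) ^ 2) := by
    rw [← card_hom hF]
    refine (Nat.card_congr (Equiv.ofBijective (fun k => ⟨aut t ht (k, 1, 1), fun a b =>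
      ⟨k a, by simp [h3, ht, add_comm]⟩⟩) ⟨fun k l h => ?_, fun φ => ?_⟩)).symm
    · exact congrArg Prod.fst (aut_inj t ht (congrArg Subtype.val h))
    · obtain ⟨k, hk⟩ := h2 φ.1 φ.2
      exact ⟨k, Subtype.ext hk.symm⟩
  have h5 : (K t ht).Normal := ⟨fun φ hφ ψ a b => by
    obtain ⟨⟨c, d⟩, h5⟩ := t.surjective (ψ⁻¹ (t (a, b)))
    obtain ⟨e, he⟩ := hφ c d
    obtain ⟨⟨x, y⟩, h6⟩ := t.surjective (ψ (t (0, e)))
    obtain rfl : x = 0 := (sq_iff t ht).1 (by rw [h6, ← map_pow, (sq_iff t ht).2 rfl, map_one])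
    refine ⟨y, ?_⟩
    rw [MulAut.mul_apply, MulAut.mul_apply, ← h5, he, map_mul, h5, h6]
    simp⟩
  have h6 : ¬ 2 ∣ (K t ht).index := by
    have h6 := (K t ht).card_mul_index
    rw [h4, h1, Nat.mul_right_inj (by positivity)] at h6
    rw [h6, Nat.two_dvd_ne_zero, ← Nat.odd_iff, Nat.odd_mul]
    exact ⟨odd_two_mul_add_one m, Nat.Even.sub_odd Nat.one_le_two_pow (by simp [parity_simps]) odd_one⟩
  obtain ⟨P, hP⟩ := H1.exists_sylow_of_not_dvd_index (IsPGroup.of_card h4) h6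
  rw [H1.pCore_eq_sylow_of_normal P (hP ▸ h5), hP]
  refine ⟨⟨⟨⟨fun φ ψ => Subtype.ext ?_⟩⟩, fun φ hφ => ?_⟩, h4, h1⟩
  · obtain ⟨k, hk⟩ := h2 φ.1 φ.2
    obtain ⟨l, hl⟩ := h2 ψ.1 ψ.2
    refine MulEquiv.ext fun s => ?_
    obtain ⟨⟨a, b⟩, rfl⟩ := t.surjective s
    simp [hk, hl, h3, add_left_comm]
  · obtain ⟨k, rfl⟩ := h2 φ hφ
    refine MulEquiv.ext fun s => ?_
    obtain ⟨⟨a, b⟩, rfl⟩ := t.surjective s
    simp [sq, h3, ← add_assoc, CharTwo.add_self_eq_zero]

end grp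

end H21.SA
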